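import Cfsg.Agent.H11.SimDSpec

/-! # S3694 (tower SIM), chapter D: job DLb. -/

set_option autoImplicit false

namespace H30.SimDLb

open Subgroup Cfsg H98 Matrix H0.Sim H11.SimD

variable {n : ℕ} {F : Type} [Field F]

theorem del_anti (j : Jm n F) {U W : Submodule F (Fin n → F)} (h : U ≤ W) : del j W ≤ del j U :=
  fun _ hv => mem_del.2 fun x hx => mem_del.1 hv x (h hx)

theorem del_sup (j : Jm n F) (U W : Submodule F (Fin n → F)) :
    del j (U ⊔ W) = del j U ⊓ del j W := by
  refine le_antisymm (le_inf (del_anti j le_sup_left) (del_anti j le_sup_right)) ?_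
  intro v hv
  refine mem_del.2 fun x hx => ?_
  obtain ⟨a, ha, b, hb, rfl⟩ := Submodule.mem_sup.1 hx
  have e : (fun i => j.σ ((a + b) i)) = (fun i => j.σ (a i)) + fun i => j.σ (b i) := by
    ext i; simp
  rw [e, add_dotProduct, mem_del.1 hv.1 a ha, mem_del.1 hv.2 b hb, add_zero]

theorem jobD_DLb : H11.SimD.JobDLb := by
  intro a n F _ _ j
  refine ⟨a n F j, fun U W => ⟨⟨fun h => ?_, del_anti j⟩, ?_, del_sup j U W⟩, fun h U => ?_⟩
  · have e : del j (U ⊔ W) = del j W := by rw [del_sup, inf_eq_right.2 h]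
    have h1 := a n F j (U ⊔ W)
    have h2 := a n F j W
    rw [e] at h1
    have h3 : W = U ⊔ W := Submodule.eq_of_le_of_finrank_eq le_sup_right (by omega)
    rw [h3]
    exact le_sup_left
  · refine (Submodule.eq_of_le_of_finrank_eq
      (sup_le (del_anti j inf_le_left) (del_anti j inf_le_right)) ?_).symm
    have h1 := Submodule.finrank_sup_add_finrank_inf_eq (del j U) (del j W)
    have h2 := Submodule.finrank_sup_add_finrank_inf_eq U W
    rw [← del_sup] at h1
    have h3 := a n F j (U ⊔ W)
    have h4 := a n F j (U ⊓ W)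
    have h5 := a n F j U
    have h6 := a n F j W
    omega
  · ext v
    rw [mem_mg', mem_del, mem_del]
    simp only [_root_.mul_inv_rev, Units.val_mul, mulVec_mulVec]

end H30.SimDLb
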