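import Cfsg.Agent.H0.SimSpec
import Cfsg.Agent.H14.Quasi

/-! # S3694 (tower SIM): `Q` normalises no quasisimple subgroup of `H` (job NC). -/

set_option autoImplicit false

namespace H30.SimNC

open Subgroup Cfsg Matrix H0.Sim
open scoped commutatorElement

theorem nc_gen {G : Type*} [Group G] [Finite G] {H Q L Z : Subgroup G} {p : ℕ} (pp : p.Prime)
    (hZ : Z ≤ center G) (hn : H ≤ normalizer (Q : Set G))
    (pQ : ∀ y ∈ Q, ∃ k : ℕ, y ^ p ^ k ∈ Z)
    (ch : ∀ h ∈ H, (∀ y ∈ Q, ⁅h, y⁆ ∈ Z) → h ∈ Q) (hLH : L ≤ H) (hL : IsQuasisimple L) :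
    ¬ Q ≤ normalizer (L : Set G) := by
  intro hQ
  have hLn : L ≤ normalizer (Q : Set G) := hLH.trans hn
  have hLQ : L ≤ Q := by
    rcases H14.quasi_sub_normalized hL hLn with h | h
    · exact h
    · have h1 : ⁅Q, L⁆ ≤ Q ⊓ L :=
        le_inf (by rw [commutator_comm]; exact le_normalizer_iff_commutator_le_right.mp hLn)
          (le_normalizer_iff_commutator_le_right.mp hQ)
      have h2 : ⁅⁅Q, L⁆, L⁆ = ⊥ := H14.commutator_eq_bot_mono h h1 le_rfl
      have h3 : ⁅Q, L⁆ = ⊥ := H14.commutator_eq_bot_of_perfect (H14.quasi_sub_perfect hL) h2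
      intro l hl
      refine ch l (hLH hl) fun y hy => ?_
      have := (H14.commutator_eq_bot_iff_comm.mp h3 y hy l hl).symm
      rw [commutatorElement_eq_one_iff_mul_comm.mpr this]
      exact Z.one_mem
  haveI : Fact p.Prime := ⟨pp⟩
  have hp : IsPGroup p (L ⧸ center L) := by
    intro x
    obtain ⟨y, rfl⟩ := QuotientGroup.mk_surjective x
    obtain ⟨k, hk⟩ := pQ y (hLQ y.2)
    refine ⟨k, ?_⟩
    rw [← QuotientGroup.mk_pow, QuotientGroup.eq_one_iff]
    refine mem_center_iff.mpr fun b => Subtype.ext ?_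
    exact mem_center_iff.mp (hZ hk) b
  have hnil : Group.IsNilpotent (L ⧸ center L) := hp.isNilpotent
  exact H14.quasi_not_solvable (H14.quasi_quotient_center hL) inferInstance

theorem norm_of_iv {n : ℕ} {F : Type} [Field F] [Fintype F] {Θ : Set (Jm n F)}
    {H Q : Subgroup (GL (Fin n) F)}
    (inn : ∀ h ∈ H, (⟨h, RingEquiv.refl F, false⟩ : Jm n F) ∈ Θ) (iv : Iv Θ (mat Q)) :
    H ≤ normalizer (Q : Set (GL (Fin n) F)) := by
  have key : ∀ h ∈ H, ∀ y ∈ Q, h * y * h⁻¹ ∈ Q := by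
    intro h hh y hy
    obtain ⟨e, he, h1⟩ := iv _ (inn h hh) (y : Mt n F) ⟨y, hy, rfl⟩
    have : e = h * y * h⁻¹ := by
      apply Units.ext
      rw [h1]
      simp [th]
    exact this ▸ he
  intro h hh
  rw [mem_normalizer_iff]
  intro y
  constructor
  · exact key h hh y
  · intro hy
    have := key h⁻¹ (H.inv_mem hh) _ hy
    simpa [mul_assoc] using this

theorem jobNC : H0.Sim.JobNC := by
  intro n F _ _ u q p Θ H Q E L hc hLH hL
  exact nc_gen (Z := Zg n F u q) hc.pp inf_le_right (norm_of_iv hc.inn hc.ivQ) hc.pQ hc.ch hLH hL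

end H30.SimNC
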