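import Cfsg.Agent.H91.AHSpec

/-! AH tower, slot CB: involutions whose centraliser order is four times an odd number. -/

set_option autoImplicit false
set_option linter.all false

namespace H30.AhCB

open Subgroup H91.AH

section D

variable {D : Type} [Group D] [Finite D] {ε : D} {m : ℕ}

theorem odd_mem {H K : Subgroup D} (hK : K ≤ normalizer (H : Set D)) {g : D} (hg : g ∈ K)
    (ho : Odd (H.relIndex K)) (h2 : g * g ∈ H) : g ∈ H := by
  haveI := normal_subgroupOf_of_le_normalizer hK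
  obtain ⟨j, hj⟩ := ho
  have h : g ^ H.relIndex K ∈ H := (H.subgroupOf K).pow_index_mem ⟨g, hg⟩
  rw [hj, pow_succ, pow_mul, sq] at h
  exact (H.mul_mem_cancel_left (H.pow_mem h2 j)).1 h

theorem odd_mem' {H : Subgroup D} {g : D} (hg : g ∈ normalizer (H : Set D)) (ho : Odd H.index)
    (h2 : g * g ∈ H) : g ∈ H :=
  odd_mem le_rfl hg (ho.of_dvd_nat (relIndex_dvd_index_of_le le_normalizer)) h2

theorem mem_z (he : orderOf ε = 2) {x : D} (h : x ∈ zpowers ε) : x = 1 ∨ x = ε := by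
  classical
  obtain ⟨i, hi, rfl⟩ := Finset.mem_image.1 (mem_zpowers_iff_mem_range_orderOf.1 h)
  rw [he, Finset.mem_range] at hi
  interval_cases i <;> simp

theorem eq_one_of {u : D} (ho : Odd (orderOf u)) (h : u * u = 1) : u = 1 :=
  orderOf_eq_one_iff.1 (Nat.eq_one_of_dvd_coprimes ho.coprime_two_left
    (orderOf_dvd_of_pow_eq_one (by rw [sq, h])) dvd_rfl)

theorem fpf (he : orderOf ε = 2) (hc : ∀ g, Commute g ε) (hm : Nat.card D = 4 * m) (mo : Odd m)
    {u f : D} (ho : Odd (orderOf u)) (hr : IsConj u u⁻¹) (h1 : f ∉ zpowers ε)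
    (h2 : f * f ∈ zpowers ε) (h : Commute f u) : u = 1 := by
  let H := centralizer ({u} : Set D)
  have hZ : zpowers ε ≤ H := zpowers_le.2 (mem_cent.2 (hc u).symm)
  have hN : H ≤ normalizer (zpowers ε : Set D) := fun g _ => centralizer_le_normalizer _ (by
    rintro _ ⟨i, rfl⟩; exact ((hc g).zpow_right i).symm)
  obtain ⟨k, hk⟩ := Nat.not_odd_iff_even.1 fun o => h1 (odd_mem hN (mem_cent.2 h) o h2)
  have e1 := (zpowers ε).subgroupOf H |>.index_mul_card
  rw [Nat.card_congr (subgroupOfEquivOfLe hZ).toEquiv, Nat.card_zpowers, he] at e1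
  change (zpowers ε).relIndex H * 2 = _ at e1
  have e2 := H.index_mul_card
  rw [← e1, hk, hm] at e2
  have oi : Odd H.index := mo.of_dvd_nat ⟨k, by nlinarith⟩
  obtain ⟨g, hg⟩ := isConj_iff.1 hr
  have s1 : SemiconjBy g u u⁻¹ := mul_inv_eq_iff_eq_mul.1 hg
  have s2 : SemiconjBy g u⁻¹ u := by simpa using s1.inv_right
  have hgN : g ∈ normalizer (H : Set D) := mem_normalizer_fintype fun x hx => mem_cent.2 (by
    have := (Commute.conj (mem_cent.1 hx).inv_right g)
    rwa [mul_inv_eq_iff_eq_mul.2 s2] at this)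
  have := mem_cent.1 (odd_mem' hgN oi (mem_cent.2 (s2.mul_left s1)))
  refine eq_one_of ho (mul_eq_one_iff_eq_inv.2 ?_)
  rw [← hg, this.eq, mul_inv_cancel_right]

theorem struct (he : orderOf ε = 2) (hc : ∀ g, Commute g ε) (hm : Nat.card D = 4 * m) (mo : Odd m)
    (hr : ∀ u : D, Odd (orderOf u) → IsConj u u⁻¹) : ∃ (O : Subgroup D) (f0 : D), Nat.card O = m ∧
      (∀ u, u ∈ O ↔ Odd (orderOf u)) ∧ f0 ∉ zpowers ε ∧ f0 * f0 ∈ zpowers ε ∧
      (∀ f, f ∉ zpowers ε → f * f ∈ zpowers ε → ∀ u ∈ O, f * u * f⁻¹ = u⁻¹) ∧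
      ∀ u ∈ O, u ≠ 1 → (centralizer ({u} : Set D)).index = 2 := by
  haveI : (zpowers ε).Normal := ⟨by
    rintro _ ⟨i, rfl⟩ g
    rw [((hc g).zpow_right i).eq, mul_inv_cancel_right]; exact ⟨i, rfl⟩⟩
  obtain ⟨T, hT⟩ := (IsPGroup.of_card (p := 2) (n := 1) (G := zpowers ε)
    (by rw [Nat.card_zpowers, he, pow_one])).exists_le_sylow
  have m0 := mo.pos
  have cT : Nat.card T = 4 := by
    rw [T.card_eq_multiplicity, hm, Nat.factorization_mul (by omega) (by omega), Finsupp.add_apply,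
      Nat.factorization_eq_zero_of_not_dvd (n := m) mo.not_two_dvd_nat,
      show 4 = 2 ^ 2 from rfl, Nat.Prime.factorization_pow Nat.prime_two]
    simp
  have iT : (T : Subgroup D).index = m := by
    have := (T : Subgroup D).index_mul_card
    rw [hm] at this
    change _ * Nat.card T = _ at this
    rw [cT] at this; omega
  have i2 : ((zpowers ε).subgroupOf T).index = 2 := by
    have e1 := (zpowers ε).subgroupOf T |>.index_mul_card
    rw [Nat.card_congr (subgroupOfEquivOfLe hT).toEquiv, Nat.card_zpowers, he] at e1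
    change _ = Nat.card T at e1
    omega
  have ab : (T : Subgroup D) ≤ centralizer (T : Set D) := le_centralizer_iff_isMulCommutative.2
    (IsPGroup.isMulCommutative_of_card_eq_prime_sq (p := 2) cT)
  have cz : ∀ g, ∀ x ∈ zpowers ε, g * x * g⁻¹ = x := by
    rintro g _ ⟨i, rfl⟩
    rw [((hc g).zpow_right i).eq, mul_inv_cancel_right]
  have hP : normalizer (T : Set D) ≤ centralizer (T : Set D) := fun g hg => by
    refine odd_mem' (mem_normalizer_fintype fun c hc y hy => by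
      have := hc _ ((mem_normalizer_iff.1 (inv_mem hg) y).1 hy)
      calc y * (g * c * g⁻¹) = g * (g⁻¹ * y * g⁻¹⁻¹ * c) * g⁻¹ := by group
        _ = _ := by rw [this]; group)
      (mo.of_dvd_nat (iT ▸ index_dvd_of_le ab)) fun x hx => ?_
    have hx' : g * x * g⁻¹ ∈ (T : Subgroup D) := (mem_normalizer_iff.1 hg x).1 hx
    have h1 : g * x * g⁻¹ * x⁻¹ ∈ zpowers ε :=
      (mul_mem_iff_of_index_two i2 (a := ⟨_, hx'⟩) (b := ⟨_, inv_mem hx⟩)).2 (by
        rw [mem_subgroupOf, mem_subgroupOf, inv_mem_iff]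
        refine ⟨fun h => ?_, fun h => Normal.conj_mem ‹_› _ h g⟩
        simpa [mul_assoc] using Normal.conj_mem ‹_› _ h g⁻¹)
    have h2 := cz g _ h1
    have h3 : g * x * g⁻¹ * x⁻¹ * (g * x * g⁻¹ * x⁻¹) = 1 := by
      rcases mem_z he h1 with e | e <;> rw [e]
      exacts [one_mul 1, by rw [← sq, ← he, pow_orderOf_eq_one]]
    calc x * (g * g) = g * x * g⁻¹ * x⁻¹ * (g * x * g⁻¹ * x⁻¹) * x * (g * g) := by rw [h3, one_mul]
      _ = g * (g * x * g⁻¹ * x⁻¹) * g⁻¹ * (g * x * g⁻¹ * x⁻¹) * x * (g * g) := by rw [h2]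
      _ = _ := by group
  have hO := MonoidHom.ker_transferSylow_isComplement' T hP
  set O := (MonoidHom.transferSylow T hP).ker
  have cO : Nat.card O = m := by rw [← hO.index_eq_card, iT]
  have iO : O.index = 4 := hO.symm.index_eq_card.trans cT
  have mO : ∀ u, u ∈ O ↔ Odd (orderOf u) := fun u =>
    ⟨fun h => mo.of_dvd_nat (cO ▸ O.orderOf_dvd_natCard h), fun h => by
      obtain ⟨k, hk⟩ := exists_pow_eq_self_of_coprime (x := u) (n := 2 ^ 2)
        (h.coprime_two_left.pow_left 2)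
      rw [← hk]
      have := O.pow_index_mem u
      rw [iO] at this
      exact O.pow_mem this k⟩
  have fp : ∀ f, f ∉ zpowers ε → f * f ∈ zpowers ε →
      MonoidHom.FixedPointFree (MulAut.conjNormal (H := O) f) ∧
        Function.Involutive (MulAut.conjNormal (H := O) f) := fun f h1 h2 =>
    ⟨fun u hu => Subtype.ext (fpf he hc hm mo ((mO _).1 u.2) (hr _ ((mO _).1 u.2)) h1 h2
      (mul_inv_eq_iff_eq_mul.1 (congrArg Subtype.val hu))), fun u => Subtype.ext (by
      have := cz u.1⁻¹ _ h2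
      change f * (f * u * f⁻¹) * f⁻¹ = u
      calc _ = u * (u.1⁻¹ * (f * f) * u.1⁻¹⁻¹) * f⁻¹ * f⁻¹ := by group
        _ = _ := by rw [this]; group)⟩
  have iv : ∀ f, f ∉ zpowers ε → f * f ∈ zpowers ε → ∀ u ∈ O, f * u * f⁻¹ = u⁻¹ :=
    fun f h1 h2 u hu => congrArg Subtype.val
      (congrFun ((fp f h1 h2).1.coe_eq_inv_of_involutive (fp f h1 h2).2) ⟨u, hu⟩)
  obtain ⟨f0, h1⟩ : ∃ f0 : T, f0 ∉ (zpowers ε).subgroupOf T := by
    by_contra! h
    rw [(eq_top_iff' _).2 h, index_top] at i2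
    omega
  have h2 : f0.1 * f0.1 ∈ zpowers ε := mul_self_mem_of_index_two i2 f0
  refine ⟨O, f0, cO, mO, h1, h2, iv, fun u hu u1 => ?_⟩
  have le : O ≤ centralizer {u} := fun x hx => mem_cent.2 (congrArg Subtype.val
    ((fp f0 h1 h2).1.commute_all_of_involutive (fp f0 h1 h2).2 ⟨x, hx⟩ ⟨u, hu⟩))
  have d := index_dvd_of_le le
  rw [iO, show 4 = 2 ^ 2 from rfl] at d
  obtain ⟨i, hi, e⟩ := (Nat.dvd_prime_pow Nat.prime_two).1 d
  interval_cases i
  · exact absurd (fpf he hc hm mo ((mO _).1 hu) (hr _ ((mO _).1 hu)) h1 h2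
      (mem_cent.1 ((index_eq_one.1 e).ge (mem_top _)))) u1
  · exact e
  · have : O = centralizer {u} := eq_of_le_of_card_ge le (by
      have := (centralizer ({u} : Set D)).index_mul_card
      rw [e, hm] at this
      omega)
    have := (mO ε).1 (this.ge (mem_cent.2 (hc u).symm))
    rw [he] at this
    exact absurd this (by decide)

end D

theorem jobCB : JobCB := by
  intro G _ _ _ hA e he h4 h8
  let D := centralizer ({e} : Set G)
  let ε : D := ⟨e, mem_cent.2 (Commute.refl e)⟩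
  have hε : orderOf ε = 2 := (orderOf_coe ε).symm.trans he
  obtain ⟨m, hm⟩ := h4
  have mo : Odd m := Nat.not_even_iff_odd.1 fun ⟨k, hk⟩ => h8 ⟨k, by omega⟩
  obtain ⟨O, f0, cO, mO, h1, h2, iv, ix⟩ := struct (D := D) hε
    (fun g => Subtype.ext (mem_cent.1 g.2)) hm mo fun u ho => by
      obtain ⟨g, g1, g2⟩ := hA.rat.pair_inv (mem_cent.1 u.2).symm
        (by rw [he, orderOf_coe]; exact ho.coprime_two_left)
      exact isConj_iff.2 ⟨⟨g, mem_cent.2 g1⟩, Subtype.ext g2⟩
  refine ⟨?_, fun y f hy ho hf f2 f1 fe => congrArg Subtype.val (iv ⟨f, mem_cent.2 hf⟩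
    (fun h => (mem_z hε h).elim (fun k => f1 (congrArg Subtype.val k))
      fun k => fe (congrArg Subtype.val k))
    ((show (⟨f, mem_cent.2 hf⟩ * ⟨f, mem_cent.2 hf⟩ : D) = 1 from Subtype.ext f2) ▸ one_mem _)
    ⟨y, mem_cent.2 hy⟩ ((mO _).2 (by rwa [← orderOf_coe])))⟩
  have pw : ∀ u ∈ O, (e * u.1) ^ m = e := fun u hu => by
    have h : u ^ m = 1 := orderOf_dvd_iff_pow_eq_one.1 (cO ▸ O.orderOf_dvd_natCard hu)
    obtain ⟨k, hk⟩ := mo
    rw [(mem_cent.1 u.2).symm.mul_pow, show u.1 ^ m = 1 from congrArg Subtype.val h, mul_one, hk,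
      pow_succ, pow_mul, ← he, pow_orderOf_eq_one, one_pow, one_mul]
  have c2 : ∀ u ∈ O, u ≠ 1 → cc (e * u.1) = 2 * m := fun u hu u1 => by
    have e1 : centralizer {e * u.1} = (centralizer ({u} : Set D)).map D.subtype := by
      ext g
      rw [mem_cent]
      constructor
      · intro h
        have h' : Commute g e := pw u hu ▸ h.pow_right m
        exact ⟨⟨g, mem_cent.2 h'⟩, mem_cent.2 (Subtype.ext (by
          have := h'.inv_right.mul_right h
          rwa [inv_mul_cancel_left] at this)), rfl⟩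
      · rintro ⟨g, hg, rfl⟩
        exact (mem_cent.1 g.2).mul_right (congrArg Subtype.val (mem_cent.1 hg))
    have e2 := (centralizer ({u} : Set D)).index_mul_card
    rw [ix u hu u1, show Nat.card D = 4 * m from hm] at e2
    rw [cc, e1, card_map_of_injective D.subtype_injective]
    omega
  have m3 : m ≤ 3 := by
    classical
    by_cases h : ∀ u ∈ O, u = 1
    · rw [← cO, (eq_bot_iff_forall O).2 h, card_bot]; omega
    push Not at h
    obtain ⟨u, hu, u1⟩ := h
    have : (O : Set D) ⊆ ({1, u, u⁻¹} : Finset D) := fun v hv => by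
      by_cases v1 : v = 1
      · simp [v1]
      obtain ⟨g, hg⟩ := isConj_iff.1 (hA _ _ ((c2 u hu u1).trans (c2 v hv v1).symm))
      have g1 : g * e * g⁻¹ = e := by rw [← pw u hu, ← conj_pow, hg, pw v hv, pw u hu]
      have g2 : (⟨g, mem_cent.2 (mul_inv_eq_iff_eq_mul.1 g1)⟩ * u *
          ⟨g, mem_cent.2 (mul_inv_eq_iff_eq_mul.1 g1)⟩⁻¹ : D) = v := Subtype.ext (by
        rw [← conj_mul, g1] at hg
        exact mul_left_cancel hg)
      generalize (⟨g, mem_cent.2 (mul_inv_eq_iff_eq_mul.1 g1)⟩ : D) = γ at g2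
      by_cases hγ : γ ∈ centralizer ({u} : Set D)
      · simp [← g2, (mem_cent.1 hγ).eq]
      · have h0 : f0 ∉ centralizer ({u} : Set D) := fun k => u1 (eq_one_of ((mO u).1 hu)
          (mul_eq_one_iff_eq_inv.2 (by rw [← iv f0 h1 h2 u hu, (mem_cent.1 k).eq]; simp)))
        have h3 := mem_cent.1 ((mul_mem_iff_of_index_two (ix u hu u1) (a := f0⁻¹) (b := γ)).2
          (by simp [h0, hγ]))
        have : v = u⁻¹ := by
          rw [← g2, ← iv f0 h1 h2 u hu]
          calc γ * u * γ⁻¹ = f0 * (f0⁻¹ * γ * u) * γ⁻¹ := by group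
            _ = f0 * u * f0⁻¹ * (f0 * (f0⁻¹ * γ) * γ⁻¹ * (γ * f0⁻¹ * (f0 * γ⁻¹))) * (f0 * f0⁻¹) := by
              rw [h3.eq]; group
            _ = _ := by group
        simp [this]
    have h3 := Set.ncard_le_ncard this
    rw [Set.ncard_coe_finset] at h3
    exact cO ▸ h3.trans Finset.card_le_three
  obtain ⟨k, rfl⟩ := mo
  omega

end H30.AhCB
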