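import Cfsg.Agent.H98.Subnormal

/-! Casolo's theorem on subnormalizers of `p`-subgroups. -/

set_option autoImplicit false

namespace H30.Cas

open Cfsg Subgroup H98 Finset
open scoped Classical

section Mob

variable {α : Type*} [PartialOrder α] [Finite α]

/-- The solution of `∑_{y ∈ S, x ≤ y} m y = 1`. -/
noncomputable def mob (S : Finset α) : α → ℤ :=
  (wellFounded_gt (α := α)).fix fun x f =>
    1 - ∑ y ∈ (S.filter (x < ·)).attach, f y.1 (mem_filter.1 y.2).2

theorem mob_eq (S : Finset α) (x : α) : mob S x = 1 - ∑ y ∈ S.filter (x < ·), mob S y := by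
  rw [mob, WellFounded.fix_eq, ← mob, sum_attach (S.filter (x < ·)) (mob S)]

theorem sum_mob {S : Finset α} {x : α} (hx : x ∈ S) : ∑ y ∈ S.filter (x ≤ ·), mob S y = 1 := by
  have : S.filter (x ≤ ·) = insert x (S.filter (x < ·)) := by
    ext y
    simp only [mem_filter, mem_insert, le_iff_eq_or_lt]
    constructor
    · rintro ⟨h1, h2 | h2⟩
      · exact Or.inl h2.symm
      · exact Or.inr ⟨h1, h2⟩
    · rintro (rfl | ⟨h1, h2⟩)
      · exact ⟨hx, Or.inl rfl⟩
      · exact ⟨h1, Or.inr h2⟩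
  rw [this, sum_insert (by simp), mob_eq S x]
  ring

theorem mob_galois {S T : Finset α} (hTS : T ⊆ S) (c : α → α) (hc : ∀ y ∈ S, c y ∈ T)
    (hg : ∀ z ∈ T, ∀ y ∈ S, z ≤ c y ↔ z ≤ y) (z : α) (hz : z ∈ T) :
    mob T z = ∑ y ∈ S.filter (c · = z), mob S y := by
  induction z using (wellFounded_gt (α := α)).induction with
  | _ z ih =>
    have h1 := sum_mob (hTS hz)
    rw [← sum_fiberwise_of_maps_to (t := T.filter (z ≤ ·)) (g := c) (fun y hy => by
      rw [mem_filter] at hy ⊢
      exact ⟨hc y hy.1, (hg z hz y hy.1).2 hy.2⟩)] at h1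
    have h2 : ∀ w ∈ T.filter (z ≤ ·), ((S.filter (z ≤ ·)).filter (c · = w)) =
        S.filter (c · = w) := fun w hw => by
      ext y
      simp only [mem_filter] at hw ⊢
      refine ⟨fun h => ⟨h.1.1, h.2⟩, fun h => ⟨⟨h.1, (hg z hz y h.1).1 (h.2 ▸ hw.2)⟩, h.2⟩⟩
    rw [sum_congr rfl fun w hw => by rw [h2 w hw]] at h1
    have h3 : T.filter (z ≤ ·) = insert z (T.filter (z < ·)) := by
      ext y
      simp only [mem_filter, mem_insert, le_iff_eq_or_lt]
      constructor
      · rintro ⟨h1, h2 | h2⟩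
        · exact Or.inl h2.symm
        · exact Or.inr ⟨h1, h2⟩
      · rintro (rfl | ⟨h1, h2⟩)
        · exact ⟨hz, Or.inl rfl⟩
        · exact ⟨h1, Or.inr h2⟩
    rw [h3, sum_insert (by simp)] at h1
    rw [mob_eq, sum_congr rfl fun w hw => ih w (mem_filter.1 hw).2 (mem_filter.1 hw).1, ← h1]
    ring

end Mob

variable {G : Type*} [Group G] [Finite G] {p : ℕ}

noncomputable local instance : Fintype G := Fintype.ofFinite G
noncomputable local instance : Fintype (Subgroup G) := Fintype.ofFinite _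

theorem card_eq_filter (π : G → Prop) : Nat.card {g : G // π g} = (univ.filter π).card := by
  rw [Nat.card_eq_fintype_card, Fintype.card_subtype]

theorem card_sub_eq (H : Subgroup G) : Nat.card H = (univ.filter (· ∈ H)).card :=
  card_eq_filter _

/-- Counting the elements of `N` by the conjugate of `T` they produce. -/
theorem card_cj_filter (N T : Subgroup G) (π : Subgroup G → Prop) :
    (univ.filter fun g => g ∈ N ∧ π (cj g T)).card =
      ∑ K ∈ univ.filter (fun K => π K ∧ ∃ g ∈ N, cj g T = K),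
        Nat.card (N ⊓ normalizer (K : Set G) : Subgroup G) := by
  rw [card_eq_sum_card_fiberwise (f := fun g => cj g T)
    (t := univ.filter fun K => π K ∧ ∃ g ∈ N, cj g T = K) (fun g hg => by
      simp only [coe_filter, mem_univ, true_and, Set.mem_setOf_eq] at hg ⊢
      exact ⟨hg.2, g, hg.1, rfl⟩)]
  refine sum_congr rfl fun K hK => ?_
  simp only [mem_filter, mem_univ, true_and] at hK
  obtain ⟨h1, a, ha, rfl⟩ := hK
  rw [card_sub_eq]
  refine card_bij (fun g _ => g * a⁻¹) (fun g hg => ?_) (fun g _ g' _ e => by simpa using e)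
    fun n hn => ⟨n * a, ?_, by simp⟩
  · simp only [mem_filter, mem_univ, true_and] at hg ⊢
    refine Subgroup.mem_inf.2 ⟨mul_mem hg.1.1 (inv_mem ha), cj_eq_self_iff.1 ?_⟩
    rw [cj_cj, inv_mul_cancel_right, hg.2]
  · simp only [mem_filter, mem_univ, true_and] at hn ⊢
    have : cj (n * a) T = cj a T := by rw [← cj_cj, cj_eq_self hn.2]
    exact ⟨⟨mul_mem hn.1 ha, this ▸ h1⟩, this⟩

/-- The `g`-invariant `p`-subgroups of `M`. -/
noncomputable def PS (p : ℕ) (g : G) (M : Subgroup G) : Finset (Subgroup G) :=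
  univ.filter fun R => IsPGroup p R ∧ R ≤ M ∧ g ∈ normalizer (R : Set G)

theorem mem_PS {g : G} {M R : Subgroup G} :
    R ∈ PS p g M ↔ IsPGroup p R ∧ R ≤ M ∧ g ∈ normalizer (R : Set G) := by simp [PS]

variable [hp : Fact p.Prime]

theorem mob_PS {g : G} {M R : Subgroup G} (h : R ∈ PS p g M) :
    mob (PS p g (M ⊓ normalizer (R : Set G))) R = mob (PS p g M) R := by
  obtain ⟨h1, h2, h3⟩ := mem_PS.1 h
  rw [mob_galois (S := PS p g M) (fun y hy => ?_) (· ⊓ normalizer (R : Set G)) (fun y hy => ?_)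
    (fun z hz y _ => ?_) R (mem_PS.2 ⟨h1, le_inf h2 le_normalizer, h3⟩)]
  · refine sum_eq_single_of_mem R (mem_filter.2 ⟨h, inf_eq_left.2 le_normalizer⟩) ?_
    intro y hy hne
    exfalso
    obtain ⟨h4, h5⟩ := mem_filter.1 hy
    have h6 := lt_inf_normalizer (mem_PS.1 h4).1 (lt_of_le_of_ne (h5 ▸ inf_le_left) hne.symm)
    exact h6.ne' h5
  · obtain ⟨a, b, c⟩ := mem_PS.1 hy
    exact mem_PS.2 ⟨a, b.trans inf_le_left, c⟩
  · obtain ⟨a, b, c⟩ := mem_PS.1 hy
    exact mem_PS.2 ⟨a.to_le inf_le_left, inf_le_inf_right _ b,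
      le_normalizer_inf (H := zpowers g) (zpowers_le_of_mem c)
        (zpowers_le_of_mem (le_normalizer h3)) (mem_zpowers g)⟩
  · exact ⟨fun e => e.trans inf_le_left, fun e => le_inf e ((mem_PS.1 hz).2.1.trans inf_le_right)⟩

theorem sum_syl (N : Subgroup G) (π : Subgroup G → Prop) {T : Subgroup G} (hT : IsSyl p T N) :
    (univ.filter fun g => g ∈ N ∧ π (cj g T)).card =
      ∑ K ∈ univ.filter (fun K => π K ∧ IsSyl p K N),
        Nat.card (N ⊓ normalizer (K : Set G) : Subgroup G) := by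
  rw [card_cj_filter]
  refine sum_congr (filter_congr fun K _ => and_congr_right fun _ => ?_) fun _ _ => rfl
  exact ⟨fun ⟨g, hg, e⟩ => e ▸ hT.cj_of_mem hg, fun h => hT.exists_cj_eq h⟩

theorem sum_mob_PS (R : Subgroup G) (hR : IsPGroup p R) : ∀ M : Subgroup G, R ≤ M →
    ∑ g ∈ univ.filter (· ∈ M ⊓ normalizer (R : Set G)), mob (PS p g M) R =
      if IsSyl p R M then (Nat.card (M ⊓ normalizer (R : Set G) : Subgroup G) : ℤ) else 0 := by
  induction R using (wellFounded_gt (α := Subgroup G)).induction with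
  | _ R ih =>
    intro M hM
    set N := M ⊓ normalizer (R : Set G) with hN
    have h1 : ∑ g ∈ univ.filter (· ∈ N), mob (PS p g M) R =
        ∑ g ∈ univ.filter (· ∈ N), (1 - ∑ y ∈ (PS p g N).filter (R < ·), mob (PS p g N) y) :=
      sum_congr rfl fun g hg => by
        rw [← mob_PS (mem_PS.2 ⟨hR, hM, (mem_filter.1 hg).2.2⟩), mob_eq]
    have h2 : ∑ g ∈ univ.filter (· ∈ N), ∑ y ∈ (PS p g N).filter (R < ·), mob (PS p g N) y =
        ∑ y ∈ univ.filter (fun y : Subgroup G => R < y ∧ IsPGroup p y ∧ y ≤ N),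
          ∑ g ∈ univ.filter (· ∈ N ⊓ normalizer (y : Set G)), mob (PS p g N) y :=
      sum_comm' fun g y => by
        simp only [mem_filter, mem_univ, true_and, mem_PS, Subgroup.mem_inf]
        tauto
    rw [h1, sum_sub_distrib, h2, sum_congr rfl fun y hy => ih y (mem_filter.1 hy).2.1
      (mem_filter.1 hy).2.2.1 N (mem_filter.1 hy).2.2.2, ← sum_filter, filter_filter,
      sum_const, ← card_sub_eq, nsmul_eq_mul, mul_one]
    split_ifs with hS
    · rw [filter_false_of_mem, sum_empty, sub_zero]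
      rintro y - ⟨⟨h3, h4, h5⟩, -⟩
      exact h3.ne' (hS.eq_of_le h4 h3.le (h5.trans inf_le_left))
    · obtain ⟨T, hT⟩ := exists_isSyl p N
      have h3 := sum_syl N (fun _ => True) hT
      simp only [and_true, true_and] at h3
      rw [card_sub_eq N, h3, sub_eq_zero, Nat.cast_sum]
      refine sum_congr (filter_congr fun K _ => ⟨fun h => ⟨⟨lt_of_le_of_ne
        (h.le_of_le_normalizer hR (le_inf hM le_normalizer) (h.le.trans inf_le_right))
        fun e => hS (isSyl_of_isSyl_normalizer (by rw [← e] at h; exact h)), h.isPGroup, h.le⟩, h⟩, fun h => h.2⟩)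
        fun _ _ => rfl

omit hp in
theorem sum_mob_top (H : Subgroup G) (g : G) :
    ∑ R ∈ (PS p g ⊤).filter (H ≤ ·), mob (PS p g ⊤) R =
      if ∃ R : Subgroup G, IsPGroup p R ∧ H ≤ R ∧ g ∈ normalizer (R : Set G) then 1 else 0 := by
  split_ifs with h
  · obtain ⟨R₀, h1, h2, h3⟩ := h
    let A : Subgroup G :=
      sInf {R : Subgroup G | IsPGroup p R ∧ H ≤ R ∧ g ∈ normalizer (R : Set G)}
    have hA : A ∈ PS p g ⊤ := mem_PS.2 ⟨h1.to_le (sInf_le ⟨h1, h2, h3⟩), le_top,
      mem_normalizer_of_cj_le (le_sInf fun R hR => cj_le_of_le (sInf_le hR) hR.2.2)⟩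
    rw [← sum_mob hA]
    refine sum_congr (filter_congr fun R hR => ⟨fun e => sInf_le
      ⟨(mem_PS.1 hR).1, e, (mem_PS.1 hR).2.2⟩, fun e => le_trans (le_sInf fun _ h => h.2.1) e⟩)
      fun _ _ => rfl
  · rw [filter_false_of_mem, sum_empty]
    exact fun R hR e => h ⟨R, (mem_PS.1 hR).1, e, (mem_PS.1 hR).2.2⟩

theorem subN_of_isPGroup {K : Subgroup G} (hK : IsPGroup p K) (H : Subgroup G) (h : H ≤ K) :
    SubN H K := by
  induction H using (wellFounded_gt (α := Subgroup G)).induction with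
  | _ H ih =>
    rcases h.eq_or_lt with rfl | h1
    · exact SubN.refl _
    · exact SubNIn.step H _ (lt_inf_normalizer hK h1).le inf_le_right
        (ih _ (lt_inf_normalizer hK h1) inf_le_left)

theorem subnormal_iff {H : Subgroup G} (hH : IsPGroup p H) (g : G) :
    (H.subgroupOf (H ⊔ zpowers g)).IsSubnormal ↔
      ∃ R : Subgroup G, IsPGroup p R ∧ H ≤ R ∧ g ∈ normalizer (R : Set G) := by
  constructor
  · intro h
    exact ⟨pCoreOf p (H ⊔ zpowers g), isPGroup_pCoreOf _,
      (subN_iff.2 ⟨le_sup_left, h⟩).le_pCoreOf hH,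
      self_le_normalizer_pCoreOf _ (mem_sup_right (mem_zpowers g))⟩
  · rintro ⟨R, h1, h2, h3⟩
    refine (subN_iff.1 ((subN_of_isPGroup (h1.to_le (inf_le_left : R ⊓ (H ⊔ zpowers g) ≤ R)) H
      (le_inf h2 le_sup_left)).trans (SubN.of_normal inf_le_right ?_))).2
    exact le_normalizer_inf (sup_le (h2.trans le_normalizer) (zpowers_le_of_mem h3)) le_normalizer

/-- Casolo's theorem. -/
theorem casolo {H : Subgroup G} (hH : IsPGroup p H) {T : Subgroup G} (hT : IsSyl p T ⊤) :
    Nat.card {g : G // (H.subgroupOf (H ⊔ zpowers g)).IsSubnormal} =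
      Nat.card {g : G // H ≤ cj g T} := by
  have h1 := sum_syl ⊤ (H ≤ ·) hT
  simp only [Subgroup.mem_top, true_and] at h1
  rw [card_eq_filter, card_eq_filter, h1]
  apply Nat.cast_injective (R := ℤ)
  rw [card_filter, Nat.cast_sum, Nat.cast_sum]
  have h2 : ∀ g : G, ((if (H.subgroupOf (H ⊔ zpowers g)).IsSubnormal then 1 else 0 : ℕ) : ℤ) =
      ∑ R ∈ (PS p g ⊤).filter (H ≤ ·), mob (PS p g ⊤) R := fun g => by
    rw [sum_mob_top, subnormal_iff hH]
    split_ifs <;> rfl
  rw [sum_congr rfl fun g _ => h2 g, sum_comm' (t' := univ.filter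
    fun R : Subgroup G => H ≤ R ∧ IsPGroup p R)
    (s' := fun R => univ.filter (· ∈ ⊤ ⊓ normalizer (R : Set G))) (fun g R => by
      simp only [mem_filter, mem_univ, true_and, mem_PS, Subgroup.mem_inf, Subgroup.mem_top,
        le_top]
      tauto), sum_congr rfl fun R hR => sum_mob_PS R (mem_filter.1 hR).2.2 ⊤ le_top,
    ← sum_filter, filter_filter]
  exact sum_congr (filter_congr fun K _ => ⟨fun h => ⟨h.1.1, h.2⟩,
    fun h => ⟨⟨h.1, h.2.isPGroup⟩, h.2⟩⟩) fun _ _ => rfl

theorem card_le_cj (H : Subgroup G) (P : Sylow p G) :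
    Nat.card {g : G // H ≤ cj g (P : Subgroup G)} =
      Nat.card {Q : Sylow p G // H ≤ (Q : Subgroup G)} *
        Nat.card (normalizer ((P : Subgroup G) : Set G)) := by
  have h1 := sum_syl ⊤ (H ≤ ·) (isSyl_sylow P)
  simp only [Subgroup.mem_top, true_and, top_inf_eq] at h1
  rw [card_eq_filter, h1, sum_congr rfl (g := fun _ =>
    Nat.card (normalizer ((P : Subgroup G) : Set G))) fun K hK => ?_, sum_const, smul_eq_mul]
  · congr 1
    rw [← Fintype.card_subtype, ← Nat.card_eq_fintype_card]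
    refine Nat.card_congr ⟨fun K => ⟨K.2.2.toSylowTop, K.2.1⟩, fun Q => ⟨Q.1, Q.2, isSyl_sylow _⟩,
      fun _ => rfl, fun _ => rfl⟩
  · obtain ⟨g, -, rfl⟩ := (isSyl_sylow P).exists_cj_eq (mem_filter.1 hK).2.2
    rw [← cj_normalizer, card_cj]

omit hp in
theorem card_le_cj' (H T : Subgroup G) :
    Nat.card {g : G // H ≤ cj g T} =
      Nat.card {K : Subgroup G // K ≤ T ∧ ∃ g : G, K = H.map (MulAut.conj g).toMonoidHom} *
        Nat.card (normalizer (H : Set G)) := by
  have h1 := card_cj_filter ⊤ H (· ≤ T)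
  simp only [Subgroup.mem_top, true_and, top_inf_eq] at h1
  rw [Nat.card_congr ((Equiv.inv G).subtypeEquiv (q := fun g => cj g H ≤ T) fun g => le_cj_iff),
    card_eq_filter, h1, sum_congr rfl (g := fun _ => Nat.card (normalizer (H : Set G)))
    fun K hK => ?_, sum_const, smul_eq_mul]
  · congr 1
    rw [← Fintype.card_subtype, ← Nat.card_eq_fintype_card]
    exact Nat.card_congr (Equiv.subtypeEquivRight fun K => and_congr_right fun _ =>
      exists_congr fun _ => eq_comm)
  · obtain ⟨g, rfl⟩ := (mem_filter.1 hK).2.2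
    rw [← cj_normalizer, card_cj]

end H30.Cas
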