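import Cfsg.Agent.H30.Casolo
import Cfsg.Agent.H99.Product

/-! Counting Sylow subgroups over a `p`-subgroup along a normal series. -/

set_option autoImplicit false

namespace H30.Cas

open Cfsg Subgroup H98 Finset
open scoped Classical

variable {G : Type*} [Group G] [Finite G] {p : ℕ} [hp : Fact p.Prime]

/-- The preimage of `C_{B/A}(H)`. -/
def cmod (H A B : Subgroup G) [A.Normal] : Subgroup G :=
  B ⊓ (centralizer (H.map (QuotientGroup.mk' A) : Set (G ⧸ A))).comap (QuotientGroup.mk' A)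

omit [Finite G] in
theorem mem_cmod {H A B : Subgroup G} [A.Normal] {u : G} :
    u ∈ cmod H A B ↔ u ∈ B ∧ ∀ h ∈ H, h * u * h⁻¹ * u⁻¹ ∈ A := by
  refine and_congr_right fun _ => ?_
  have key : ∀ h : G, h * u * h⁻¹ * u⁻¹ ∈ A ↔ QuotientGroup.mk' A h * QuotientGroup.mk' A u =
      QuotientGroup.mk' A u * QuotientGroup.mk' A h := fun h => by
    rw [← QuotientGroup.eq_one_iff, ← commutatorElement_def, ← QuotientGroup.mk'_apply,
      map_commutatorElement, commutatorElement_eq_one_iff_mul_comm]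
  constructor
  · exact fun h1 h hh => (key h).2 (h1 _ ⟨h, hh, rfl⟩)
  · rintro h1 _ ⟨h, hh, rfl⟩
    exact (key h).1 (h1 h hh)

omit [Finite G] in
theorem le_cmod {H A B : Subgroup G} [hA : A.Normal] (h : A ≤ B) : A ≤ cmod H A B :=
  fun _ hu => mem_cmod.2 ⟨h hu, fun x _ => mul_mem (hA.conj_mem _ hu x) (inv_mem hu)⟩

theorem inf_le_of_coprime {A B Q : Subgroup G} [A.Normal] (hQ : IsPGroup p Q)
    (hc : (A.relIndex B).Coprime p) : Q ⊓ B ≤ A := fun x hx => by
  obtain ⟨k, hk⟩ := isPGroup_iff_forall.1 hQ x hx.1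
  have h1 : x ^ A.relIndex B ∈ A := (A.subgroupOf B).pow_index_mem ⟨x, hx.2⟩
  exact mem_of_pow_mem_of_coprime h1
    (Nat.Coprime.coprime_dvd_left (orderOf_dvd_of_pow_eq_one hk) (hc.symm.pow_left k))

theorem sup_eq_of_pow {A B T : Subgroup G} [A.Normal] [B.Normal] (hT : IsSyl p T ⊤) (h : A ≤ B)
    {m : ℕ} (hm : A.relIndex B = p ^ m) : T ⊔ A = T ⊔ B := by
  refine le_antisymm (sup_le_sup_left h _) (sup_le le_sup_left ?_)
  have h1 := (hT.inf_of_le_normalizer (N := B) le_top le_normalizer_of_normal).sup_res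
  refine h1.ge.trans (sup_le (inf_le_left.trans le_sup_left) (le_trans ?_ le_sup_right))
  exact res_le_of_forall_pow fun x hx => ⟨m, hm ▸ (A.subgroupOf B).pow_index_mem ⟨x, hx⟩⟩

theorem card_fiber {H A B Q : Subgroup G} [hA : A.Normal] [hB : B.Normal] (hH : IsPGroup p H)
    (hQ : IsSyl p Q ⊤) (h : A ≤ B) (hc : (A.relIndex B).Coprime p) (hle : H ≤ Q ⊔ B) :
    Nat.card {u : G // u ∈ B ∧ H ≤ cj u⁻¹ Q ⊔ A} = Nat.card (cmod H A B) := by
  obtain ⟨x, hx, h1⟩ := (hQ.of_le le_sup_left le_top).exists_le_cj hH hle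
  rw [sup_comm] at hx
  obtain ⟨v, hv, y, hy, rfl⟩ := (mem_sup_right_norm le_normalizer_of_normal).1 hx
  rw [← cj_cj, cj_eq_self_of_mem hy] at h1
  refine Nat.card_congr ((Equiv.mulLeft v⁻¹).subtypeEquiv fun u => ?_).symm
  rw [Equiv.coe_mulLeft, mem_cmod, Subgroup.mul_mem_cancel_left _ (inv_mem hv)]
  refine and_congr_right fun hu => ?_
  have e1 : cj (v⁻¹ * u)⁻¹ Q ⊔ A = cj u⁻¹ (cj v Q ⊔ A) := by
    rw [cj_sup, cj_cj, cj_eq_self_of_normal _ A, mul_inv_rev, inv_inv]
  have e2 : (cj v Q ⊔ A) ⊓ B = A := by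
    rw [sup_inf_of_le_right le_normalizer_of_normal h, sup_eq_right]
    exact inf_le_of_coprime (isPGroup_cj v hQ.isPGroup) hc
  rw [e1]
  constructor
  · intro h2 x hx
    rw [mem_cj, inv_inv]
    have h3 := mul_mem (mem_sup_left (T := A) (h1 hx)) (mem_sup_right (h2 _ (inv_mem hx)))
    simpa [mul_assoc] using h3
  · intro h2 x hx
    have h3 := h2 (inv_mem hx)
    rw [mem_cj, inv_inv] at h3
    rw [← e2]
    refine Subgroup.mem_inf.2 ⟨?_, mul_mem (hB.conj_mem _ hu x) (inv_mem hu)⟩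
    have h4 := mul_mem (mem_sup_left (T := A) (h1 hx)) h3
    simpa [mul_assoc] using h4

theorem card_step {H A B T : Subgroup G} [hA : A.Normal] [hB : B.Normal] (hH : IsPGroup p H)
    (hT : IsSyl p T ⊤) (h : A ≤ B) (hc : (A.relIndex B).Coprime p) :
    Nat.card {g : G // H ≤ cj g T ⊔ A} * Nat.card B =
      Nat.card {g : G // H ≤ cj g T ⊔ B} * Nat.card (cmod H A B) := by
  have e1 : {x : G × G // x.2 ∈ B ∧ H ≤ cj x.2⁻¹ (cj x.1 T) ⊔ A} ≃
      {g : G // H ≤ cj g T ⊔ A} × B :=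
    { toFun := fun x => (⟨x.1.2⁻¹ * x.1.1, by rw [← cj_cj]; exact x.2.2⟩, ⟨x.1.2, x.2.1⟩)
      invFun := fun y => ⟨((y.2 : G) * y.1, y.2), y.2.2, by
        rw [cj_cj, inv_mul_cancel_left]; exact y.1.2⟩
      left_inv := fun x => by simp
      right_inv := fun y => by simp }
  have e2 : {x : G × G // x.2 ∈ B ∧ H ≤ cj x.2⁻¹ (cj x.1 T) ⊔ A} ≃
      Σ g : {g : G // H ≤ cj g T ⊔ B}, {u : G // u ∈ B ∧ H ≤ cj u⁻¹ (cj g T) ⊔ A} :=
    { toFun := fun x => ⟨⟨x.1.1, x.2.2.trans (sup_le (cj_le_of_le_of_mem le_sup_left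
        (mem_sup_right (inv_mem x.2.1))) (h.trans le_sup_right))⟩, ⟨x.1.2, x.2⟩⟩
      invFun := fun y => ⟨(y.1, y.2), y.2.2⟩
      left_inv := fun _ => rfl
      right_inv := fun _ => rfl }
  rw [← Nat.card_prod, ← Nat.card_congr e1, Nat.card_congr e2]
  letI : Fintype {g : G // H ≤ cj g T ⊔ B} := Fintype.ofFinite _
  rw [Nat.card_sigma, sum_congr rfl fun g _ =>
    card_fiber hH (hT.cj_of_mem (Subgroup.mem_top _)) h hc g.2, sum_const, card_univ,
    smul_eq_mul, ← Nat.card_eq_fintype_card]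

theorem card_step' {H A B T : Subgroup G} [hA : A.Normal] [hB : B.Normal] (hH : IsPGroup p H)
    (hT : IsSyl p T ⊤) (h : A ≤ B) (hc : (A.relIndex B).Coprime p) {c : ℕ}
    (ih : Nat.card {g : G // H ≤ cj g T ⊔ B} = Nat.card (T ⊔ B : Subgroup G) * c) :
    Nat.card {g : G // H ≤ cj g T ⊔ A} =
      Nat.card (T ⊔ A : Subgroup G) * (Nat.card (cmod H A B) / Nat.card A * c) := by
  have h1 := card_step hH hT h hc
  obtain ⟨t, ht⟩ := Subgroup.card_dvd_of_le (le_cmod (H := H) h)
  have h2 := H99.card_sup_mul_card_inf_of_le_normalizer (H := T) (K := A) le_normalizer_of_normal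
  have h3 := H99.card_sup_mul_card_inf_of_le_normalizer (H := T) (K := B) le_normalizer_of_normal
  rw [show T ⊓ B = T ⊓ A from le_antisymm (le_inf inf_le_left (inf_le_of_coprime hT.isPGroup hc))
    (inf_le_inf_left _ h)] at h3
  rw [ht, Nat.mul_div_cancel_left _ Nat.card_pos]
  rw [ih, ht] at h1
  refine Nat.eq_of_mul_eq_mul_right (mul_pos (Nat.card_pos (α := B))
    (Nat.card_pos (α := (T ⊓ A : Subgroup G)))) ?_
  calc _ = Nat.card (T ⊔ B : Subgroup G) * Nat.card (T ⊓ A : Subgroup G) * c * (Nat.card A * t) := by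
        rw [← mul_assoc, h1]; ring
    _ = Nat.card (T ⊔ A : Subgroup G) * Nat.card (T ⊓ A : Subgroup G) * Nat.card B * (t * c) := by
        rw [h2, h3]; ring
    _ = _ := by ring

theorem card_chain {H T : Subgroup G} (hH : IsPGroup p H) (hT : IsSyl p T ⊤) {n : ℕ}
    (M : Fin (n + 1) → Subgroup G) (h0 : M 0 = ⊥) (hn : M (Fin.last n) = ⊤) (hmono : Monotone M)
    [hnormal : ∀ i, (M i).Normal]
    (hfac : ∀ i : Fin n, (∃ m : ℕ, (M i.castSucc).relIndex (M i.succ) = p ^ m) ∨
      ((M i.castSucc).relIndex (M i.succ)).Coprime p) :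
    Nat.card {g : G // H ≤ cj g T} = Nat.card T *
      ∏ i : Fin n, (if ((M i.castSucc).relIndex (M i.succ)).Coprime p then
        Nat.card (cmod H (M i.castSucc) (M i.succ)) / Nat.card (M i.castSucc) else 1) := by
  set t : Fin n → ℕ := fun i => if ((M i.castSucc).relIndex (M i.succ)).Coprime p then
    Nat.card (cmod H (M i.castSucc) (M i.succ)) / Nat.card (M i.castSucc) else 1 with ht
  have key : ∀ i : Fin (n + 1), Nat.card {g : G // H ≤ cj g T ⊔ M i} =
      Nat.card (T ⊔ M i : Subgroup G) * ∏ j ∈ univ.filter (fun j : Fin n => i ≤ j.castSucc), t j := by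
    intro i
    induction i using Fin.reverseInduction with
    | last =>
      rw [filter_false_of_mem fun j _ => (Fin.castSucc_lt_last j).not_ge, prod_empty, hn]
      simp
    | cast i ih =>
      have e : univ.filter (fun j : Fin n => i.castSucc ≤ j.castSucc) =
          insert i (univ.filter fun j : Fin n => i.succ ≤ j.castSucc) := by
        ext j
        simp only [mem_filter, mem_univ, true_and, mem_insert, Fin.le_def, Fin.ext_iff,
          Fin.val_castSucc, Fin.val_succ]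
        omega
      rw [e, prod_insert (by simp [Fin.le_def])]
      have hle := hmono (Fin.castSucc_lt_succ (i := i)).le
      by_cases hc : ((M i.castSucc).relIndex (M i.succ)).Coprime p
      · rw [card_step' hH hT hle hc ih, ht]
        simp only [if_pos hc]
      · obtain ⟨m, hm⟩ := (hfac i).resolve_right hc
        rw [show t i = 1 from if_neg hc, one_mul, sup_eq_of_pow hT hle hm, ← ih]
        exact Nat.card_congr (Equiv.subtypeEquivRight fun g => by
          rw [sup_eq_of_pow (hT.cj_of_mem (Subgroup.mem_top g)) hle hm])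
  have := key 0
  simpa [h0] using this

end H30.Cas
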