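import Cfsg.Agent.H44.CD1

/-! A solvable group of order 6048 with an irreducible character of degree 42. -/

set_option autoImplicit false
open Cfsg H28

namespace H30.D42

abbrev V : Type := ZMod 18 × ZMod 2 × ZMod 2 × ZMod 2
abbrev A : Type := Multiplicative V

def s0 : V ≃+ V where
  toFun v := (5 * v.1, v.2.2.2, v.2.1 + v.2.2.2, v.2.2.1)
  invFun v := (11 * v.1, v.2.1 + v.2.2.1, v.2.2.2, v.2.1)
  left_inv := by decide +kernel
  right_inv := by decide +kernel
  map_add' a b := by ext <;> simp [mul_add, add_add_add_comm]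

def s : MulAut A := AddEquiv.toMultiplicative s0

def ell : V →+ ZMod 18 where
  toFun v := v.1 + if v.2.1 = 1 then 9 else 0
  map_zero' := by decide
  map_add' a b := (by decide +kernel : ∀ (a b : ZMod 18) (x y : ZMod 2), (a + b + if x + y = 1 then 9 else 0) =
    (a + if x = 1 then 9 else 0) + (b + if y = 1 then 9 else 0)) a.1 b.1 a.2.1 b.2.1

def T : List V := [(1, 0, 0, 0), (0, 1, 0, 0), (0, 0, 1, 0), (0, 0, 0, 1)]

theorem key : ∀ k < 42, 0 < k → ∃ v ∈ T, ell (s0^[k] v) ≠ ell v := by decide +kernel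

theorem it42 : ∀ v : V, s0^[42] v = v := by decide +kernel

theorem s_pow (k : ℕ) (v : V) : (s ^ k) (Multiplicative.ofAdd v) = Multiplicative.ofAdd (s0^[k] v) := by
  induction k with
  | zero => rfl
  | succ k ih => rw [pow_succ', MulAut.mul_apply, ih, Function.iterate_succ_apply']; rfl

theorem pow_one_of (n : ℕ) (h : ∀ v, s0^[n] v = v) : s ^ n = 1 := MulEquiv.ext fun v =>
  (s_pow n v.toAdd).trans (congrArg Multiplicative.ofAdd (h v.toAdd))

theorem ord_s : orderOf s = 42 := by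
  rw [orderOf_eq_iff (by norm_num)]
  refine ⟨pow_one_of 42 it42, fun k h1 h2 e => ?_⟩
  obtain ⟨v, -, hv⟩ := key k h1 h2
  have := s_pow k v
  rw [e] at this
  exact hv (congrArg ell (Multiplicative.ofAdd.injective this).symm)

theorem deg_ord {B : Type} [CommGroup B] [Finite B] (σ : MulAut B) (l0 : B →* ℂˣ)
    (h : ∀ k < orderOf σ, 0 < k → ∃ v, l0 ((σ ^ k) v) ≠ l0 v) :
    orderOf σ ∈ charDegrees (B ⋊[(Subgroup.zpowers σ).subtype] Subgroup.zpowers σ) := by
  have : Finite (B ⋊[(Subgroup.zpowers σ).subtype] Subgroup.zpowers σ) :=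
    Finite.of_equiv _ SemidirectProduct.equivProd.symm
  have := Fintype.ofFinite (B ⋊[(Subgroup.zpowers σ).subtype] Subgroup.zpowers σ)
  classical
  let M := (SemidirectProduct.rightHom : (B ⋊[(Subgroup.zpowers σ).subtype] Subgroup.zpowers σ) →* _).ker
  let e : M →* B :=
    { toFun m := m.1.left
      map_one' := rfl
      map_mul' a b := by
        change a.1.left * (a.1.right : MulAut B) b.1.left = _
        rw [show a.1.right = 1 from a.2]; rfl }
  have h1 := H28.isIrrCharacter_of_hom (l0.comp e)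
  have h2 : H32.inertia (fun m : M => (l0.comp e m : ℂ)) ≤ M := fun g hg => by
    obtain ⟨k, hk, e1⟩ : ∃ k < orderOf σ, σ ^ k = g.right := by
      simpa using (mem_zpowers_iff_mem_range_orderOf (x := σ)).1 g.right.2
    rcases k.eq_zero_or_pos with rfl | h0
    · exact Subtype.ext (by simpa using e1.symm)
    obtain ⟨v, hv⟩ := h k hk h0
    have := H32.mem_inertia_iff.1 hg ⟨SemidirectProduct.inl v, rfl⟩
    change (l0 (g * SemidirectProduct.inl v * g⁻¹).left : ℂ) = l0 v at this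
    have k : (g * SemidirectProduct.inl v * g⁻¹).left = g.right.1 v := by
      simp [mul_comm g.left, mul_assoc]
    rw [k, ← e1] at this
    exact absurd (Units.ext this) hv
  have := H44.mem_cd ((H32.isIrrCharacter_indFun_iff h1).2 h2)
  rwa [h1.isCharacter.charDegree_indFun, H28.charDegree_hom, mul_one, Subgroup.index_ker,
    MonoidHom.range_eq_top.2 SemidirectProduct.rightHom_surjective, Subgroup.card_top, Nat.card_zpowers] at this

abbrev H : Type := A ⋊[(Subgroup.zpowers s).subtype] Subgroup.zpowers s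

instance : Finite H := Finite.of_equiv _ SemidirectProduct.equivProd.symm

theorem card_H : Nat.card H = 6048 := by
  rw [SemidirectProduct.card, Nat.card_zpowers, ord_s]
  simp [A, V]

theorem solv : Group.IsSolvable H :=
  solvable_of_ker_le_range SemidirectProduct.inl SemidirectProduct.rightHom
    SemidirectProduct.range_inl_eq_ker_rightHom.ge

theorem deg42 : 42 ∈ charDegrees H := by
  rw [← ord_s]
  refine deg_ord s ((Circle.toUnits.comp (ZMod.toCircle (N := 18)).toMonoidHom).comp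
    (AddMonoidHom.toMultiplicative ell)) fun k h1 h2 => ?_
  obtain ⟨v, -, hv⟩ := key k (ord_s ▸ h1) h2
  refine ⟨Multiplicative.ofAdd v, fun e => hv (ZMod.injective_toCircle ?_)⟩
  rw [s_pow] at e
  exact Subtype.ext (congrArg Units.val e)

theorem graph {G : Type*} [Group G] [Finite G] (h : Nat.card G = 6048) {a b c : ℕ} (ha : a ∈ charDegrees G)
    (hb : b ∈ charDegrees G) (hc : c ∈ charDegrees G) (h1 : 6 ∣ a) (h2 : 14 ∣ b) (h3 : 21 ∣ c) :
    degreePrimes G = {2, 3, 7} ∧ ∀ p q, (degreeGraph G).Adj p q ↔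
      p ≠ q ∧ p ∈ ({2, 3, 7} : Set ℕ) ∧ q ∈ ({2, 3, 7} : Set ℕ) := by
  have k : ∀ p : ℕ, p.Prime → ∀ d ∈ charDegrees G, p ∣ d → p ∈ ({2, 3, 7} : Set ℕ) := fun p hp d hd e => by
    have := e.trans (H44.dvd_card_of_mem_cd hd)
    rw [h, show 6048 = 2 ^ 5 * 3 ^ 3 * 7 by norm_num, hp.dvd_mul, hp.dvd_mul] at this
    rcases this with (e | e) | e
    exacts [.inl ((Nat.prime_dvd_prime_iff_eq hp Nat.prime_two).1 (hp.dvd_of_dvd_pow e)),
      .inr (.inl ((Nat.prime_dvd_prime_iff_eq hp Nat.prime_three).1 (hp.dvd_of_dvd_pow e))),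
      .inr (.inr ((Nat.prime_dvd_prime_iff_eq hp (by norm_num)).1 e))]
  refine ⟨Set.ext fun p => ⟨fun ⟨hp, d, hd, e⟩ => k p hp d hd e, ?_⟩, fun p q =>
    ⟨fun ⟨e, hp, hq, d, hd, e'⟩ => ⟨e, k p hp d hd ((Dvd.intro _ rfl).trans e'),
      k q hq d hd ((Dvd.intro_left _ rfl).trans e')⟩, ?_⟩⟩
  · rintro (rfl | rfl | rfl)
    exacts [⟨by norm_num, a, ha, by omega⟩, ⟨by norm_num, a, ha, by omega⟩, ⟨by norm_num, b, hb, by omega⟩]
  · rintro ⟨e, rfl | rfl | rfl, rfl | rfl | rfl⟩ <;> refine ⟨e, by norm_num, by norm_num, ?_⟩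
    exacts [absurd rfl e, ⟨a, ha, h1⟩, ⟨b, hb, h2⟩, ⟨a, ha, h1⟩, absurd rfl e, ⟨c, hc, h3⟩,
      ⟨b, hb, h2⟩, ⟨c, hc, h3⟩, absurd rfl e]

end H30.D42
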