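import Cfsg.Agent.S3380
import Cfsg.Agent.S4014
import Cfsg.Agent.H3.NormalRankOne
import Cfsg.Agent.H22.BaseChange
import Cfsg.Agent.H90.PermMod

/-! Derived length of linear `p`-groups in characteristic prime to `p`. -/

set_option autoImplicit false
set_option maxHeartbeats 400000
open Module

namespace H30.DL

universe u v

variable {F : Type*} [Field F] {p : ℕ} [hp : Fact p.Prime]

/-- `p`-elements act trivially in dimension below `e`. -/
def Small (F : Type*) [Field F] (p e : ℕ) : Prop :=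
  ∀ (W : Type v) [AddCommGroup W] [Module F W] [FiniteDimensional F W] (x : Module.End F W) (a : ℕ),
    finrank F W < e → x ^ p ^ a = 1 → x = 1

theorem ds_le {G : Type*} [Group G] {M : Subgroup G} (h : commutator G ≤ M) (i : ℕ) :
    derivedSeries G (i + 1) ≤ (derivedSeries M i).map M.subtype := by
  induction i with
  | zero => simpa [← MonoidHom.range_eq_map] using h
  | succ i ih =>
    rw [derivedSeries_succ, derivedSeries_succ M, Subgroup.map_commutator]
    exact Subgroup.commutator_mono ih ih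

theorem ds_anti {G : Type*} [Group G] {i j : ℕ} (h : i ≤ j) : derivedSeries G j ≤ derivedSeries G i := by
  induction h with
  | refl => exact le_rfl
  | step _ ih => exact (Subgroup.commutator_le_left _ _).trans ih

theorem fix_inv {G V : Type*} [Group G] [AddCommGroup V] [Module F V] (ρ : Representation F G V)
    (S : Set G) (h : ∀ g, ∀ b ∈ S, g⁻¹ * b * g ∈ S) (g : G) : H22.fixSp ρ S ≤ (H22.fixSp ρ S).comap (ρ g) :=
  fun w hw b hb => by
    conv_rhs => rw [← hw _ (h g b hb)]
    simp [← Module.End.mul_apply, ← map_mul, mul_assoc]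

theorem split {G V : Type*} [Group G] [AddCommGroup V] [Module F V] [FiniteDimensional F V] [Nontrivial V]
    (h0 : (p : F) ≠ 0) (ρ : Representation F G V) (hρ : Function.Injective ρ)
    (irr : ∀ W : Submodule F V, (∀ g, W ≤ W.comap (ρ g)) → W = ⊥ ∨ W = ⊤) {c a : G}
    (hc : c ∈ Subgroup.center G) (ho : orderOf c = p) (ha : a ^ p = 1) (hn : a ∉ Subgroup.zpowers c)
    (hg : ∀ g, g * a * g⁻¹ * a⁻¹ ∈ Subgroup.zpowers c) :
    ∃ b : G, commutator G ≤ Subgroup.centralizer {b} ∧ H22.fixSp ρ {b} ≠ ⊥ ∧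
      p * finrank F (H22.fixSp ρ {b}) ≤ finrank F V := by
  have cen : ∀ y ∈ Subgroup.center G, y ≠ 1 → H22.fixSp ρ {y} = ⊥ := fun y hy h1 =>
    (irr _ (fix_inv ρ {y} fun g b hb => by
      rw [hb, mul_assoc, ← Subgroup.mem_center_iff.1 hy g]; simp)).resolve_right fun h =>
      h1 (hρ (by rw [map_one]; exact LinearMap.ext fun v => h.ge (Submodule.mem_top (x := v)) y rfl))
  have gs : ∀ y : G, y ^ p = 1 → ∀ v, ∑ j ∈ Finset.range p, ρ (y ^ j) v ∈ H22.fixSp ρ {y} := fun y hy v b hb => by
    have := Finset.sum_range_succ' (fun j => ρ (y ^ j) v) p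
    rw [Finset.sum_range_succ, hy, pow_zero, add_left_inj] at this
    rw [hb, map_sum, this]
    simp [pow_succ']
  have s0 : ∀ y ∈ Subgroup.zpowers c, y ≠ 1 → ∀ v, ∑ j ∈ Finset.range p, ρ (y ^ j) v = 0 := fun y hy h1 v => by
    have := gs y (by
      obtain ⟨k, rfl⟩ := Subgroup.mem_zpowers_iff.1 hy
      rw [← zpow_natCast, ← zpow_mul, mul_comm, zpow_mul, zpow_natCast, ← ho, pow_orderOf_eq_one, one_zpow]) v
    rwa [cen y (Subgroup.zpowers_le.2 hc hy) h1] at this
  have cm : ∀ y ∈ Subgroup.zpowers c, ∀ g, Commute y g := fun y hy g =>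
    (Subgroup.mem_center_iff.1 (Subgroup.zpowers_le.2 hc hy) g).symm
  have cp : ∀ i : ℕ, c ^ i ∈ Subgroup.zpowers c := fun i => Subgroup.npow_mem_zpowers c i
  obtain ⟨i, hi⟩ : ∃ i : ℕ, H22.fixSp ρ {c ^ i * a} ≠ ⊥ := by
    by_contra! h
    obtain ⟨v, hv⟩ := exists_ne (0 : V)
    have : ∑ i ∈ Finset.range p, ∑ j ∈ Finset.range p, ρ ((c ^ i * a) ^ j) v = 0 :=
      Finset.sum_eq_zero fun i _ => by
        have := gs (c ^ i * a) (by
          rw [(cm _ (cp i) a).mul_pow, ha, ← pow_mul, mul_comm i, pow_mul, ← ho, pow_orderOf_eq_one, one_pow,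
            one_mul]) v
        rwa [h i] at this
    rw [Finset.sum_comm, Finset.sum_eq_single 0 (fun j hj j0 => ?_) (by simp [hp.out.pos])] at this
    · simp [← Nat.cast_smul_eq_nsmul F, h0, hv] at this
    · rw [← s0 _ (cp j) (pow_ne_one_of_lt_orderOf j0 (ho ▸ Finset.mem_range.1 hj)) (ρ (a ^ j) v)]
      refine Finset.sum_congr rfl fun i _ => ?_
      rw [(cm _ (cp i) a).mul_pow, ← pow_mul, mul_comm i, pow_mul, map_mul, Module.End.mul_apply]
  have hb : ∀ g, g * (c ^ i * a) * g⁻¹ * (c ^ i * a)⁻¹ ∈ Subgroup.zpowers c := fun g => by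
    rw [← mul_assoc, ← (cm _ (cp i) g).eq, (cm _ (cp i) a).eq, mul_inv_rev, mul_assoc, mul_assoc, mul_assoc,
      (cm _ (cp i) _).eq]
    simpa [mul_assoc, (cm _ (inv_mem (cp i)) a⁻¹).eq] using hg g
  have b1 : c ^ i * a ≠ 1 := fun h => hn (eq_inv_of_mul_eq_one_right h ▸ inv_mem (cp i))
  generalize c ^ i * a = b at hi hb b1
  refine ⟨b, ?_, hi, ?_⟩
  · let φ : G →* Subgroup.center G := MonoidHom.mk' (fun g => ⟨_, Subgroup.zpowers_le.2 hc (hb g)⟩) fun g h =>
      Subtype.ext (by
        change g * h * b * (g * h)⁻¹ * b⁻¹ = g * b * g⁻¹ * b⁻¹ * (h * b * h⁻¹ * b⁻¹)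
        rw [mul_assoc (g * b), mul_assoc (g * b), ← (cm _ (hb h) (g⁻¹ * b⁻¹)).eq, mul_assoc g b,
          ← mul_assoc b, ← (cm _ (hb h) b).eq]
        group)
    have k : commutator G ≤ φ.ker := Subgroup.commutator_le.2 fun g _ h _ => by
      rw [MonoidHom.mem_ker, map_commutatorElement, commutatorElement_eq_one_iff_mul_comm]
      exact mul_comm' _ _
    intro g hg
    have : g * b * g⁻¹ * b⁻¹ = 1 := congrArg Subtype.val (MonoidHom.mem_ker.1 (k hg))
    exact Subgroup.mem_centralizer_singleton_iff.2 (mul_inv_eq_iff_eq_mul.1 (mul_inv_eq_one.1 this))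
  · obtain ⟨t, ht⟩ : ∃ t, t * b * t⁻¹ * b⁻¹ ≠ 1 := by
      by_contra! h
      exact hi (cen b (Subgroup.mem_center_iff.2 fun g => by
        rw [← mul_inv_eq_one, ← h g]; group) b1)
    have m := hb t
    have e := eq_mul_inv_iff_mul_eq.1 (rfl : t * b * t⁻¹ * b⁻¹ = _)
    generalize t * b * t⁻¹ * b⁻¹ = d at ht m e
    have od : orderOf d = p := by
      refine orderOf_eq_prime ?_ ht
      obtain ⟨k, rfl⟩ := Subgroup.mem_zpowers_iff.1 m
      rw [← zpow_natCast, ← zpow_mul, mul_comm, zpow_mul, zpow_natCast, ← ho, pow_orderOf_eq_one, one_zpow]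
    have e2 : ∀ i : ℕ, d ^ i * b * t ^ i = t ^ i * b := fun i => by
      induction i with
      | zero => simp
      | succ i ih =>
        rw [pow_succ' t, mul_assoc t, ← ih, pow_succ, mul_assoc (d ^ i), e, ← mul_assoc t, ← mul_assoc t,
          ← (cm _ (pow_mem m i) t).eq]
        group
    let f : (Fin p → H22.fixSp ρ {b}) →ₗ[F] V := ∑ i : Fin p, ρ (t ^ (i : ℕ)) ∘ₗ Submodule.subtype _ ∘ₗ LinearMap.proj i
    have := LinearMap.finrank_le_finrank_of_injective (f := f) ((injective_iff_map_eq_zero f).2 fun w hw => ?_)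
    · simpa [finrank_pi_fintype] using this
    funext l
    have fx : ∀ (i : Fin p) (j : ℕ), ρ ((d ^ (i : ℕ) * b) ^ j) (ρ (t ^ (i : ℕ)) (w i)) = ρ (t ^ (i : ℕ)) (w i) :=
      fun i j => by
        induction j with
        | zero => simp
        | succ j ih =>
          rw [pow_succ, map_mul, Module.End.mul_apply, ← Module.End.mul_apply (ρ (_ * b)), ← map_mul, e2, map_mul,
            Module.End.mul_apply, (w i).2 b rfl, ih]
    have h1 := congrArg (⇑(∑ j ∈ Finset.range p, ρ ((d ^ (l : ℕ) * b) ^ j) : Module.End F V)) hw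
    simp only [f, LinearMap.sum_apply, LinearMap.comp_apply, map_sum, map_zero, LinearMap.proj_apply,
      Submodule.subtype_apply] at h1
    rw [Finset.sum_eq_single l (fun i _ hi => ?_) (by simp)] at h1
    · simp only [fx, Finset.sum_const, Finset.card_range, ← Nat.cast_smul_eq_nsmul F, smul_eq_zero, h0,
        false_or] at h1
      have := congrArg (ρ (t ^ (l : ℕ))⁻¹) h1
      rw [← Module.End.mul_apply, ← map_mul, inv_mul_cancel, map_one, map_zero] at this
      exact Subtype.ext this
    · have m2 := mul_mem (pow_mem m l) (inv_mem (pow_mem m i))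
      rw [← s0 _ m2 (fun h => hi (Fin.ext (pow_injOn_Iio_orderOf (od ▸ l.2) (od ▸ i.2)
        (mul_inv_eq_one.1 h)).symm)) (ρ (t ^ (i : ℕ)) (w i))]
      refine Finset.sum_congr rfl fun j _ => ?_
      conv_rhs => rw [← fx i j, ← Module.End.mul_apply, ← map_mul, ← (cm _ m2 _).mul_pow]
      simp [mul_assoc]

theorem step (h0 : (p : F) ≠ 0) {e k : ℕ} (h2 : p = 2 → e ≤ 1)
    (ih : ∀ (n : ℕ) {G : Type u} [Group G] [Finite G], IsPGroup p G → ∀ {V : Type v} [AddCommGroup V] [Module F V]
      [FiniteDimensional F V] (ρ : Representation F G V), finrank F V = n → n < e * p ^ k →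
      ∀ x ∈ derivedSeries G k, ρ x = 1)
    {G : Type u} [Group G] [Finite G] (hG : IsPGroup p G) {V : Type v} [AddCommGroup V] [Module F V]
    [FiniteDimensional F V] [Nontrivial V] (ρ : Representation F G V) (hρ : Function.Injective ρ)
    (irr : ∀ W : Submodule F V, (∀ g, W ≤ W.comap (ρ g)) → W = ⊥ ∨ W = ⊤) (h : finrank F V < e * p ^ (k + 1)) :
    derivedSeries G (k + 1) = ⊥ := by
  have ab : IsMulCommutative G → derivedSeries G (k + 1) = ⊥ := fun h =>
    eq_bot_iff.2 ((ds_anti (by omega : 1 ≤ k + 1)).trans (Subgroup.commutator_le.2 fun a _ b _ =>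
      commutatorElement_eq_one_iff_mul_comm.2 (mul_comm' a b)))
  by_cases hc : IsCyclic G
  · exact ab inferInstance
  by_cases hA : ∀ A : Subgroup G, A.Normal → IsMulCommutative A → IsCyclic A
  · obtain rfl : p = 2 := by_contra fun h => hc (H3.isCyclic_of_normal_abelian_cyclic_odd h hG hA)
    rcases k with _ | k
    · obtain ⟨v, hv⟩ := finrank_le_one_iff.1 (show finrank F V ≤ 1 by have := h2 rfl; omega)
      refine ab ⟨⟨fun a b => hρ (LinearMap.ext fun w => ?_)⟩⟩
      obtain ⟨c, rfl⟩ := hv w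
      obtain ⟨r, hr⟩ := hv (ρ a v)
      obtain ⟨s, hs⟩ := hv (ρ b v)
      simp [← hr, ← hs, smul_smul, mul_comm r s]
    · obtain ⟨a, ha, -⟩ := H3.exists_zpowers_index_two_of_normal_abelian_cyclic hG hA hc
      haveI := Subgroup.normal_of_index_eq_two ha
      haveI : IsCyclic (G ⧸ Subgroup.zpowers a) := isCyclic_of_prime_card (p := 2) ha
      have c1 : commutator G ≤ Subgroup.zpowers a := Subgroup.commutator_le.2 fun g _ h _ => by
        rw [← QuotientGroup.eq_one_iff, ← QuotientGroup.mk'_apply, map_commutatorElement,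
          commutatorElement_eq_one_iff_mul_comm]
        exact mul_comm' _ _
      refine eq_bot_iff.2 ((ds_anti (by omega : 2 ≤ k + 1 + 1)).trans (Subgroup.commutator_le.2 fun x hx y hy =>
        commutatorElement_eq_one_iff_mul_comm.2 ?_))
      exact congrArg Subtype.val (mul_comm' (⟨x, c1 hx⟩ : Subgroup.zpowers a) ⟨y, c1 hy⟩)
  push Not at hA
  obtain ⟨A, _, a1, a2⟩ := hA
  obtain ⟨c, a, h1, h3, h4, h5, h6⟩ := Cfsg.Agent.S3380.exists_pair hG A a1 a2
  obtain ⟨b, b1, b2, b3⟩ := split h0 ρ hρ irr h1 h3 h4 h5 h6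
  have := ih _ (hG.to_subgroup (Subgroup.centralizer {b})) (Representation.subrepresentation
    (ρ.comp (Subgroup.centralizer {b}).subtype) (H22.fixSp ρ {b}) fun g w hw y hy => by
      change ρ y (ρ g w) = ρ g w
      rw [hy, ← Module.End.mul_apply, ← map_mul, ← Subgroup.mem_centralizer_singleton_iff.1 g.2, map_mul,
        Module.End.mul_apply, hw b rfl]) rfl
    (lt_of_mul_lt_mul_left (b3.trans_lt (h.trans_eq (by ring))) (Nat.zero_le p))
  have t := (irr _ (fix_inv ρ (derivedSeries G (k + 1)) fun g y hy => by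
    simpa using Subgroup.Normal.conj_mem inferInstance y hy g⁻¹)).resolve_left fun e => b2 (eq_bot_iff.2 (e ▸
      fun w hw y hy => by
        obtain ⟨z, hz, rfl⟩ := ds_le b1 k hy
        exact congrArg Subtype.val (LinearMap.congr_fun (this z hz) ⟨w, hw⟩)))
  exact eq_bot_iff.2 fun y hy => hρ (by
    rw [map_one]; exact LinearMap.ext fun v => t.ge (Submodule.mem_top (x := v)) y hy)

theorem up (h0 : (p : F) ≠ 0) {e : ℕ} (he : Small.{v} F p e) (h2 : p = 2 → e ≤ 1) (k : ℕ) :
    ∀ (n : ℕ) {G : Type u} [Group G] [Finite G], IsPGroup p G → ∀ {V : Type v} [AddCommGroup V] [Module F V]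
      [FiniteDimensional F V] (ρ : Representation F G V), finrank F V = n → n < e * p ^ k →
      ∀ x ∈ derivedSeries G k, ρ x = 1 := by
  induction k with
  | zero =>
    intro n G _ _ hG V _ _ _ ρ hn h x _
    obtain ⟨a, ha⟩ := hG x
    exact he V _ a (by rw [hn]; simpa using h) (by rw [← map_pow, ha, map_one])
  | succ k ih =>
  intro n
  induction n using Nat.strong_induction_on with | _ n ihn
  intro G _ _ hG V _ _ _ ρ hn h x hx
  by_cases irr : ∀ W : Submodule F V, (∀ g, W ≤ W.comap (ρ g)) → W = ⊥ ∨ W = ⊤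
  swap
  · push Not at irr
    obtain ⟨W, hW, w0, w1⟩ := irr
    have d := Submodule.finrank_quotient_add_finrank W
    have d1 := Submodule.finrank_lt w1
    have d2 := (Submodule.finrank_eq_zero (S := W)).not.2 w0
    have a1 := ihn _ (by omega) hG (ρ.subrepresentation W hW) rfl (by omega) x hx
    have a2 := ihn _ (by omega) hG (ρ.quotient W hW) rfl (by omega) x hx
    have a3 : ∀ v, ρ x v - v ∈ W := fun v => by
      have : W.mkQ (ρ x v) = W.mkQ v := LinearMap.congr_fun a2 (W.mkQ v)
      exact (Submodule.Quotient.eq W).1 this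
    have a4 : ∀ (m : ℕ) v, ρ (x ^ m) v = v + (m : F) • (ρ x v - v) := fun m v => by
      induction m with
      | zero => simp
      | succ m ih =>
        rw [pow_succ', map_mul, Module.End.mul_apply, ih, map_add, map_smul,
          show ρ x (ρ x v - v) = ρ x v - v from congrArg Subtype.val (LinearMap.congr_fun a1 ⟨_, a3 v⟩)]
        simp [add_smul]; abel
    obtain ⟨a, ha⟩ := hG x
    ext v
    have := a4 (p ^ a) v
    rw [ha, map_one] at this
    simpa [h0, sub_eq_zero] using this
  rcases subsingleton_or_nontrivial V with _ | _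
  · exact LinearMap.ext fun _ => Subsingleton.elim _ _
  let σ : Representation F (G ⧸ MonoidHom.ker ρ) V := QuotientGroup.lift _ ρ fun _ h => h
  have hσ : Function.Injective σ := (injective_iff_map_eq_one σ).2 fun g h => by
    obtain ⟨g, rfl⟩ := QuotientGroup.mk_surjective g
    exact (QuotientGroup.eq_one_iff g).2 h
  have irr' : ∀ W : Submodule F V, (∀ g, W ≤ W.comap (σ g)) → W = ⊥ ∨ W = ⊤ := fun W h => irr W fun g => h g
  suffices derivedSeries (G ⧸ MonoidHom.ker ρ) (k + 1) = ⊥ by
    have m := map_derivedSeries_le_derivedSeries (QuotientGroup.mk' (MonoidHom.ker ρ)) (k + 1) ⟨x, hx, rfl⟩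
    rw [this] at m
    exact (QuotientGroup.eq_one_iff x).1 m
  exact step h0 h2 ih (hG.to_quotient (MonoidHom.ker ρ)) σ hσ irr' (hn ▸ h)

theorem small_one : Small.{v} F p 1 := fun W _ _ _ x _ h _ => by
  haveI := Module.finrank_zero_iff.1 (Nat.lt_one_iff.1 h)
  exact LinearMap.ext fun _ => Subsingleton.elim _ _

theorem small_fin [Fintype F] (h : ¬ p ∣ Fintype.card F) :
    Small.{v} F p (orderOf (Fintype.card F : ZMod p)) := fun W _ _ _ x a hd hx => by
  classical
  let b := Module.finBasis F W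
  have hu : IsUnit (LinearMap.toMatrixAlgEquiv b x) :=
    (IsUnit.of_pow_eq_one hx (pow_ne_zero _ hp.out.ne_zero)).map _
  have o : hu.unit ^ p ^ a = 1 := Units.ext (by simp [← map_pow, hx])
  obtain ⟨i, -, hi⟩ := (Nat.dvd_prime_pow hp.out).1 (orderOf_dvd_of_pow_eq_one o)
  rcases i with _ | i
  · exact (LinearMap.toMatrixAlgEquiv b).injective
      ((congrArg Units.val (orderOf_eq_one_iff.1 hi)).trans (map_one _).symm)
  have d := (dvd_pow_self p i.succ_ne_zero).trans (hi ▸ orderOf_dvd_natCard hu.unit)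
  rw [Matrix.card_GL_field] at d
  obtain ⟨⟨j, j2⟩, -, hj⟩ := (hp.out.prime.dvd_finsetProd_iff _).1 d
  obtain ⟨m, hm⟩ := Nat.exists_eq_add_of_lt j2
  dsimp only at hj
  rw [hm, add_assoc, pow_add, ← Nat.mul_sub_one, hp.out.dvd_mul] at hj
  have := hj.resolve_left fun k => h (hp.out.dvd_of_dvd_pow k)
  rw [← ZMod.natCast_eq_zero_iff, Nat.cast_sub (Nat.one_le_pow _ _ Fintype.card_pos), sub_eq_zero, Nat.cast_pow,
    Nat.cast_one, ← orderOf_dvd_iff_pow_eq_one] at this
  have := Nat.le_of_dvd m.succ_pos this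
  omega

theorem up_gl {F : Type v} [Field F] (h0 : (p : F) ≠ 0) {e : ℕ} (he : Small.{v} F p e) (h2 : p = 2 → e ≤ 1) {k : ℕ} {ι : Type}
    [Fintype ι] [DecidableEq ι] {G : Type u} [Group G] [Finite G] (hG : IsPGroup p G) (f : G →* Matrix ι ι F)
    (hf : Function.Injective f) (h : Fintype.card ι < e * p ^ k) : derivedSeries G k = ⊥ :=
  eq_bot_iff.2 fun x hx => hf (Matrix.toLinAlgEquiv'.injective (by
    have := up h0 he h2 k _ hG (V := ι → F) ((Matrix.toLinAlgEquiv' : Matrix ι ι F ≃ₐ[F] _).toMonoidHom.comp f) rfl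
      (by simpa using h) x hx
    rw [map_one, map_one]
    exact this))

theorem flag [CharP F p] {G : Type*} [Group G] [Finite G] (hG : IsPGroup p G) {V : Type*} [AddCommGroup V]
    [Module F V] [FiniteDimensional F V] (ρ : Representation F G V) (d : ℕ) (h : d ≤ finrank F V) :
    ∃ W : Submodule F V, (∀ g, W ≤ W.comap (ρ g)) ∧ finrank F W = d := by
  induction d with
  | zero => exact ⟨⊥, fun _ => bot_le, finrank_bot F V⟩
  | succ d ih =>
    obtain ⟨W, hW, e⟩ := ih (by omega)
    have : Nontrivial (V ⧸ W) := Submodule.Quotient.nontrivial_iff.2 fun t => by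
      rw [t, finrank_top] at e; omega
    obtain ⟨v, -, v0, hv⟩ := H90.exists_fixed_of_isPGroup hG (ρ.quotient W hW) ⊤ top_ne_bot fun _ _ _ => trivial
    obtain ⟨v, rfl⟩ := W.mkQ_surjective v
    refine ⟨W ⊔ Submodule.span F {v}, fun g => sup_le ((hW g).trans (Submodule.comap_mono le_sup_left)) ?_, ?_⟩
    · rw [Submodule.span_singleton_le_iff_mem]
      have : W.mkQ (ρ g v) = W.mkQ v := hv g
      simpa using Submodule.add_mem_sup ((Submodule.Quotient.eq W).1 this) (Submodule.mem_span_singleton_self v)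
    · rw [Submodule.finrank_sup_span_singleton fun k => v0 ((Submodule.Quotient.mk_eq_zero W).2 k), e]

theorem unip [CharP F p] {G : Type*} [Group G] [Finite G] (hG : IsPGroup p G) (k : ℕ) :
    ∀ {V : Type v} [AddCommGroup V] [Module F V] [FiniteDimensional F V] (ρ : Representation F G V),
      finrank F V ≤ 2 ^ k → derivedSeries G k ≤ MonoidHom.ker ρ := by
  induction k with
  | zero =>
    intro V _ _ _ ρ h x _
    rcases subsingleton_or_nontrivial V with _ | _
    · exact LinearMap.ext fun _ => Subsingleton.elim _ _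
    obtain ⟨v, -, v0, hv⟩ := H90.exists_fixed_of_isPGroup hG ρ ⊤ top_ne_bot fun _ _ _ => trivial
    refine LinearMap.ext fun w => ?_
    obtain ⟨c, rfl⟩ := (finrank_eq_one_iff_of_nonzero' v v0).1 (le_antisymm h Module.finrank_pos) w
    simp [hv]
  | succ k ih =>
    intro V _ _ _ ρ h
    obtain ⟨W, hW, e⟩ := flag hG ρ (min (finrank F V) (2 ^ k)) (min_le_left _ _)
    have d := Submodule.finrank_quotient_add_finrank W
    have a1 := ih (ρ.subrepresentation W hW) (by omega)
    have a2 := ih (ρ.quotient W hW) (by omega)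
    have a3 : ∀ x ∈ derivedSeries G k, ∀ y ∈ derivedSeries G k, ∀ v, ρ x (ρ y v) = ρ x v + ρ y v - v :=
      fun x hx y hy v => by
        have b : W.mkQ (ρ y v) = W.mkQ v := LinearMap.congr_fun (a2 hy) (W.mkQ v)
        have : ρ x (ρ y v - v) = ρ y v - v :=
          congrArg Subtype.val (LinearMap.congr_fun (a1 hx) ⟨_, (Submodule.Quotient.eq W).1 b⟩)
        rw [map_sub, sub_eq_iff_eq_add] at this
        rw [this]; abel
    refine Subgroup.commutator_le.2 fun x hx y hy => ?_
    have : ρ x * ρ y = ρ y * ρ x := LinearMap.ext fun v => by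
      rw [Module.End.mul_apply, Module.End.mul_apply, a3 x hx y hy, a3 y hy x hx, add_comm]
    rw [MonoidHom.mem_ker, commutatorElement_def, map_mul, map_mul, map_mul, this, mul_assoc (ρ y), ← map_mul,
      mul_inv_cancel, map_one, mul_one, ← map_mul, mul_inv_cancel, map_one]

theorem low {G X : Type*} [Group G] [Group X] [Finite X] (hG : IsPGroup p G) (f : G →* X)
    (hf : Function.Injective f) (P : Sylow p X) {k : ℕ} (h : derivedSeries G k ≠ ⊥) : derivedSeries P k ≠ ⊥ := by
  intro e
  obtain ⟨Q, hQ⟩ := (hG.of_surjective _ f.rangeRestrict_surjective).exists_le_sylow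
  let g := (Q.equiv P).toMonoidHom.comp (f.codRestrict _ fun x => hQ ⟨x, rfl⟩)
  have hg : Function.Injective g := (Q.equiv P).injective.comp fun a b e => hf (congrArg Subtype.val e)
  have := map_derivedSeries_le_derivedSeries g k
  rw [e, le_bot_iff, Subgroup.map_eq_bot_iff_of_injective _ hg] at this
  exact h this

/-- The wreath product acting on `Q → V`. -/
def wrRep {D Q V : Type*} [Group D] [Group Q] [AddCommGroup V] [Module F V] (ρ : Representation F D V) :
    Representation F (D ≀ᵣ Q) (Q → V) where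
  toFun w := LinearMap.pi fun x => ρ (w.left x) ∘ₗ LinearMap.proj (w.right⁻¹ * x)
  map_one' := by ext; simp
  map_mul' a b := by ext; simp [mul_assoc]

theorem wrRep_inj {D Q V : Type*} [Group D] [Group Q] [AddCommGroup V] [Module F V] [Nontrivial V]
    {ρ : Representation F D V} (h : Function.Injective ρ) : Function.Injective (wrRep (Q := Q) ρ) := by
  classical
  refine (injective_iff_map_eq_one _).2 fun w hw => ?_
  have k : ∀ (f : Q → V) x, ρ (w.left x) (f (w.right⁻¹ * x)) = f x := fun f x => congrFun (LinearMap.congr_fun hw f) x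
  obtain ⟨v, hv⟩ := exists_ne (0 : V)
  have r : w.right = 1 := by
    by_contra r
    have := k (Pi.single 1 v) 1
    simp [r, hv.symm] at this
  ext x
  · exact h (by rw [RegularWreathProduct.one_left, Pi.one_apply, map_one]; exact LinearMap.ext fun u => k (fun _ => u) x)
  · exact r

/-- A linear `p`-group of dimension `d` with nontrivial `j`-th derived subgroup, symplectic if `alt`. -/
def Good (F : Type v) [Field F] (p : ℕ) (alt : Prop) (j d : ℕ) : Prop :=
  ∃ (D : Type v) (_ : Group D) (_ : Finite D) (V : Type v) (_ : AddCommGroup V) (_ : Module F V)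
    (_ : FiniteDimensional F V) (ρ : Representation F D V), IsPGroup p D ∧ derivedSeries D j ≠ ⊥ ∧
    finrank F V = d ∧ Function.Injective ρ ∧ (alt → ∃ B : LinearMap.BilinForm F V,
      (∀ u, (∀ v, B u v = 0) → u = 0) ∧ B.IsAlt ∧ ∀ g u v, B (ρ g u) (ρ g v) = B u v)

theorem Good.step {F : Type v} [Field F] {alt : Prop} {j d : ℕ} (h : Good F p alt j d) :
    Good F p alt (j + 1) (p * d) := by
  classical
  obtain ⟨D, _, _, V, _, _, _, ρ, h1, h2, rfl, h4, h5⟩ := h
  haveI : Nontrivial V := by
    by_contra hV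
    haveI := not_nontrivial_iff_subsingleton.1 hV
    exact h2 (eq_bot_iff.2 fun x _ => h4 (LinearMap.ext fun _ => Subsingleton.elim _ _))
  refine ⟨D ≀ᵣ Multiplicative (ZMod p), inferInstance, inferInstance, Multiplicative (ZMod p) → V, inferInstance,
    inferInstance, inferInstance, wrRep ρ, ?_, fun h => h2 (Cfsg.Agent.S4014.wr j h), by simp [finrank_pi_fintype],
    wrRep_inj h4, fun a => ?_⟩
  · obtain ⟨n, hn⟩ := h1.exists_card_eq
    exact IsPGroup.of_card (n := n * p + 1) (by simp [RegularWreathProduct.card, hn, pow_succ, pow_mul])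
  · obtain ⟨B, b1, b2, b3⟩ := h5 a
    refine ⟨∑ x, B.comp (LinearMap.proj x) (LinearMap.proj x), fun u hu => funext fun x => b1 _ fun v => ?_,
      fun u => by simp [b2.self_eq_zero], fun g u v => ?_⟩
    · have := hu (Pi.single x v)
      simp only [LinearMap.sum_apply, LinearMap.BilinForm.comp_apply, LinearMap.proj_apply] at this
      rw [Finset.sum_eq_single x (fun y _ hy => by simp [hy]) (by simp)] at this
      simpa using this
    · simp only [LinearMap.sum_apply, LinearMap.BilinForm.comp_apply, LinearMap.proj_apply]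
      exact Fintype.sum_equiv (Equiv.mulLeft g.right⁻¹) _ _ fun x => b3 _ _ _

theorem Good.iter {F : Type v} [Field F] {alt : Prop} {j d : ℕ} (h : Good F p alt j d) (k : ℕ) :
    Good F p alt (j + k) (p ^ k * d) := by
  induction k with
  | zero => simpa using h
  | succ k ih => simpa [pow_succ', mul_assoc, add_assoc] using ih.step

omit hp in
theorem Good.pad {F : Type v} [Field F] {alt : Prop} {j d : ℕ} (h : Good F p alt j d) (U : Type v)
    [AddCommGroup U] [Module F U] [FiniteDimensional F U]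
    (hU : alt → ∃ B : LinearMap.BilinForm F U, (∀ u, (∀ v, B u v = 0) → u = 0) ∧ B.IsAlt) :
    Good F p alt j (d + finrank F U) := by
  obtain ⟨D, _, _, V, _, _, _, ρ, h1, h2, rfl, h4, h5⟩ := h
  refine ⟨D, inferInstance, inferInstance, V × U, inferInstance, inferInstance, inferInstance,
    ρ.prod (Representation.trivial F D U), h1, h2, finrank_prod, fun a b e => h4 (LinearMap.ext fun v =>
      congrArg Prod.fst (LinearMap.congr_fun e (v, 0))), fun a => ?_⟩
  obtain ⟨B, b1, b2, b3⟩ := h5 a
  obtain ⟨C, c1, c2⟩ := hU a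
  refine ⟨B.comp (LinearMap.fst F V U) (LinearMap.fst F V U) + C.comp (LinearMap.snd F V U) (LinearMap.snd F V U),
    fun u hu => Prod.ext (b1 _ fun v => by simpa using hu (v, 0)) (c1 _ fun v => by simpa using hu (0, v)),
    fun u => by simp [b2.self_eq_zero, c2.self_eq_zero], fun g u v => by simp [Representation.prod, b3]⟩

end H30.DL
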