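import Cfsg.Agent.H11.FBSpec

/-! Tower FB: the action on the fixed points of the Sylow 2-subgroup of the four-point stabiliser. -/

set_option autoImplicit false

namespace H30.FB

open MulAction Subgroup H11.FB

universe u v

theorem jobPH1 : JobPH1.{u, v} := by
  intro ty G Ω _ _ _ _ _ a b c d K H P hy _ pd
  have f := hy.fr
  have PL : P ≤ L4 G a b c d := pd.le.trans f.Kle
  have LN : L4 G a b c d ≤ normalizer (P : Set G) := Nm.le_normalizer fun l hl x hx =>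
    pd.conj_mem f (fun y hy' => mul_mem (mul_mem hl hy') (inv_mem hl)) hx
  obtain ⟨t1, t2⟩ := ty hy.tr hy.ne PL (fun g hg => ⟨1, one_mem _, by
      have h1 : cj g P ≤ P := fun y hy' => by
        obtain ⟨k, e⟩ := (pd.cj g).pg ⟨y, hy'⟩
        exact pd.all y (hg hy') k (congrArg Subtype.val e)
      rw [eq_of_le_of_card_ge h1 (card_cj g P).ge]
      ext x
      rw [mem_cj, inv_one, one_mul, mul_one]⟩) fun l hl _ => by
    obtain ⟨k, m, hm, e⟩ := Nat.exists_eq_two_pow_mul_odd (orderOf_pos l).ne'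
    refine ⟨m, hm, fun ω hω => hω ⟨l ^ m, pd.all _ (pow_mem hl m) k ?_⟩⟩
    rw [← pow_mul, mul_comm, ← e, pow_orderOf_eq_one]
  have inv : ∀ l ∈ L4 G a b c d, ∀ ω ∈ fixedPoints P Ω, l • ω ∈ fixedPoints P Ω :=
    fun l hl ω hω x => by
      have h1 : (l⁻¹ * x * l⁻¹⁻¹) • ω = ω :=
        hω ⟨_, (mem_normalizer_iff.1 (LN (inv_mem hl)) _).1 x.2⟩
      rwa [inv_inv, conj_smul_iff] at h1
  have fK : ∀ k ∈ K, ∀ ω ∈ fixedPoints P Ω, k • ω = ω := fun k hk ω hω => by
    obtain ⟨h, hh, h1⟩ := (H.bot_or_exists_ne_one).resolve_left f.Hne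
    obtain ⟨x, hx, rfl⟩ := exists_comm (U := K) (h := h) (f.Kn h (f.Hle hh))
      (fun x hx e => f.fpf hh h1 hx e) hk
    have xL := f.Kle hx
    have hL := f.Hle hh
    have h2 := t1.comm x (LN xL) xL h (LN hL) hL _
      (inv _ (mul_mem (inv_mem xL) (inv_mem hL)) ω hω)
    rw [← mul_smul, ← mul_smul, show h * x * (x⁻¹ * h⁻¹) = 1 by group, one_smul] at h2
    rwa [show x * (h * x⁻¹ * h⁻¹) = x * h * (x⁻¹ * h⁻¹) by group]
  refine ⟨t1.card, ?_, fun h7 l hl => t1.sharp h7 l (LN hl) hl, fK, fun h7 g hg => ?_, fun h7 => ?_⟩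
  · have : Fact (Nat.Prime 2) := ⟨Nat.prime_two⟩
    have h1 := pd.pg.card_modEq_card_fixedPoints Ω
    rw [Nat.card_eq_fintype_card, Nat.card_coe_set_eq] at h1
    exact h1.symm
  · rcases t2.simp (.inr (.inl h7)) (centralizer (P : Set G)) (centralizer_le_normalizer _)
      (fun n hn m hm x hx => by
        have h1 := hm _ ((mem_normalizer_iff.1 (inv_mem hn) x).1 hx)
        calc x * (n * m * n⁻¹) = n * (n⁻¹ * x * n⁻¹⁻¹ * m) * n⁻¹ := by group
          _ = n * m * n⁻¹ * x := by rw [h1]; group) with h1 | h1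
    · exact h1 g fun x hx => (hg x hx).symm
    exfalso
    obtain ⟨g0, n0, l0, h2⟩ := t1.sev h7
    obtain ⟨m, hm, h3⟩ := h1 g0 n0
    obtain ⟨e1, e2, e3, e4⟩ := mem_L4.1 l0
    have mL : m ∈ L4 G a b c d := mem_L4.2
      ⟨(h3 a fun x => (mem_L4.1 (PL x.2)).1).trans e1,
        (h3 b fun x => (mem_L4.1 (PL x.2)).2.1).trans e2,
        (h3 c fun x => (mem_L4.1 (PL x.2)).2.2.1).trans e3,
        (h3 d fun x => (mem_L4.1 (PL x.2)).2.2.2).trans e4⟩
    obtain ⟨x, hx, x1⟩ := (P.bot_or_exists_ne_one).resolve_left pd.ne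
    have mK := f.cenK x (pd.le hx) x1 m mL (hm x hx).symm
    have h4 : fixedPoints P Ω ⊆ {a, b, c, d} := fun ω hω =>
      h2 ω hω ((h3 ω hω).symm.trans (fK m mK ω hω))
    have h5 := (Set.ncard_le_ncard h4).trans (Set.ncard_insert_le _ _)
    have h6 := Set.ncard_insert_le b {c, d}
    have h8 := Set.ncard_insert_le c {d}
    rw [Set.ncard_singleton] at h8
    omega
  · obtain ⟨g0, -, l0, h2⟩ := t1.sev h7
    obtain ⟨k, hk, x, hx, rfl⟩ := f.fac g0 l0
    exact ⟨x, hx, fun ω hω e => h2 ω hω (by rw [mul_smul, e, fK k hk ω hω])⟩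

end H30.FB
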