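import Cfsg.Agent.Base

/-! Binomial coefficients without small prime factors. -/

set_option autoImplicit false
set_option maxHeartbeats 400000

namespace H30.HS

open Nat

theorem no_carry {p d k : ℕ} (hp : p.Prime) (h : ¬ p ∣ (d + k).choose k) {i : ℕ} (hi : 1 ≤ i) :
    k % p ^ i + d % p ^ i < p ^ i := by
  by_contra hc
  push Not at hc
  have h1 := Nat.factorization_choose' (p := p) (n := d) (k := k)
    (b := Nat.log p (d + k) + i + 1) hp (by omega)
  rw [Nat.factorization_eq_zero_of_not_dvd h, eq_comm, Finset.card_eq_zero,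
    Finset.filter_eq_empty_iff] at h1
  exact h1 (Finset.mem_Ico.2 ⟨hi, by omega⟩) hc

theorem mod_cases (a Q : ℕ) (h : a < 2 * Q) :
    (a < Q ∧ a % Q = a) ∨ (Q ≤ a ∧ a % Q = a - Q) := by
  rcases lt_or_ge a Q with h1 | h1
  · exact Or.inl ⟨h1, Nat.mod_eq_of_lt h1⟩
  · exact Or.inr ⟨h1, by rw [Nat.mod_eq_sub_mod h1, Nat.mod_eq_of_lt (by omega)]⟩

theorem half_mod (d Q : ℕ) : d % Q = (2 * (d / 2 % Q) + d % 2) % Q := by
  conv_lhs => rw [← Nat.div_add_mod d 2]
  exact ((Nat.mod_modEq (d / 2) Q).symm.mul_left 2).add_right _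

theorem carry_odd {d k Q : ℕ} (hQ : Odd Q) (h2 : k % 2 + d % 2 < 2) (h : k % Q + d % Q < Q)
    (hc : Q ≤ k / 2 % Q + d / 2 % Q) : Q ≤ k / 2 % Q + (k - k / 2) % Q := by
  have hQ0 : 0 < Q := hQ.pos
  have e1 := half_mod d Q
  have e2 := half_mod k Q
  have e3 : (k - k / 2) % Q = (k / 2 % Q + k % 2) % Q := by
    rw [show k - k / 2 = k / 2 + k % 2 by omega]
    exact (Nat.mod_modEq (k / 2) Q).symm.add_right _
  have hx := Nat.mod_lt (d / 2) hQ0
  have hy := Nat.mod_lt (k / 2) hQ0
  rw [Nat.odd_iff] at hQ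
  rw [e1, e2] at h
  rw [e3]
  generalize d / 2 % Q = x at *
  generalize k / 2 % Q = y at *
  have c1 := mod_cases (2 * x + d % 2) Q (by omega)
  have c2 := mod_cases (2 * y + k % 2) Q (by omega)
  have c3 := mod_cases (y + k % 2) Q (by omega)
  omega

theorem far {d k : ℕ} (hk : 2 ≤ k) (hd : k + 2 ≤ d)
    (h : ∀ p : ℕ, p.Prime → p ≤ d → ¬ p ∣ (d + k).choose k) : False := by
  have h2 := no_carry Nat.prime_two (h 2 Nat.prime_two (by omega)) le_rfl
  rw [pow_one] at h2
  have hdvd : (d / 2 + k / 2).choose (k / 2) ∣ (k - k / 2 + k / 2).choose (k / 2) := by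
    rw [← Nat.factorization_prime_le_iff_dvd (Nat.choose_pos (by omega)).ne'
      (Nat.choose_pos (by omega)).ne']
    intro p hp
    rw [Nat.factorization_choose' (b := Nat.log p (d + k) + 1) hp
        (Nat.lt_succ_of_le (Nat.log_mono_right (by omega))),
      Nat.factorization_choose' (b := Nat.log p (d + k) + 1) hp
        (Nat.lt_succ_of_le (Nat.log_mono_right (by omega)))]
    refine Finset.card_le_card fun i hi => ?_
    rw [Finset.mem_filter] at hi ⊢
    refine ⟨hi.1, ?_⟩
    have hi1 := (Finset.mem_Ico.1 hi.1).1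
    have hi2 := hi.2
    by_cases hpd : p ≤ d
    · rcases hp.eq_two_or_odd' with rfl | ho
      · exfalso
        have h3 := no_carry hp (h 2 hp hpd) (i := i + 1) (by omega)
        rw [pow_succ', Nat.mod_mul, Nat.mod_mul] at h3
        omega
      · exact carry_odd ho.pow h2 (no_carry hp (h p hp hpd) hi1) hi2
    · exfalso
      have h3 : p ≤ p ^ i := Nat.le_self_pow (by omega) p
      have h4 := Nat.mod_le (k / 2) (p ^ i)
      have h5 := Nat.mod_le (d / 2) (p ^ i)
      omega
  rw [show k - k / 2 + k / 2 = k by omega] at hdvd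
  have h3 := Nat.le_of_dvd (Nat.choose_pos (by omega)) hdvd
  have h4 := Nat.choose_le_choose (k / 2) (show k + 1 ≤ d / 2 + k / 2 by omega)
  obtain ⟨j, hj⟩ : ∃ j, k / 2 = j + 1 := ⟨k / 2 - 1, by omega⟩
  rw [hj] at h3 h4
  rw [Nat.choose_succ_succ'] at h4
  have h5 := Nat.choose_pos (show j ≤ k by omega)
  omega

theorem mod_of_dvd {a j Q : ℕ} (h : Q ∣ a + j) (hj : 0 < j) (hQ : j ≤ Q) : a % Q = Q - j := by
  obtain ⟨m, hm⟩ := h
  obtain ⟨m, rfl⟩ : ∃ m', m = m' + 1 := by
    refine ⟨m - 1, ?_⟩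
    rcases Nat.eq_zero_or_pos m with rfl | h
    · omega
    · omega
  rw [show a = Q - j + Q * m by rw [mul_add] at hm; omega, Nat.add_mul_mod_self_left,
    Nat.mod_eq_of_lt (by omega)]

theorem near {k : ℕ} (hk : 2 ≤ k)
    (h : ∀ p : ℕ, p.Prime → p ≤ k + 1 → ¬ p ∣ (k + 1 + k).choose k) : k = 3 := by
  have key : ∀ j c : ℕ, 1 ≤ j → ¬ (k + 1 + j).Prime → j ≤ k →
      (∀ m, m < 2 * j + 1 → 0 < m → m ∣ c) → k + 1 + j ∣ c := by
    intro j c hj hnp hjk hc
    rw [Nat.dvd_iff_prime_pow_dvd_dvd]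
    intro p i hp hd
    refine hc _ ?_ (pow_pos hp.pos _)
    rcases Nat.eq_zero_or_pos i with rfl | hi
    · rw [pow_zero]; omega
    by_contra hq
    have hpd : p ∣ k + 1 + j := (dvd_pow_self p hi.ne').trans hd
    have hple : p ≤ k + 1 := by
      obtain ⟨m, hm⟩ := hpd
      have hm1 : m ≠ 1 := by
        rintro rfl
        exact hnp (by rw [hm, mul_one]; exact hp)
      have hm0 : m ≠ 0 := by
        rintro rfl
        omega
      have : p * 2 ≤ p * m := Nat.mul_le_mul_left _ (by omega)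
      omega
    have h1 := no_carry hp (h p hp hple) hi
    rw [mod_of_dvd hd hj (by omega),
      mod_of_dvd (a := k) (j := 1 + j) (by rwa [← add_assoc]) (by omega) (by omega)] at h1
    omega
  have h1 : (k + 1 + 1).Prime := by
    by_contra hc
    have := Nat.le_of_dvd two_pos (key 1 2 le_rfl hc (by omega) fun m h1 h2 => by
      interval_cases m <;> norm_num)
    omega
  have h2 := h1.eq_two_or_odd
  have h3 : ¬ (k + 1 + 2).Prime := by
    intro e
    have := e.eq_two_or_odd
    omega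
  have h4 := key 2 12 (by omega) h3 hk fun m h1 h2 => by interval_cases m <;> norm_num
  have h5 := Nat.le_of_dvd (by norm_num) h4
  have h6 : k ≤ 9 := by omega
  have h7 := h 2 Nat.prime_two (by omega)
  interval_cases k <;> first | rfl | omega | exact absurd (by decide) h7

theorem ab {d k : ℕ} (hk : 2 ≤ k) (hd : k < d)
    (h : ∀ p : ℕ, p.Prime → p ≤ d → ¬ p ∣ (d + k).choose k) : d = 4 ∧ k = 3 := by
  rcases (show d = k + 1 ∨ k + 2 ≤ d by omega) with rfl | h1
  · have := near hk h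
    omega
  · exact (far hk h1 h).elim

theorem wreath (e m : ℕ) : (m * (e + 1))! =
    (e + 1)! ^ m * m ! * ∏ j ∈ Finset.range m, (j * (e + 1) + e).choose e := by
  induction m with
  | zero => simp
  | succ m ih =>
    have h1 := Nat.add_choose_mul_factorial_mul_factorial (m * (e + 1)) (e + 1)
    have h2 := Nat.add_one_mul_choose_eq (m * (e + 1) + e) e
    have h3 : (m * (e + 1) + (e + 1)).choose (e + 1) = (m + 1) * (m * (e + 1) + e).choose e := by
      apply Nat.eq_of_mul_eq_mul_right (Nat.succ_pos e)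
      rw [← add_assoc, ← h2]
      simp only [Nat.succ_eq_add_one]
      ring
    rw [add_mul, one_mul, ← h1, h3, ih, Finset.prod_range_succ, pow_succ, Nat.factorial_succ m]
    ring

end H30.HS
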