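import Cfsg.Agent.H30.HallSnA
import Cfsg.Agent.H87.Simple

/-! Subgroups of symmetric groups meeting the alternating group in a Hall subgroup:
the primes `2` and `3` are involved. -/

set_option autoImplicit false
set_option maxHeartbeats 400000

namespace H30.HS

open Equiv Equiv.Perm

theorem exists_conj_mem {G : Type*} [Group G] [Finite G] {s : ℕ} (hs : s.Prime) (H R : Subgroup G)
    (hH : ¬ s ∣ H.index) (hR : IsPGroup s R) : ∃ g : G, ∀ r ∈ R, g⁻¹ * r * g ∈ H := by
  haveI : Fact s.Prime := ⟨hs⟩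
  obtain ⟨x, hx⟩ := hR.nonempty_fixed_point_of_prime_not_dvd_card (G ⧸ H) hH
  obtain ⟨g, rfl⟩ := QuotientGroup.mk_surjective x
  refine ⟨g, fun r hr => ?_⟩
  have h1 : ((r * g : G) : G ⧸ H) = g := hx ⟨r, hr⟩
  have h2 := QuotientGroup.eq.1 h1.symm
  rwa [← mul_assoc] at h2

variable {α : Type*} [Fintype α] [DecidableEq α]

/-- `M` is a `π`-group meeting the alternating group in a Hall `π`-subgroup. -/
structure Good (π : Set ℕ) (M : Subgroup (Perm α)) : Prop where
  pi : ∀ p : ℕ, p.Prime → p ∣ Nat.card M → p ∈ π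
  idx : ∀ p : ℕ, p.Prime → p ∈ π → ¬ p ∣ M.relIndex (alternatingGroup α)

variable {π : Set ℕ} {M : Subgroup (Perm α)}

theorem prime_dvd_orderOf {h : Perm α} {a : α} {p : ℕ} (hp : p.Prime) (h1 : (h ^ p) a = a)
    (h2 : h a ≠ a) : p ∣ orderOf h := by
  haveI : Fact p.Prime := ⟨hp⟩
  have h3 : Function.minimalPeriod h a = p :=
    Function.minimalPeriod_eq_prime (by rw [Function.IsPeriodicPt, ← Perm.coe_pow]; exact h1) h2
  rw [← h3]
  apply Function.IsPeriodicPt.minimalPeriod_dvd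
  rw [Function.IsPeriodicPt, ← Perm.coe_pow, pow_orderOf_eq_one]
  rfl

theorem Good.mem_of_period (hM : Good π M) {h : Perm α} (hh : h ∈ M) {a : α} {p : ℕ}
    (hp : p.Prime) (h1 : (h ^ p) a = a) (h2 : h a ≠ a) : p ∈ π :=
  hM.pi p hp ((prime_dvd_orderOf hp h1 h2).trans (Subgroup.orderOf_dvd_natCard M hh))

/-- Permutations acting on each cycle of `σ` as a power of `σ`. -/
def Rg (σ : Perm α) : Subgroup (Perm α) where
  carrier := {g | Commute g σ ∧ ∀ x, SameCycle σ x (g x)}
  one_mem' := ⟨Commute.one_left _, fun x => SameCycle.rfl⟩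
  mul_mem' := fun {a b} ha hb => ⟨ha.1.mul_left hb.1, fun x => (hb.2 x).trans (ha.2 (b x))⟩
  inv_mem' := fun {a} ha => ⟨ha.1.inv_left, fun x => by
    have := (ha.2 (a⁻¹ x)).symm
    simpa using this⟩

theorem Rg_pow {σ g : Perm α} {s : ℕ} (hσ : σ ^ s = 1) (hg : g ∈ Rg σ) : g ^ s = 1 := by
  ext x
  obtain ⟨i, hi⟩ := hg.2 x
  have key : ∀ j : ℕ, (g ^ j) x = ((σ ^ i) ^ j) x := by
    intro j
    induction j with
    | zero => simp
    | succ j ih =>
      rw [pow_succ', Perm.mul_apply, ih, ← Perm.mul_apply, ((hg.1.zpow_right i).pow_right j).eq,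
        Perm.mul_apply, ← hi, ← Perm.mul_apply, ← pow_succ]
  rw [key, ← zpow_natCast, ← zpow_mul, mul_comm, zpow_mul, zpow_natCast, hσ, one_zpow]

theorem Good.exists_sigma (hM : Good π M) {s : ℕ} (hs : s.Prime) (hπ : s ∈ π) :
    ∃ σ : Perm α, σ ^ s = 1 ∧ Fintype.card α < σ.support.card + s ∧
      ∀ r ∈ Rg σ, r ∈ alternatingGroup α → r ∈ M := by
  haveI : Fact s.Prime := ⟨hs⟩
  obtain ⟨σ, hσ⟩ := (Perm.exists_with_cycleType_iff α
    (m := Multiset.replicate (Fintype.card α / s) s)).2 ⟨by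
      rw [Multiset.sum_replicate, smul_eq_mul]; exact Nat.div_mul_le_self _ _,
      fun a ha => by rw [Multiset.eq_of_mem_replicate ha]; exact hs.two_le⟩
  have h1 : σ ^ s = 1 := pow_prime_eq_one_iff.2 fun c hc => by
    rw [hσ] at hc
    exact Multiset.eq_of_mem_replicate hc
  have h2 : Fintype.card α < σ.support.card + s := by
    rw [← sum_cycleType, hσ, Multiset.sum_replicate, smul_eq_mul]
    exact Nat.lt_div_mul_add hs.pos
  obtain ⟨g, hg⟩ := exists_conj_mem hs (M.subgroupOf (alternatingGroup α))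
    ((Rg σ).subgroupOf (alternatingGroup α)) (hM.idx s hs hπ) fun r =>
      ⟨1, Subtype.ext (Subtype.ext (by simpa using Rg_pow h1 r.2))⟩
  set k : Perm α := g.1 with hk
  refine ⟨k⁻¹ * σ * k⁻¹⁻¹, by rw [conj_pow, h1]; simp, by rwa [card_support_conj], ?_⟩
  intro r hr hA
  have h3 : k * r * k⁻¹ ∈ Rg σ := by
    refine ⟨?_, fun x => ?_⟩
    · have := hr.1.eq
      rw [inv_inv] at this
      show _ * _ = _ * _
      calc k * r * k⁻¹ * σ = k * (r * (k⁻¹ * σ * k)) * k⁻¹ := by group
        _ = σ * (k * r * k⁻¹) := by rw [this]; group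
    · have := (hr.2 (k⁻¹ x)).conj (g := k)
      simpa [mul_assoc] using this
  have h4 := hg ⟨k * r * k⁻¹, Subgroup.Normal.conj_mem inferInstance r hA k⟩ h3
  rw [Subgroup.mem_subgroupOf] at h4
  simpa [hk, mul_assoc] using h4

theorem mem_alt_of_pow {g : Perm α} {s : ℕ} (hs : Odd s) (h : g ^ s = 1) :
    g ∈ alternatingGroup α := by
  rw [mem_alternatingGroup]
  have := congrArg sign h
  rw [map_pow, map_one] at this
  rcases Int.units_eq_one_or (sign g) with e | e
  · exact e
  · rw [e, hs.neg_one_pow] at this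
    exact absurd this (by decide)

theorem Good.exists_cycles (hM : Good π M) {s : ℕ} (hs : s.Prime) (ho : s ≠ 2) (hπ : s ∈ π) :
    ∃ S : Finset α, Fintype.card α < S.card + s ∧
      ∀ z ∈ S, ∃ c ∈ M, c.IsCycle ∧ c.support.card = s ∧ c z ≠ z := by
  obtain ⟨σ, h1, h2, h3⟩ := hM.exists_sigma hs hπ
  refine ⟨σ.support, h2, fun z hz => ?_⟩
  rw [mem_support] at hz
  have h4 : σ.cycleOf z ∈ Rg σ := by
    refine ⟨?_, fun x => ?_⟩
    · show _ * _ = _ * _
      ext y
      simp only [Perm.mul_apply, cycleOf_apply, sameCycle_apply_right]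
      split_ifs <;> rfl
    · rw [cycleOf_apply]
      split_ifs
      · exact sameCycle_apply_right.2 SameCycle.rfl
      · exact SameCycle.rfl
  have h5 := Rg_pow h1 h4
  have h6 := isCycle_cycleOf σ hz
  haveI : Fact s.Prime := ⟨hs⟩
  refine ⟨_, h3 _ h4 (mem_alt_of_pow (hs.odd_of_ne_two ho) h5), h6, ?_, by rwa [cycleOf_apply_self]⟩
  rw [← h6.orderOf]
  exact orderOf_eq_prime h5 h6.ne_one

theorem Good.exists_tau (hM : Good π M) (hπ : 2 ∈ π) :
    ∃ τ : Perm α, (∀ x, τ (τ x) = x) ∧ (∀ x y, τ x = x → τ y = y → x = y) ∧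
      ∀ a b, τ a ≠ a → τ b ≠ b → swap a (τ a) * swap b (τ b) ∈ M := by
  obtain ⟨τ, h1, h2, h3⟩ := hM.exists_sigma Nat.prime_two hπ
  have h4 : ∀ x, τ (τ x) = x := fun x => by
    have := congrArg (fun f : Perm α => f x) h1
    simpa [sq] using this
  refine ⟨τ, h4, fun x y hx hy => ?_, fun a b ha hb => h3 _ ?_ ?_⟩
  · by_contra e
    have h5 : ({x, y} : Finset α) ⊆ τ.supportᶜ := by
      intro z hz
      simp only [Finset.mem_insert, Finset.mem_singleton] at hz
      rcases hz with rfl | rfl <;> simpa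
    have h6 := Finset.card_le_card h5
    rw [Finset.card_pair e, Finset.card_compl] at h6
    omega
  · have key : ∀ a, swap a (τ a) ∈ Rg τ := by
      intro a
      refine ⟨?_, fun x => ?_⟩
      · show _ * _ = _ * _
        rw [mul_swap_eq_swap_mul, h4, swap_comm]
      · rw [swap_apply_def]
        split_ifs with e1 e2
        · rw [e1]; exact sameCycle_apply_right.2 SameCycle.rfl
        · rw [e2]; exact sameCycle_apply_left.2 SameCycle.rfl
        · exact SameCycle.rfl
    exact mul_mem (key a) (key b)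
  · simp [mem_alternatingGroup, ha.symm, hb.symm]

/-- Two overlapping cycles of the same length generate a group of even order. -/
theorem Good.two_mem_of_overlap (hM : Good π M) {x y : Perm α} (hx : x ∈ M) (hy : y ∈ M)
    (cx : x.IsCycle) (cy : y.IsCycle) (hc : y.support.card ≤ x.support.card) {a b : α}
    (ha : x a = a) (ha' : y a ≠ a) (hb : x b ≠ b) (hb' : y b ≠ b) : 2 ∈ π := by
  classical
  by_contra h2
  set W := x.support ∪ y.support with hW
  let G : Subgroup (Perm α) :=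
    { carrier := {g | g ∈ M ∧ ∀ z, g z ∈ W ↔ z ∈ W}
      one_mem' := ⟨M.one_mem, fun _ => Iff.rfl⟩
      mul_mem' := fun {u v} hu hv => ⟨M.mul_mem hu.1 hv.1, fun z => (hu.2 (v z)).trans (hv.2 z)⟩
      inv_mem' := fun {u} hu => ⟨M.inv_mem hu.1, fun z => by simpa using (hu.2 (u⁻¹ z)).symm⟩ }
  have hG : ∀ g ∈ M, g.support ⊆ W → g ∈ G := by
    intro g hg hs
    refine ⟨hg, fun z => ?_⟩
    by_cases e : g z = z
    · rw [e]
    · have h1 : z ∈ g.support := mem_support.2 e
      exact iff_of_true (hs (apply_mem_support.2 h1)) (hs h1)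
  have hxG := hG x hx Finset.subset_union_left
  have hyG := hG y hy Finset.subset_union_right
  have haW : a ∈ W := Finset.mem_union_right _ (mem_support.2 ha')
  have hbW : b ∈ W := Finset.mem_union_right _ (mem_support.2 hb')
  have hab : a ≠ b := fun e => hb (e ▸ ha)
  set R := W.offDiag.filter fun p => ∃ g ∈ G, g a = p.1 ∧ g b = p.2 with hR
  have hdis : Disjoint R (R.image Prod.swap) := by
    rw [Finset.disjoint_left]
    rintro ⟨u, v⟩ h1 h3
    obtain ⟨⟨v', u'⟩, h4, e⟩ := Finset.mem_image.1 h3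
    obtain ⟨rfl, rfl⟩ := Prod.mk.inj e
    obtain ⟨h5, g, hg, e1, e2⟩ := Finset.mem_filter.1 h1
    obtain ⟨-, g', hg', e3, e4⟩ := Finset.mem_filter.1 h4
    dsimp only at e1 e2 e3 e4
    have e5 : (g' * g⁻¹) u' = v' := by rw [← e1, ← e3]; simp
    have e6 : (g' * g⁻¹) v' = u' := by rw [← e2, ← e4]; simp
    refine h2 (hM.mem_of_period (M.mul_mem hg'.1 (M.inv_mem hg.1)) (a := u') Nat.prime_two ?_ ?_)
    · rw [sq, Perm.mul_apply, e5, e6]
    · rw [e5]
      exact (Finset.mem_offDiag.1 h5).2.2.symm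
  have h3 : 2 * R.card ≤ W.card * W.card - W.card := by
    rw [← Finset.offDiag_card, two_mul]
    nth_rewrite 2 [← Finset.card_image_of_injective R Prod.swap_injective]
    rw [← Finset.card_union_of_disjoint hdis]
    refine Finset.card_le_card (Finset.union_subset (Finset.filter_subset _ _) fun p hp => ?_)
    obtain ⟨p', h4, rfl⟩ := Finset.mem_image.1 hp
    have h5 := Finset.mem_offDiag.1 (Finset.mem_filter.1 h4).1
    exact Finset.mem_offDiag.2 ⟨h5.2.1, h5.1, h5.2.2.symm⟩
  have htr : ∀ u ∈ W, ∃ g ∈ G, g a = u := by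
    intro u hu
    rcases Finset.mem_union.1 hu with h | h
    · obtain ⟨i, hi⟩ := cy.exists_pow_eq ha' hb'
      obtain ⟨j, hj⟩ := cx.exists_pow_eq hb (mem_support.1 h)
      exact ⟨x ^ j * y ^ i, G.mul_mem (G.pow_mem hxG j) (G.pow_mem hyG i), by
        rw [Perm.mul_apply, hi, hj]⟩
    · obtain ⟨i, hi⟩ := cy.exists_pow_eq ha' (mem_support.1 h)
      exact ⟨y ^ i, G.pow_mem hyG i, hi⟩
  choose! g hg1 hg2 using htr
  have h4 : W.card * x.support.card ≤ R.card := by
    rw [← Finset.card_product]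
    refine Finset.card_le_card_of_injOn (fun p => (p.1, g p.1 p.2)) ?_ ?_
    · rintro ⟨u, w⟩ hp
      obtain ⟨hu, hw⟩ := Finset.mem_product.1 (Finset.mem_coe.1 hp)
      dsimp only at hu hw
      obtain ⟨j, hj⟩ := cx.exists_pow_eq hb (mem_support.1 hw)
      refine Finset.mem_coe.2 (Finset.mem_filter.2 ⟨Finset.mem_offDiag.2 ⟨hu,
        ((hg1 u hu).2 w).2 (Finset.mem_union_left _ hw), ?_⟩, g u * x ^ j,
        G.mul_mem (hg1 u hu) (G.pow_mem hxG j), ?_, ?_⟩)
      · intro e
        have : a = w := (g u).injective ((hg2 u hu).trans e)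
        exact mem_support.1 hw (this ▸ ha)
      · rw [Perm.mul_apply, pow_apply_eq_self_of_apply_eq_self ha, hg2 u hu]
      · rw [Perm.mul_apply, hj]
    · rintro ⟨u, w⟩ - ⟨u', w'⟩ - e
      obtain ⟨rfl, e2⟩ := Prod.mk.inj e
      exact Prod.ext rfl ((g u).injective e2)
  have h5 := Finset.card_union_add_card_inter x.support y.support
  have h6 : 0 < (x.support ∩ y.support).card :=
    Finset.card_pos.2 ⟨b, Finset.mem_inter.2 ⟨mem_support.2 hb, mem_support.2 hb'⟩⟩
  have h7 : 0 < W.card := Finset.card_pos.2 ⟨a, haW⟩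
  rw [← hW] at h5
  have h8 : W.card * W.card ≤ W.card * (2 * x.support.card) := Nat.mul_le_mul_left _ (by omega)
  have h9 : W.card * (2 * x.support.card) = 2 * (W.card * x.support.card) := by ring
  have h10 : 1 * W.card ≤ W.card * W.card := Nat.mul_le_mul_right _ h7
  omega

theorem Good.two_mem (hM : Good π M) {p q : ℕ} (hp : p.Prime) (hq : q.Prime) (hpq : p < q)
    (hpπ : p ∈ π) (hqπ : q ∈ π) (hqn : q ≤ Fintype.card α) : 2 ∈ π := by
  classical
  by_cases hp2 : p = 2
  · exact hp2 ▸ hpπ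
  have h2 := hp.two_le
  obtain ⟨S, hS, hS'⟩ := hM.exists_cycles hp hp2 hpπ
  obtain ⟨T, hT, hT'⟩ := hM.exists_cycles hq (by omega) hqπ
  obtain ⟨t, ht⟩ : T.Nonempty := Finset.card_pos.1 (by omega)
  obtain ⟨c, hcM, hc, hcq, -⟩ := hT' t ht
  obtain ⟨z, hz⟩ : (c.support ∩ S).Nonempty := by
    rw [← Finset.card_pos]
    have h3 := Finset.card_union_add_card_inter c.support S
    have h4 := Finset.card_le_univ (c.support ∪ S)
    omega
  obtain ⟨hz1, hz2⟩ := Finset.mem_inter.1 hz
  obtain ⟨x, hxM, hx, hxp, hxz⟩ := hS' z hz2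
  have ho : orderOf c = q := hc.orderOf.trans hcq
  have key : ∀ i : ℕ, c ^ i ≠ 1 → ∀ w, x w ≠ w → x ((c ^ i) w) ≠ (c ^ i) w → 2 ∈ π := by
    intro i hi w hw hw'
    by_cases hinv : ∀ u, x u ≠ u → x ((c ^ i) u) ≠ (c ^ i) u
    · exfalso
      have hcop : Nat.Coprime i (orderOf c) := by
        rw [ho, Nat.coprime_comm, hq.coprime_iff_not_dvd, ← ho, orderOf_dvd_iff_pow_eq_one]
        exact hi
      obtain ⟨m, hm⟩ := exists_pow_eq_self_of_coprime hcop
      have h3 : ∀ j : ℕ, x (((c ^ i) ^ j) z) ≠ ((c ^ i) ^ j) z := by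
        intro j
        induction j with
        | zero => simpa using hxz
        | succ j ih => rw [pow_succ', Perm.mul_apply]; exact hinv _ ih
      have h4 : c.support ⊆ x.support := by
        intro u hu
        obtain ⟨j, hj⟩ := hc.exists_pow_eq (mem_support.1 hz1) (mem_support.1 hu)
        have := h3 (m * j)
        rw [pow_mul, hm, hj] at this
        exact mem_support.2 this
      have := Finset.card_le_card h4
      omega
    · push Not at hinv
      obtain ⟨u, hu, hu'⟩ := hinv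
      refine hM.two_mem_of_overlap hxM
        (M.mul_mem (M.mul_mem (M.pow_mem hcM i) hxM) (M.inv_mem (M.pow_mem hcM i))) hx hx.conj
        card_support_conj.le hu' ?_ hw' ?_
      · simpa using hu
      · simpa using hw
  by_cases hsub : ∃ w, x w ≠ w ∧ c w = w
  · obtain ⟨w, hw, hw'⟩ := hsub
    exact key 1 (by simpa using hc.ne_one) w hw (by simpa [hw'] using hw)
  · push Not at hsub
    have h3 : x (x z) ≠ x z := fun e => hxz (x.injective e)
    obtain ⟨i, hi⟩ := hc.exists_pow_eq (mem_support.1 hz1) (hsub _ h3)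
    refine key i (fun e => hxz ?_) z hxz (by rwa [hi])
    rw [← hi, e, Perm.one_apply]

theorem exists_not_mem (l : List α) (h : l.length < Fintype.card α) : ∃ x, x ∉ l := by
  by_contra k
  push Not at k
  have h1 : l.toFinset = Finset.univ := Finset.eq_univ_iff_forall.2 fun x => by simpa using k x
  have h2 := l.toFinset_card_le
  rw [h1, Finset.card_univ] at h2
  omega

theorem exists_moved (h6 : 6 ≤ Fintype.card α) {τ : Perm α}
    (h : ∀ x y, τ x = x → τ y = y → x = y) (a b c d : α) :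
    ∃ e, τ e ≠ e ∧ e ≠ a ∧ e ≠ b ∧ e ≠ c ∧ e ≠ d := by
  obtain ⟨e, he⟩ := exists_not_mem [a, b, c, d] (by simp; omega)
  obtain ⟨e', he'⟩ := exists_not_mem [e, a, b, c, d] (by simp; omega)
  simp only [List.mem_cons, List.not_mem_nil, or_false, not_or] at he he'
  by_cases h1 : τ e = e
  · exact ⟨e', fun h2 => he'.1 (h _ _ h2 h1), he'.2⟩
  · exact ⟨e, h1, he⟩

theorem Good.three_mem (hM : Good π M) (h2 : 2 ∈ π) {q : ℕ} (hq : q.Prime) (hq2 : q ≠ 2)
    (hqπ : q ∈ π) (hqn : q ≤ Fintype.card α) : 3 ∈ π := by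
  classical
  by_contra h3
  have hq5 : 5 ≤ q := by
    have h1 := hq.two_le
    have h4 : q ≠ 3 := fun e => h3 (e ▸ hqπ)
    have h5 : q ≠ 4 := fun e => absurd (e ▸ hq) (by decide)
    omega
  rcases (show Fintype.card α = 5 ∨ 6 ≤ Fintype.card α by omega) with h5 | h6
  · obtain rfl : q = 5 := by omega
    haveI : Nontrivial α := Fintype.one_lt_card_iff_nontrivial.1 (by omega)
    have hc : Nat.card (alternatingGroup α) = 60 := by
      rw [nat_card_alternatingGroup, Nat.card_eq_fintype_card, h5]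
      rfl
    set H := M.subgroupOf (alternatingGroup α) with hH
    have h7 : H.index ∣ 60 := hc ▸ H.index_dvd_card
    have h8 : ¬ 2 ∣ H.index := hM.idx 2 Nat.prime_two h2
    have h9 : ¬ 5 ∣ H.index := hM.idx 5 hq hqπ
    have h10 : H.index = 1 ∨ H.index = 3 := by
      have := Nat.le_of_dvd (by norm_num) h7
      interval_cases H.index <;> omega
    rcases h10 with h | h
    · refine h3 (hM.pi 3 Nat.prime_three ?_)
      rw [Subgroup.index_eq_one, hH, Subgroup.subgroupOf_eq_top] at h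
      exact (show 3 ∣ 60 by norm_num).trans (hc ▸ Subgroup.card_dvd_of_le h)
    · haveI := alternatingGroup.isSimpleGroup (α := α) (by rw [Nat.card_eq_fintype_card]; omega)
      have h11 : ¬ IsMulCommutative (alternatingGroup α) := by
        intro hcomm
        haveI := hcomm
        have := (Group.is_simple_iff_prime_card (α := alternatingGroup α)).1 inferInstance
        rw [hc] at this
        exact absurd this (by decide)
      have := H87.two_mul_card_dvd_factorial h11 H (fun e => by simp [e] at h)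
      rw [hc, h] at this
      exact absurd this (by decide)
  obtain ⟨τ, t1, t2, t3⟩ := hM.exists_tau h2
  obtain ⟨T, hT, hT'⟩ := hM.exists_cycles hq hq2 hqπ
  obtain ⟨t, ht⟩ : T.Nonempty := Finset.card_pos.1 (by omega)
  obtain ⟨c, hcM, hc, hcq, -⟩ := hT' t ht
  set τ' := c * τ * c⁻¹ with hτ'
  have s1 : ∀ x, τ' (τ' x) = x := fun x => by simp [hτ', t1]
  have s2 : ∀ x y, τ' x = x → τ' y = y → x = y := by
    intro x y hx hy
    rw [hτ', Perm.mul_apply, Perm.mul_apply, ← Perm.eq_inv_iff_eq] at hx hy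
    exact c⁻¹.injective (t2 _ _ hx hy)
  have s3 : ∀ a b, τ' a ≠ a → τ' b ≠ b → swap a (τ' a) * swap b (τ' b) ∈ M := by
    intro a b ha hb
    have := t3 (c⁻¹ a) (c⁻¹ b)
      (fun e => ha (by rw [hτ', Perm.mul_apply, Perm.mul_apply, e]; simp))
      (fun e => hb (by rw [hτ', Perm.mul_apply, Perm.mul_apply, e]; simp))
    have h4 := M.mul_mem (M.mul_mem hcM this) (M.inv_mem hcM)
    rw [show c * (swap (c⁻¹ a) (τ (c⁻¹ a)) * swap (c⁻¹ b) (τ (c⁻¹ b))) * c⁻¹ =
      (c * swap (c⁻¹ a) (τ (c⁻¹ a)) * c⁻¹) * (c * swap (c⁻¹ b) (τ (c⁻¹ b)) * c⁻¹) by group,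
      ← swap_apply_apply, ← swap_apply_apply] at h4
    simpa [hτ'] using h4
  have hne : τ' ≠ τ := by
    intro e
    have hcomm : Commute c τ := by
      show _ * _ = _ * _
      rw [← mul_inv_eq_iff_eq_mul, ← hτ', e]
    obtain ⟨u, hu, v, hv, huv⟩ := Finset.one_lt_card.1 (show 1 < c.support.card by omega)
    have key : ∀ u ∈ c.support, τ u = u := by
      intro u hu
      rw [mem_support] at hu
      have h4 : c (τ u) ≠ τ u := by
        rw [← Perm.mul_apply, hcomm.eq, Perm.mul_apply]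
        exact fun e => hu (τ.injective e)
      obtain ⟨i, hi⟩ := hc.exists_pow_eq hu h4
      have h5 : (c ^ (2 * i)) u = u := by
        rw [two_mul, pow_add, Perm.mul_apply, hi, ← Perm.mul_apply, (hcomm.pow_left i).eq,
          Perm.mul_apply, hi, t1]
      rw [hc.pow_eq_one_iff' hu |>.symm, ← orderOf_dvd_iff_pow_eq_one, hc.orderOf, hcq,
        hq.dvd_mul] at h5
      rcases h5 with h5 | h5
      · have := Nat.le_of_dvd two_pos h5
        omega
      · rw [← hi, orderOf_dvd_iff_pow_eq_one.1 (by rwa [hc.orderOf, hcq]), Perm.one_apply]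
    exact huv (t2 _ _ (key u hu) (key v hv))
  obtain ⟨a, a1, a2, a3⟩ : ∃ a, τ a ≠ a ∧ τ' a ≠ a ∧ τ a ≠ τ' a := by
    obtain ⟨a, ha⟩ : ∃ a, τ' a ≠ τ a := by
      by_contra h
      push Not at h
      exact hne (Equiv.ext h)
    by_cases e1 : τ a = a
    · rw [e1] at ha
      refine ⟨τ' a, fun e => ha (t2 _ _ e e1), by rw [s1]; exact ha.symm, ?_⟩
      rw [s1]
      intro e
      exact ha (τ.injective (e.trans e1.symm))
    by_cases e2 : τ' a = a
    · refine ⟨τ a, by rw [t1]; exact Ne.symm e1, fun e => e1 (s2 _ _ e e2), ?_⟩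
      rw [t1]
      intro e
      exact e1 (τ'.injective (e.symm.trans e2.symm))
    exact ⟨a, e1, e2, ha.symm⟩
  obtain ⟨b, b0, b1, b2, b3, b4⟩ := exists_moved h6 t2 a (τ a) (τ' a) (τ (τ' a))
  obtain ⟨e, e0, e1, e2, e3, e4⟩ := exists_moved h6 s2 a (τ' a) (τ a) (τ' (τ a))
  have b1' : τ b ≠ a := fun h => b2 (by rw [← h, t1])
  have b2' : τ b ≠ τ a := fun h => b1 (τ.injective h)
  have b3' : τ b ≠ τ' a := fun h => b4 (by rw [← h, t1])
  have e1' : τ' e ≠ a := fun h => e2 (by rw [← h, s1])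
  have e2' : τ' e ≠ τ' a := fun h => e1 (τ'.injective h)
  have e3' : τ' e ≠ τ a := fun h => e4 (by rw [← h, s1])
  set h := swap a (τ a) * swap b (τ b) * (swap a (τ' a) * swap e (τ' e)) with hh
  have k1 : h a = τ' a := by
    simp only [hh, Perm.mul_apply]
    rw [swap_apply_of_ne_of_ne e1.symm e1'.symm, swap_apply_left,
      swap_apply_of_ne_of_ne b3.symm b3'.symm, swap_apply_of_ne_of_ne a2 a3.symm]
  have k2 : h (τ' a) = τ a := by
    simp only [hh, Perm.mul_apply]
    rw [swap_apply_of_ne_of_ne e2.symm e2'.symm, swap_apply_right,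
      swap_apply_of_ne_of_ne b1.symm b1'.symm, swap_apply_left]
  have k3 : h (τ a) = a := by
    simp only [hh, Perm.mul_apply]
    rw [swap_apply_of_ne_of_ne e3.symm e3'.symm, swap_apply_of_ne_of_ne a1 a3,
      swap_apply_of_ne_of_ne b2.symm b2'.symm, swap_apply_right]
  refine h3 (hM.mem_of_period (M.mul_mem (t3 a b a1 b0) (s3 a e a2 e0)) (a := a)
    Nat.prime_three ?_ (by rw [← hh, k1]; exact a2))
  rw [← hh, pow_succ, sq, Perm.mul_apply, Perm.mul_apply, k1, k2, k3]

end H30.HS
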