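import Cfsg.Agent.H30.HallSnB

/-! The classes joined by the three-cycles of a permutation group. -/

set_option autoImplicit false
set_option maxHeartbeats 400000

namespace H30.HS

open Equiv Equiv.Perm Nat

variable {α : Type*} [Fintype α] [DecidableEq α] {M : Subgroup (Perm α)}

/-- The three-cycle `a ↦ b ↦ c ↦ a`. -/
def c3 (a b c : α) : Perm α := swap a b * swap b c

/-- `M` contains the three-cycle on `a, b, c`. -/
def S3 (M : Subgroup (Perm α)) (a b c : α) : Prop := a ≠ b ∧ a ≠ c ∧ b ≠ c ∧ c3 a b c ∈ M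

theorem c3_a {a b c : α} (h1 : a ≠ b) (h2 : a ≠ c) : c3 a b c a = b := by
  rw [c3, Perm.mul_apply, swap_apply_of_ne_of_ne h1 h2, swap_apply_left]

theorem c3_b {a b c : α} (h1 : a ≠ c) (h2 : b ≠ c) : c3 a b c b = c := by
  rw [c3, Perm.mul_apply, swap_apply_left, swap_apply_of_ne_of_ne h1.symm h2.symm]

theorem c3_c (a b c : α) : c3 a b c c = a := by
  rw [c3, Perm.mul_apply, swap_apply_right, swap_apply_right]

theorem c3_fix {a b c x : α} (h1 : x ≠ a) (h2 : x ≠ b) (h3 : x ≠ c) : c3 a b c x = x := by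
  rw [c3, Perm.mul_apply, swap_apply_of_ne_of_ne h2 h3, swap_apply_of_ne_of_ne h1 h2]

theorem S3.conj {a b c : α} (h : S3 M a b c) {m : Perm α} (hm : m ∈ M) :
    S3 M (m a) (m b) (m c) := by
  refine ⟨m.injective.ne h.1, m.injective.ne h.2.1, m.injective.ne h.2.2.1, ?_⟩
  have := M.mul_mem (M.mul_mem hm h.2.2.2) (M.inv_mem hm)
  rw [c3, swap_apply_apply, swap_apply_apply]
  rw [c3] at this
  convert this using 1
  group

theorem S3.rot {a b c : α} (h : S3 M a b c) : S3 M b c a := by
  have := h.conj h.2.2.2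
  rwa [c3_a h.1 h.2.1, c3_b h.2.1 h.2.2.1, c3_c] at this

theorem S3.rev {a b c : α} (h : S3 M a b c) : S3 M c b a := by
  refine ⟨h.2.2.1.symm, h.2.1.symm, h.1.symm, ?_⟩
  have := M.inv_mem h.2.2.2
  rwa [c3, mul_inv_rev, swap_inv, swap_inv, swap_comm b c, swap_comm a b] at this

theorem S3.full {a b c x : α} (h : S3 M a b x) (h' : S3 M c b x) (hac : a ≠ c) : S3 M a b c := by
  have h1 := (h.conj h'.2.2.2).conj h'.2.2.2
  rw [c3_fix hac h.1 h.2.1, c3_fix hac h.1 h.2.1, c3_b h'.2.1 h'.2.2.1, c3_c,
    c3_a h'.1 h'.2.1] at h1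
  exact h1.rev.rot.rot

/-- Points joined by a three-cycle of `M`. -/
def rel (M : Subgroup (Perm α)) (a b : α) : Prop := a = b ∨ ∃ c, S3 M a b c

theorem rel.rfl {a : α} : rel M a a := Or.inl (Eq.refl a)

theorem rel.symm {a b : α} (h : rel M a b) : rel M b a := by
  rcases h with rfl | ⟨c, h⟩
  · exact rel.rfl
  · exact Or.inr ⟨c, h.rev.rot⟩

theorem rel.trans {a b d : α} (h : rel M a b) (h' : rel M b d) : rel M a d := by
  rcases h with rfl | ⟨c, h⟩
  · exact h'
  rcases h' with rfl | ⟨e, h'⟩
  · exact Or.inr ⟨c, h⟩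
  by_cases h1 : a = d
  · exact Or.inl h1
  by_cases h2 : a = e
  · subst h2
    exact Or.inr ⟨b, h'.rev⟩
  have := h.conj h'.2.2.2
  rw [c3_fix h.1 h1 h2, c3_a h'.1 h'.2.1] at this
  exact Or.inr ⟨_, this⟩

theorem rel.s3 {a b c : α} (h : rel M a b) (h' : rel M a c) (h1 : a ≠ b) (h2 : a ≠ c)
    (h3 : b ≠ c) : S3 M a b c := by
  obtain ⟨x, hx⟩ := h.resolve_left h1
  obtain ⟨y, hy⟩ := h'.resolve_left h2
  by_cases e1 : x = c
  · exact e1 ▸ hx
  by_cases e2 : y = b
  · subst e2
    exact hy.rev.rot.rot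
  by_cases e3 : y = x
  · subst e3
    exact (hx.rev.rot.full hy.rev.rot h3).rev.rot
  have := hx.conj hy.2.2.2
  rw [c3_a hy.1 hy.2.1, c3_fix h1.symm h3 (Ne.symm e2),
    c3_fix hx.2.1.symm e1 (Ne.symm e3)] at this
  exact hx.full this h2

open Classical in
/-- The class of a point. -/
noncomputable def cls (M : Subgroup (Perm α)) (a : α) : Finset α := Finset.univ.filter (rel M a)

theorem mem_cls {a b : α} : b ∈ cls M a ↔ rel M a b := by simp [cls]

theorem self_mem_cls (a : α) : a ∈ cls M a := mem_cls.2 rel.rfl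

theorem cls_eq {a b : α} (h : b ∈ cls M a) : cls M b = cls M a := by
  ext c
  rw [mem_cls] at h
  rw [mem_cls, mem_cls]
  exact ⟨h.trans, h.symm.trans⟩

theorem cls_disjoint {a b : α} (h : cls M a ≠ cls M b) : Disjoint (cls M a) (cls M b) := by
  rw [Finset.disjoint_left]
  intro c h1 h2
  exact h ((cls_eq h1).symm.trans (cls_eq h2))

theorem card_cls (a : α) : (cls M a).card = 1 ∨ 3 ≤ (cls M a).card := by
  by_cases h : ∃ b c, S3 M a b c
  · obtain ⟨b, c, h⟩ := h
    right
    rw [← Finset.card_eq_three.2 ⟨a, b, c, h.1, h.2.1, h.2.2.1, Eq.refl _⟩]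
    refine Finset.card_le_card fun x hx => ?_
    simp only [Finset.mem_insert, Finset.mem_singleton] at hx
    rcases hx with rfl | rfl | rfl
    · exact self_mem_cls _
    · exact mem_cls.2 (Or.inr ⟨_, h⟩)
    · exact mem_cls.2 (Or.inr ⟨_, h.rev.rot.rot⟩)
  · left
    rw [Finset.card_eq_one]
    refine ⟨a, Finset.eq_singleton_iff_unique_mem.2 ⟨self_mem_cls a, fun b hb => ?_⟩⟩
    rcases mem_cls.1 hb with e | ⟨c, hc⟩
    · exact e.symm
    · exact absurd ⟨b, c, hc⟩ h

theorem three_le_of_cycle {c : Perm α} (hc : c ∈ M) (h3 : c.support.card = 3) {z : α}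
    (hz : c z ≠ z) : 3 ≤ (cls M z).card := by
  have h1 := card_support_eq_three_iff.1 h3
  have h2 := h1.nodup_iff_mem_support.2 (mem_support.2 hz)
  have h4 := h1.eq_swap_mul_swap_iff_mem_support.2 (mem_support.2 hz)
  simp only [List.nodup_cons, List.mem_cons, List.not_mem_nil, or_false, not_or] at h2
  have h5 : c z ∈ cls M z := mem_cls.2 (Or.inr ⟨c (c z), h2.1.1, h2.1.2, h2.2.1, by
    rw [c3, ← h4]; exact hc⟩)
  refine (card_cls z).resolve_left fun e => ?_
  exact hz (Finset.card_le_one.1 e.le _ h5 _ (self_mem_cls z))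

theorem mem_of_support (a₀ : α) (k : ℕ) : ∀ g : Perm α, g.support.card = k →
    g ∈ alternatingGroup α → g.support ⊆ cls M a₀ → g ∈ M := by
  induction k using Nat.strong_induction_on with
  | _ k ih =>
    intro g hk hA hs
    by_cases h1 : g = 1
    · rw [h1]; exact M.one_mem
    have h2 := two_le_card_support_of_ne_one h1
    have h3 : g.support.card ≠ 2 := by
      intro e
      have := (card_support_eq_two.1 e).sign_eq
      rw [mem_alternatingGroup.1 hA] at this
      exact absurd this (by decide)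
    obtain ⟨a, ha⟩ : g.support.Nonempty := Finset.card_pos.1 (by omega)
    have hb : g a ∈ g.support := apply_mem_support.2 ha
    have hab : g a ≠ a := mem_support.1 ha
    obtain ⟨c, hc, hc'⟩ : ∃ c ∈ g.support, c ∉ ({a, g a} : Finset α) := by
      by_contra h
      push Not at h
      have := Finset.card_le_card (show g.support ⊆ {a, g a} from h)
      have := Finset.card_le_two (a := a) (b := g a)
      omega
    simp only [Finset.mem_insert, Finset.mem_singleton, not_or] at hc'
    have h4 : S3 M (g a) a c := rel.s3 ((mem_cls.1 (hs hb)).symm.trans (mem_cls.1 (hs ha)))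
      ((mem_cls.1 (hs hb)).symm.trans (mem_cls.1 (hs hc))) hab (Ne.symm hc'.2) (Ne.symm hc'.1)
    have h5 : (c3 (g a) a c * g).support ⊆ g.support.erase a := by
      intro z hz
      rw [mem_support, Perm.mul_apply] at hz
      refine Finset.mem_erase.2 ⟨?_, ?_⟩
      · rintro rfl
        exact hz (c3_a h4.1 h4.2.1)
      · by_contra e
        refine hz ?_
        rw [notMem_support.1 e]
        exact c3_fix (fun h => e (h ▸ hb)) (fun h => e (h ▸ ha)) (fun h => e (h ▸ hc))
    have h6 := Finset.card_le_card h5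
    rw [Finset.card_erase_of_mem ha] at h6
    have h7 := ih _ (by omega) (c3 (g a) a c * g) (Eq.refl _) (mul_mem (by
      simp [c3, mem_alternatingGroup, h4.1, h4.2.2.1]) hA)
      (h5.trans ((Finset.erase_subset _ _).trans hs))
    have := M.mul_mem (M.inv_mem h4.2.2.2) h7
    simpa using this

theorem Good.mem_of_le_cls {π : Set ℕ} (hM : Good π M) (h2 : 2 ∈ π) (a₀ : α) {s : ℕ}
    (hs : s.Prime) (hle : s ≤ (cls M a₀).card) : s ∈ π := by
  rcases hs.eq_two_or_odd' with rfl | ho
  · exact h2
  obtain ⟨T, hT, rfl⟩ := Finset.exists_subset_card_eq hle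
  obtain ⟨f, hf, hf'⟩ := T.exists_cycleOn
  have h1 : f ^ T.card = 1 := by
    ext x
    by_cases hx : x ∈ T
    · exact hf.pow_card_apply hx
    · exact pow_apply_eq_self_of_apply_eq_self (notMem_support.1 fun e => hx (hf' e)) _
  obtain ⟨a, ha⟩ : T.Nonempty := Finset.card_pos.1 hs.pos
  refine hM.mem_of_period (mem_of_support a₀ _ f (Eq.refl _) (mem_alt_of_pow ho h1) (hf'.trans hT))
    (a := a) hs (by rw [h1]; rfl) (hf.apply_ne ?_ ha)
  exact Finset.one_lt_card_iff_nontrivial.1 hs.one_lt

/-- The stabilizer of the partition into classes. -/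
def Nn (M : Subgroup (Perm α)) : Subgroup (Perm α) where
  carrier := {g | ∀ a b, rel M (g a) (g b) ↔ rel M a b}
  one_mem' := fun _ _ => Iff.rfl
  mul_mem' := fun {u v} hu hv a b => (hu (v a) (v b)).trans (hv a b)
  inv_mem' := fun {u} hu a b => by simpa using (hu (u⁻¹ a) (u⁻¹ b)).symm

theorem le_Nn : M ≤ Nn M := by
  have key : ∀ g ∈ M, ∀ a b, rel M a b → rel M (g a) (g b) := by
    rintro g hg a b (rfl | ⟨c, h⟩)
    · exact rel.rfl
    · exact Or.inr ⟨_, h.conj hg⟩
  intro g hg a b
  exact ⟨fun h => by simpa using key g⁻¹ (M.inv_mem hg) _ _ h, key g hg a b⟩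

theorem cls_map {g : Perm α} (hg : g ∈ Nn M) (a : α) :
    cls M (g a) = (cls M a).map g.toEmbedding := by
  ext b
  rw [Finset.mem_map_equiv, mem_cls, mem_cls, ← hg a]
  simp

theorem card_cls_smul {g : Perm α} (hg : g ∈ Nn M) (a : α) :
    (cls M (g a)).card = (cls M a).card := by
  rw [cls_map hg, Finset.card_map]

theorem swap_mem_Nn {u v : α} (h : rel M u v) : swap u v ∈ Nn M := by
  have key : ∀ a, rel M (swap u v a) a := by
    intro a
    rw [swap_apply_def]
    split_ifs with e1 e2
    · rw [e1]; exact h.symm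
    · rw [e2]; exact h
    · exact rel.rfl
  intro a b
  exact ⟨fun e => ((key a).symm.trans e).trans (key b), fun e => ((key a).trans e).trans (key b).symm⟩

theorem index_eq_relIndex {N : Subgroup (Perm α)} {u v : α} (huv : u ≠ v) (h : swap u v ∈ N) :
    N.relIndex (alternatingGroup α) = N.index := by
  haveI : Nontrivial α := ⟨⟨u, v, huv⟩⟩
  have h1 := Subgroup.relIndex_mul_index (inf_le_right : N ⊓ alternatingGroup α ≤ _)
  have h2 := Subgroup.relIndex_mul_index (inf_le_left : N ⊓ alternatingGroup α ≤ _)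
  rw [Subgroup.inf_relIndex_right, alternatingGroup.index_eq_two] at h1
  rw [Subgroup.inf_relIndex_left] at h2
  have h3 := (alternatingGroup α).relIndex_dvd_index_of_normal N
  rw [alternatingGroup.index_eq_two] at h3
  rcases (Nat.dvd_prime Nat.prime_two).1 h3 with h4 | h4
  · rw [Subgroup.relIndex_eq_one] at h4
    have := h4 h
    simp [mem_alternatingGroup, huv] at this
  · rw [h4] at h2
    omega

/-- The stabilizer of the fibres of a function. -/
def fibSt {ι : Type*} (f : α → ι) : Subgroup (Perm α) where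
  carrier := {g | f ∘ g = f}
  one_mem' := Eq.refl _
  mul_mem' := fun {u v} hu hv => by
    change f ∘ (u ∘ v) = f
    rw [← Function.comp_assoc, hu, hv]
  inv_mem' := fun {u} hu => by
    funext a
    have := congrFun hu (u⁻¹ a)
    simpa using this.symm

theorem card_fibSt {ι : Type*} [Fintype ι] [DecidableEq ι] (f : α → ι) :
    Nat.card (fibSt f) = ∏ i, (Finset.univ.filter fun a => f a = i).card ! := by
  have := DomMulAct.stabilizer_card f
  rw [← Nat.card_eq_fintype_card] at this
  simp only [Fintype.card_subtype] at this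
  exact this

theorem dvd_index {N : Subgroup (Perm α)} {x y m c : ℕ} (h1 : Nat.card N ∣ x * y !)
    (h2 : m ! = c * x) (h3 : Fintype.card α = m + y) : c ∣ N.index := by
  obtain ⟨t, ht⟩ := h1
  have h4 := N.card_mul_index
  rw [Nat.card_perm, Nat.card_eq_fintype_card (α := α), h3,
    ← Nat.add_choose_mul_factorial_mul_factorial, h2] at h4
  refine ⟨(m + y).choose y * t, Nat.eq_of_mul_eq_mul_left (Nat.card_pos (α := N)) ?_⟩
  rw [h4, mul_assoc, mul_assoc, ht]
  ring

theorem choose_dvd_index {N : Subgroup (Perm α)} {U V : Finset α} (hd : Disjoint U V)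
    (hU : ∀ g ∈ N, ∀ x, g x ∈ U ↔ x ∈ U) (hV : ∀ g ∈ N, ∀ x, g x ∈ V ↔ x ∈ V) :
    (U.card + V.card).choose V.card ∣ N.index := by
  let f : α → Option Bool := fun a => if a ∈ U then some true else if a ∈ V then some false else none
  have h1 : N ≤ fibSt f := by
    intro g hg
    funext a
    simp only [f, Function.comp_apply, hU g hg, hV g hg]
  have h2 := Subgroup.card_dvd_of_le h1
  have e1 : (Finset.univ.filter fun a => f a = some true) = U := by
    ext a
    simp only [f, Finset.mem_filter, Finset.mem_univ, true_and]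
    split_ifs <;> simp [*]
  have e2 : (Finset.univ.filter fun a => f a = some false) = V := by
    ext a
    have : a ∈ U → a ∉ V := fun h => Finset.disjoint_left.1 hd h
    simp only [f, Finset.mem_filter, Finset.mem_univ, true_and]
    split_ifs <;> simp_all
  have h3 := Finset.card_eq_sum_card_fiberwise (f := f) (s := Finset.univ) (t := Finset.univ)
    (by simp)
  rw [Fintype.sum_option, Fintype.sum_bool, e1, e2, Finset.card_univ, add_comm] at h3
  rw [card_fibSt, Fintype.prod_option, Fintype.prod_bool, e1, e2, mul_comm] at h2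
  exact dvd_index h2 (by rw [← Nat.add_choose_mul_factorial_mul_factorial, mul_assoc]) h3

open Classical in
/-- The classes of a given size. -/
noncomputable def clsT (M : Subgroup (Perm α)) (δ : ℕ) : Finset (Finset α) :=
  (Finset.univ.image (cls M)).filter fun t => t.card = δ

theorem mem_clsT {δ : ℕ} {t : Finset α} : t ∈ clsT M δ ↔ (∃ a, cls M a = t) ∧ t.card = δ := by
  simp [clsT]

theorem prod_dvd_index (e : ℕ) :
    ∏ j ∈ Finset.range (clsT M (e + 1)).card, (j * (e + 1) + e).choose e ∣ (Nn M).index := by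
  classical
  letI : MulAction (Nn M) (clsT M (e + 1)) :=
    { smul := fun g t => ⟨t.1.map g.1.toEmbedding, by
        obtain ⟨⟨a, ha⟩, h⟩ := mem_clsT.1 t.2
        exact mem_clsT.2 ⟨⟨g.1 a, by rw [cls_map g.2, ha]⟩, by rw [Finset.card_map, h]⟩⟩
      one_smul := fun t => Subtype.ext Finset.map_refl
      mul_smul := fun g h t => Subtype.ext (Finset.map_map h.1.toEmbedding g.1.toEmbedding t.1).symm }
  let ph := MulAction.toPermHom (Nn M) (clsT M (e + 1))
  let f : α → Option (clsT M (e + 1)) := fun a =>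
    if h : cls M a ∈ clsT M (e + 1) then some ⟨cls M a, h⟩ else none
  have h1 : ph.ker.map (Nn M).subtype ≤ fibSt f := by
    rintro _ ⟨g, hg, rfl⟩
    funext a
    by_cases h : cls M a ∈ clsT M (e + 1)
    · have h2 : (cls M a).map g.1.toEmbedding = cls M a :=
        congrArg Subtype.val (Equiv.congr_fun (MonoidHom.mem_ker.1 hg) ⟨cls M a, h⟩)
      have h3 : cls M (g.1 a) = cls M a := (cls_map g.2 a).trans h2
      simp only [f, Function.comp_apply, Subgroup.coe_subtype, h3]
    · have h2 : cls M (g.1 a) ∉ clsT M (e + 1) := fun h' => h (mem_clsT.2 ⟨⟨a, Eq.refl _⟩, by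
        rw [← card_cls_smul g.2, (mem_clsT.1 h').2]⟩)
      simp only [f, Function.comp_apply, Subgroup.coe_subtype, dif_neg h, dif_neg h2]
  have e1 : ∀ t : clsT M (e + 1), (Finset.univ.filter fun a => f a = some t).card = e + 1 := by
    intro t
    obtain ⟨⟨b, hb⟩, h⟩ := mem_clsT.1 t.2
    refine Eq.trans ?_ h
    congr 1
    ext a
    simp only [f, Finset.mem_filter, Finset.mem_univ, true_and]
    constructor
    · intro h1
      split_ifs at h1 with h2
      rw [← Option.some.inj h1]
      exact self_mem_cls a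
    · intro h1
      have h2 : cls M a = t := by
        rw [← hb] at h1 ⊢
        exact cls_eq h1
      rw [dif_pos (h2 ▸ t.2)]
      exact congrArg some (Subtype.ext h2)
  have h2 := Subgroup.card_dvd_of_le h1
  rw [Subgroup.card_map_of_injective (Nn M).subtype_injective, card_fibSt, Fintype.prod_option,
    Finset.prod_congr (Eq.refl _) fun t _ => congrArg Nat.factorial (e1 t), Finset.prod_const,
    Finset.card_univ, Fintype.card_coe] at h2
  have h3 := Finset.card_eq_sum_card_fiberwise (f := f) (s := Finset.univ) (t := Finset.univ)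
    (by simp)
  rw [Fintype.sum_option, Finset.sum_congr (Eq.refl _) fun t _ => e1 t, Finset.sum_const,
    Finset.card_univ, Finset.card_univ, Fintype.card_coe, smul_eq_mul, add_comm] at h3
  have h4 := ph.range.card_subgroup_dvd_card
  rw [Nat.card_perm, Nat.card_eq_fintype_card (α := clsT M (e + 1)), Fintype.card_coe,
    ← Subgroup.index_ker] at h4
  have h5 := Nat.mul_dvd_mul h2 h4
  rw [Subgroup.card_mul_index, mul_assoc, mul_comm] at h5
  exact dvd_index h5 (by rw [wreath, mul_comm]) h3

end H30.HS
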