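import Cfsg.Agent.H30.HallSnC
import Cfsg.Agent.H4.HallBasic

/-! Hall subgroups of symmetric and alternating groups (P. Hall, Thompson). -/

set_option autoImplicit false
set_option maxHeartbeats 400000

namespace H30.HS

open Equiv Equiv.Perm Nat

variable {α : Type*} [Fintype α] [DecidableEq α] {M : Subgroup (Perm α)} {π : Set ℕ}

/-- The possible degrees, sets of primes and block sizes. -/
def Typ (π : Set ℕ) (n b : ℕ) : Prop :=
  (n.Prime ∧ 5 ≤ n ∧ b = 1 ∧ ∀ r : ℕ, r.Prime → r ≤ n → (r ∈ π ↔ r < n)) ∨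
    ((n = 7 ∧ b = 3 ∨ n = 8 ∧ b = 4) ∧ ∀ r : ℕ, r.Prime → r ≤ n → (r ∈ π ↔ (r = 2 ∨ r = 3)))

/-- The stabilizer of the partition into `B` and its complement. -/
def St2 (B : Finset α) : Subgroup (Perm α) where
  carrier := {g | (∀ i, g i ∈ B ↔ i ∈ B) ∨ ∀ i, g i ∈ B ↔ i ∉ B}
  one_mem' := .inl fun _ => Iff.rfl
  mul_mem' := by
    rintro a b (ha | ha) (hb | hb)
    · exact .inl fun i => (ha (b i)).trans (hb i)
    · exact .inr fun i => (ha (b i)).trans (hb i)
    · exact .inr fun i => (ha (b i)).trans (hb i).not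
    · exact .inl fun i => (ha (b i)).trans ((hb i).not.trans not_not)
  inv_mem' := by
    rintro a (ha | ha)
    · exact .inl fun i => by simpa using (ha (a⁻¹ i)).symm
    · exact .inr fun i => by
        have := ha (a⁻¹ i)
        simp only [Perm.coe_inv, Equiv.apply_symm_apply] at this ⊢
        tauto

/-- Points whose class has a given size. -/
noncomputable def Ud (M : Subgroup (Perm α)) (δ : ℕ) : Finset α :=
  Finset.univ.filter fun x => (cls M x).card = δ

theorem mem_Ud {δ : ℕ} {x : α} : x ∈ Ud M δ ↔ (cls M x).card = δ := by simp [Ud]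

theorem Ud_inv (δ : ℕ) : ∀ g ∈ Nn M, ∀ x, g x ∈ Ud M δ ↔ x ∈ Ud M δ := by
  intro g hg x
  rw [mem_Ud, mem_Ud, card_cls_smul hg]

theorem Ud_disjoint {δ ε : ℕ} (h : δ ≠ ε) : Disjoint (Ud M δ) (Ud M ε) := by
  rw [Finset.disjoint_left]
  intro x h1 h2
  exact h ((mem_Ud.1 h1).symm.trans (mem_Ud.1 h2))

theorem Ud_eq_cls {a : α} (h : ∀ b, (cls M b).card = (cls M a).card → cls M b = cls M a) :
    Ud M (cls M a).card = cls M a := by
  ext x
  rw [mem_Ud]
  exact ⟨fun e => h x e ▸ self_mem_cls x, fun e => by rw [cls_eq e]⟩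

theorem pi23 {n : ℕ} (hn : n ≤ 8) (h2 : 2 ∈ π) (h3 : 3 ∈ π) (h5 : 5 ∉ π) (h7 : 7 ∉ π) :
    ∀ r : ℕ, r.Prime → r ≤ n → (r ∈ π ↔ (r = 2 ∨ r = 3)) := by
  intro r hr hle
  have h8 : r ≤ 8 := hle.trans hn
  interval_cases r <;> first | exact absurd hr (by decide) | simp [*]

theorem Good.main (hM : Good π M)
    (h2 : ∃ r s : ℕ, r.Prime ∧ s.Prime ∧ r ≠ s ∧ r ∈ π ∧ s ∈ π ∧ r ≤ Fintype.card α ∧
      s ≤ Fintype.card α)
    (hns : ∃ r : ℕ, r.Prime ∧ r ≤ Fintype.card α ∧ r ∉ π) :
    ∃ B : Finset α, M ≤ St2 B ∧ Typ π (Fintype.card α) B.card := by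
  classical
  obtain ⟨p, q, hp, hq, hpq, hpπ, hqπ, hqn⟩ : ∃ p q : ℕ, p.Prime ∧ q.Prime ∧ p < q ∧ p ∈ π ∧
      q ∈ π ∧ q ≤ Fintype.card α := by
    obtain ⟨r, s, hr, hs, hne, h1, h2, h3, h4⟩ := h2
    rcases lt_or_gt_of_ne hne with h | h
    · exact ⟨r, s, hr, hs, h, h1, h2, h4⟩
    · exact ⟨s, r, hs, hr, h, h2, h1, h3⟩
  have t2 := hM.two_mem hp hq hpq hpπ hqπ hqn
  have t3 := hM.three_mem t2 hq (by have := hp.two_le; omega) hqπ hqn
  obtain ⟨r, hr, hrn, hrπ⟩ := hns
  have hr5 : 5 ≤ r := by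
    have h1 := hr.two_le
    have h3 : r ≠ 2 := fun e => hrπ (e ▸ t2)
    have h4 : r ≠ 3 := fun e => hrπ (e ▸ t3)
    have h5 : r ≠ 4 := fun e => absurd (e ▸ hr) (by decide)
    omega
  obtain ⟨S, hS, hS'⟩ := hM.exists_cycles Nat.prime_three (by decide) t3
  have hS3 : ∀ z ∈ S, 3 ≤ (cls M z).card := by
    intro z hz
    obtain ⟨c, h1, -, h2, h3⟩ := hS' z hz
    exact three_le_of_cycle h1 h2 h3
  have hF : (Ud M 1).card ≤ 2 := by
    have h1 : Ud M 1 ⊆ Sᶜ := by
      intro x hx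
      rw [Finset.mem_compl]
      intro e
      have := hS3 x e
      rw [mem_Ud.1 hx] at this
      omega
    have h3 := Finset.card_le_card h1
    rw [Finset.card_compl] at h3
    omega
  obtain ⟨z, hz⟩ : S.Nonempty := Finset.card_pos.1 (by omega)
  obtain ⟨a₀, -, hmax⟩ := Finset.univ.exists_max_image (fun a => (cls M a).card) ⟨z, by simp⟩
  have hmax' : ∀ a, (cls M a).card ≤ (cls M a₀).card := fun a => hmax a (Finset.mem_univ a)
  have hd3 : 3 ≤ (cls M a₀).card := (hS3 z hz).trans (hmax' z)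
  have hsm : ∀ s : ℕ, s.Prime → s ≤ (cls M a₀).card → s ∈ π := fun s hs h =>
    hM.mem_of_le_cls t2 a₀ hs h
  have hrd : (cls M a₀).card < r := not_le.1 fun h => hrπ (hsm r hr h)
  have hnd : ∀ c, c ∣ (Nn M).index → ∀ s : ℕ, s.Prime → s ∈ π → ¬ s ∣ c := by
    intro c hc s hs hsπ h
    obtain ⟨u, hu, v, hv, huv⟩ := Finset.one_lt_card.1 (show 1 < (cls M a₀).card by omega)
    rw [← index_eq_relIndex huv (swap_mem_Nn ((mem_cls.1 hu).symm.trans (mem_cls.1 hv)))] at hc
    exact hM.idx s hs hsπ ((h.trans hc).trans (Subgroup.relIndex_dvd_of_le_left _ le_Nn))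
  have h57 : 35 ∣ (Nn M).index → 5 ∉ π ∧ 7 ∉ π := fun h =>
    ⟨fun e => hnd _ h 5 Nat.prime_five e (by norm_num),
      fun e => hnd _ h 7 (by norm_num) e (by norm_num)⟩
  have hW : ∀ a b, cls M a ≠ cls M b → (cls M a).card = (cls M b).card → 3 ≤ (cls M a).card →
      (cls M a).card = 4 ∧ clsT M 4 = {cls M a, cls M b} ∧ 35 ∣ (Nn M).index := by
    intro a b hab h1 h3
    obtain ⟨e, he⟩ : ∃ e, (cls M a).card = e + 1 := ⟨(cls M a).card - 1, by omega⟩
    have h4 : ({cls M a, cls M b} : Finset (Finset α)) ⊆ clsT M (e + 1) := by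
      intro t ht
      simp only [Finset.mem_insert, Finset.mem_singleton] at ht
      rcases ht with rfl | rfl
      · exact mem_clsT.2 ⟨⟨a, Eq.refl _⟩, he⟩
      · exact mem_clsT.2 ⟨⟨b, Eq.refl _⟩, h1 ▸ he⟩
    have h5 := Finset.card_le_card h4
    rw [Finset.card_pair hab] at h5
    have h6 : ∀ j < (clsT M (e + 1)).card, (j * (e + 1) + e).choose e ∣ (Nn M).index := fun j hj =>
      (Finset.dvd_prod_of_mem _ (Finset.mem_range.2 hj)).trans (prod_dvd_index e)
    have h7 := h6 1 h5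
    rw [one_mul] at h7
    obtain rfl : e = 3 := near (by omega) fun s hs h =>
      hnd _ h7 s hs (hsm s hs (by have := hmax' a; omega))
    refine ⟨he, (Finset.eq_of_subset_of_card_le h4 ?_).symm, h7⟩
    rw [Finset.card_pair hab]
    by_contra h8
    exact hnd _ (h6 2 (by omega)) 3 Nat.prime_three t3 (by decide)
  have hcard : ∀ U : Finset α, (∀ x, x ∉ U → x ∈ Ud M 1) → Disjoint U (Ud M 1) →
      Fintype.card α = U.card + (Ud M 1).card := by
    intro U h1 h2
    rw [← Finset.card_union_of_disjoint h2, ← Finset.card_univ]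
    congr 1
    ext x
    simpa using (em (x ∈ U)).imp id (h1 x)
  by_cases hA : ∃ a b, cls M a ≠ cls M b ∧ (cls M a).card = (cls M b).card ∧ 3 ≤ (cls M a).card
  · obtain ⟨a, b, hab, h1, h3⟩ := hA
    obtain ⟨h4, h5, h6⟩ := hW a b hab h1 h3
    obtain ⟨t5, t7⟩ := h57 h6
    have hd4 : (cls M a₀).card ≤ 4 := not_lt.1 fun h => t5 (hsm 5 Nat.prime_five h)
    have h7 : ∀ x, (cls M x).card = 4 → cls M x = cls M a ∨ cls M x = cls M b := by
      intro x hx
      have : cls M x ∈ clsT M 4 := mem_clsT.2 ⟨⟨x, Eq.refl _⟩, hx⟩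
      simpa [h5] using this
    have h8 : Ud M 4 = cls M a ∪ cls M b := by
      ext x
      rw [mem_Ud, Finset.mem_union]
      constructor
      · intro hx
        rcases h7 x hx with e | e
        · exact Or.inl (e ▸ self_mem_cls x)
        · exact Or.inr (e ▸ self_mem_cls x)
      · rintro (hx | hx) <;> rw [cls_eq hx] <;> omega
    have h9 : (Ud M 4).card = 8 := by
      rw [h8, Finset.card_union_of_disjoint (cls_disjoint hab)]
      omega
    have h10 : ∀ x, (cls M x).card ≠ 3 := by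
      intro x hx
      have e1 : Ud M (cls M x).card = cls M x := Ud_eq_cls fun y hy => by
        by_contra e
        have := (hW y x e hy (by omega)).1
        omega
      have e2 := choose_dvd_index (Ud_disjoint (M := M) (show 4 ≠ 3 by omega)) (Ud_inv 4) (Ud_inv 3)
      rw [hx] at e1
      rw [h9, e1, hx] at e2
      exact hnd _ e2 3 Nat.prime_three t3 (by decide)
    have h11 : (Ud M 1).card = 0 := by
      have e2 := choose_dvd_index (Ud_disjoint (M := M) (show 4 ≠ 1 by omega)) (Ud_inv 4) (Ud_inv 1)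
      have e3 := hnd _ e2 3 Nat.prime_three t3
      rw [h9] at e3
      interval_cases (Ud M 1).card
      · rfl
      · exact absurd (by decide) e3
      · exact absurd (by decide) e3
    have h12 : ∀ x, x ∉ Ud M 4 → x ∈ Ud M 1 := by
      intro x hx
      rw [mem_Ud] at hx ⊢
      have := card_cls (M := M) x
      have := hmax' x
      have := h10 x
      omega
    have h13 := hcard _ h12 (Ud_disjoint (by omega))
    have h14 : ∀ x, x ∈ cls M a ↔ x ∉ cls M b := by
      intro x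
      refine ⟨fun h => Finset.disjoint_left.1 (cls_disjoint hab) h, fun h => ?_⟩
      have : x ∈ Ud M 4 := by
        by_contra e
        have := Finset.card_pos.2 ⟨x, h12 x e⟩
        omega
      rw [h8, Finset.mem_union] at this
      exact this.resolve_right h
    refine ⟨cls M a, fun g hg => ?_, Or.inr ⟨Or.inr ⟨by omega, h4⟩, pi23 (by omega) t2 t3 t5 t7⟩⟩
    have hg' := le_Nn hg
    have h15 : ∀ x, g x ∈ cls M (g a) ↔ x ∈ cls M a := fun x => by
      rw [mem_cls, mem_cls, hg' a x]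
    rcases h7 (g a) (by rw [card_cls_smul hg', h4]) with e | e
    · exact Or.inl fun x => by rw [← h15 x, e]
    · exact Or.inr fun x => by rw [← h15 x, e, h14]
  have hB : ∀ a, 3 ≤ (cls M a).card → Ud M (cls M a).card = cls M a := by
    intro a ha
    refine Ud_eq_cls fun b hb => ?_
    by_contra e
    exact hA ⟨b, a, e, hb, by omega⟩
  by_cases hC : ∃ x, 3 ≤ (cls M x).card ∧ (cls M x).card < (cls M a₀).card
  · obtain ⟨x, h1, h3⟩ := hC
    have e1 := choose_dvd_index (Ud_disjoint (M := M) h3.ne') (Ud_inv _) (Ud_inv _)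
    rw [hB x h1, hB a₀ hd3] at e1
    obtain ⟨h4, h5⟩ := ab (by omega) h3 fun s hs h => hnd _ e1 s hs (hsm s hs h)
    rw [h4, h5] at e1
    obtain ⟨t5, t7⟩ := h57 e1
    have e2 := hB x h1
    have e3 := hB a₀ hd3
    rw [h5] at e2
    rw [h4] at e3
    have h6 : Disjoint (Ud M 4 ∪ Ud M 3) (Ud M 1) :=
      Finset.disjoint_union_left.2 ⟨Ud_disjoint (by omega), Ud_disjoint (by omega)⟩
    have h7 : (Ud M 4 ∪ Ud M 3).card = 7 := by
      rw [Finset.card_union_of_disjoint (Ud_disjoint (by omega)), e2, e3, h4, h5]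
    have h8 : (Ud M 1).card = 0 := by
      have e4 := choose_dvd_index (N := Nn M) h6 (fun g hg y => by
        rw [Finset.mem_union, Finset.mem_union, Ud_inv 4 g hg, Ud_inv 3 g hg]) (Ud_inv 1)
      have e5 := hnd _ e4 2 Nat.prime_two t2
      rw [h7] at e5
      interval_cases (Ud M 1).card
      · rfl
      · exact absurd (by decide) e5
      · exact absurd (by decide) e5
    have h9 := hcard _ (fun y hy => by
      rw [Finset.mem_union, mem_Ud, mem_Ud] at hy
      rw [mem_Ud]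
      have := card_cls (M := M) y
      have := hmax' y
      omega) h6
    refine ⟨Ud M 3, fun g hg => Or.inl (Ud_inv 3 g (le_Nn hg)),
      Or.inr ⟨Or.inl ⟨by omega, by rw [e2, h5]⟩, pi23 (by omega) t2 t3 t5 t7⟩⟩
  · push Not at hC
    have h1 := hcard (Ud M (cls M a₀).card) (fun y hy => by
      rw [mem_Ud] at hy ⊢
      have := card_cls (M := M) y
      have := hmax' y
      have := hC y
      omega) (Ud_disjoint (by omega))
    have e1 := choose_dvd_index (Ud_disjoint (M := M) (show (cls M a₀).card ≠ 1 by omega))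
      (Ud_inv _) (Ud_inv _)
    rw [hB a₀ hd3] at h1 e1
    have h3 : (Ud M 1).card = 1 := by
      by_contra e
      have h4 : (Ud M 1).card = 2 := by omega
      rw [h4] at e1
      have := (ab le_rfl (by omega) fun s hs h => hnd _ e1 s hs (hsm s hs h)).2
      omega
    have h4 : r = Fintype.card α := by omega
    refine ⟨Ud M 1, fun g hg => Or.inl (Ud_inv 1 g (le_Nn hg)),
      Or.inl ⟨h4 ▸ hr, by omega, h3, fun s hs h => ⟨fun e => lt_of_le_of_ne h ?_, fun e =>
        hsm s hs (by omega)⟩⟩⟩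
    rintro rfl
    exact hrπ (h4 ▸ e)

end H30.HS
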