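import Cfsg.Agent.H30.HallSnD

/-! Hall subgroups of symmetric and alternating groups: existence and conjugacy. -/

set_option autoImplicit false
set_option maxHeartbeats 400000

namespace H30.HS

open Equiv Equiv.Perm Nat Cfsg

section General

variable {G : Type*} [Group G] [Finite G] {π : Set ℕ}

theorem exists_prime_of_single
    (h : ∀ r s : ℕ, r.Prime → s.Prime → r ∈ π → s ∈ π → r ∣ Nat.card G → s ∣ Nat.card G → r = s) :
    ∃ p : ℕ, p.Prime ∧ (∀ K : Subgroup G, IsPiSubgroup π K ↔ IsPGroup p K) ∧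
      ∀ K : Subgroup G, IsPiHall π K ↔ ∃ P : Sylow p G, K = P := by
  obtain ⟨p, hp, h1, h2⟩ : ∃ p : ℕ, p.Prime ∧ (∀ r : ℕ, r.Prime → r ∈ π → r ∣ Nat.card G → r = p) ∧
      (p ∣ Nat.card G → p ∈ π) := by
    by_cases e : ∃ p : ℕ, p.Prime ∧ p ∈ π ∧ p ∣ Nat.card G
    · obtain ⟨p, hp, h1, h2⟩ := e
      exact ⟨p, hp, fun r hr h3 h4 => h r p hr hp h3 h1 h4 h2, fun _ => h1⟩
    · obtain ⟨p, h1, hp⟩ := Nat.exists_infinite_primes (Nat.card G + 1)
      exact ⟨p, hp, fun r hr h3 h4 => absurd ⟨r, hr, h3, h4⟩ e,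
        fun h2 => absurd (Nat.le_of_dvd Nat.card_pos h2) (by omega)⟩
  haveI : Fact p.Prime := ⟨hp⟩
  have key : ∀ K : Subgroup G, IsPiSubgroup π K ↔ IsPGroup p K := by
    intro K
    rw [IsPGroup.iff_card]
    constructor
    · intro hK
      exact ⟨_, Nat.eq_prime_pow_of_unique_prime_dvd Nat.card_pos.ne' fun {r} hr hd =>
        h1 r hr (hK r hr hd) (hd.trans K.card_subgroup_dvd_card)⟩
    · rintro ⟨k, hk⟩ r hr hd
      have h3 := hd.trans K.card_subgroup_dvd_card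
      rw [hk] at hd
      obtain rfl := (Nat.prime_dvd_prime_iff_eq hr hp).1 (hr.dvd_of_dvd_pow hd)
      exact h2 h3
  refine ⟨p, hp, key, fun K => ⟨fun hK => ?_, ?_⟩⟩
  · exact ⟨((key K).1 hK.1).toSylow fun hd => hK.2 p hp (h2 (hd.trans K.index_dvd_card)) hd, rfl⟩
  · rintro ⟨P, rfl⟩
    refine ⟨(key _).2 P.isPGroup', fun r hr hπ hd => ?_⟩
    obtain rfl := h1 r hr hπ (hd.trans (Subgroup.index_dvd_card _))
    exact P.not_dvd_index hd

theorem sylow_conj {p : ℕ} (hp : p.Prime) (P Q : Sylow p G) :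
    ∃ g : G, (Q : Subgroup G) = (P : Subgroup G).map (MulAut.conj g).toMonoidHom := by
  haveI : Fact p.Prime := ⟨hp⟩
  obtain ⟨g, rfl⟩ := MulAction.exists_smul_eq G P Q
  exact ⟨g, rfl⟩

theorem cd_of_single
    (h : ∀ r s : ℕ, r.Prime → s.Prime → r ∈ π → s ∈ π → r ∣ Nat.card G → s ∣ Nat.card G → r = s) :
    IsCPiGroup π G ∧ IsDPiGroup π G := by
  obtain ⟨p, hp, h1, h2⟩ := exists_prime_of_single h
  refine ⟨⟨⟨_, (h2 _).2 ⟨default, rfl⟩⟩, fun H K hH hK => ?_⟩, fun H K hH hK => ?_⟩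
  · obtain ⟨P, rfl⟩ := (h2 H).1 hH
    obtain ⟨Q, rfl⟩ := (h2 K).1 hK
    exact sylow_conj hp P Q
  · obtain ⟨P, hP⟩ := ((h1 H).1 hH.prop).exists_le_sylow
    obtain ⟨Q, hQ⟩ := ((h1 K).1 hK.prop).exists_le_sylow
    rw [hH.eq_of_le ((h1 _).2 P.isPGroup') hP, hK.eq_of_le ((h1 _).2 Q.isPGroup') hQ]
    exact sylow_conj hp P Q

theorem hall_iff_of_all (h : ∀ r : ℕ, r.Prime → r ∣ Nat.card G → r ∈ π) (K : Subgroup G) :
    IsPiHall π K ↔ K = ⊤ := by
  constructor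
  · intro hK
    rw [← Subgroup.index_eq_one]
    exact Nat.eq_one_iff_not_exists_prime_dvd.2 fun r hr hd =>
      hK.2 r hr (h r hr (hd.trans K.index_dvd_card)) hd
  · rintro rfl
    exact ⟨fun r hr hd => h r hr (by simpa using hd), fun r hr _ hd => hr.not_dvd_one (by simpa using hd)⟩

theorem cd_of_all (h : ∀ r : ℕ, r.Prime → r ∣ Nat.card G → r ∈ π) :
    IsCPiGroup π G ∧ IsDPiGroup π G := by
  have h0 : (⊤ : Subgroup G) = (⊤ : Subgroup G).map (MulAut.conj (1 : G)).toMonoidHom :=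
    (Subgroup.map_top_of_surjective _ (MulAut.conj (1 : G)).surjective).symm
  have h1 := ((hall_iff_of_all h ⊤).2 rfl).1
  refine ⟨⟨⟨⊤, (hall_iff_of_all h ⊤).2 rfl⟩, fun H K hH hK => ⟨1, ?_⟩⟩, fun H K hH hK => ⟨1, ?_⟩⟩
  · rw [(hall_iff_of_all h H).1 hH, (hall_iff_of_all h K).1 hK]
    exact h0
  · rw [hH.eq_of_le h1 le_top, hK.eq_of_le h1 le_top]
    exact h0

theorem le_hall_of_d (h : IsDPiGroup π G) {K : Subgroup G} (hK : IsPiSubgroup π K) :
    ∃ H, IsPiHall π H ∧ K ≤ H := by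
  obtain ⟨H, h1, h2⟩ := Finite.exists_le_maximal (p := IsPiSubgroup π) hK
  refine ⟨H, ⟨h2.prop, fun p hp hπ hd => ?_⟩, h1⟩
  haveI : Fact p.Prime := ⟨hp⟩
  obtain ⟨P⟩ : Nonempty (Sylow p G) := inferInstance
  obtain ⟨H', h3, h4⟩ := Finite.exists_le_maximal (p := IsPiSubgroup π)
    (H4.isPiSubgroup_of_isPGroup hp P.isPGroup' hπ)
  obtain ⟨g, hg⟩ := h H H' h2 h4
  rw [← H4.index_smul (MulAut.conj g), H4.conj_smul_eq_map, ← hg] at hd
  exact P.not_dvd_index (hd.trans (Subgroup.index_dvd_of_le h3))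

end General

variable {α : Type*} [Fintype α] [DecidableEq α] {π : Set ℕ}

/-- The stabilizer of a set. -/
def St (B : Finset α) : Subgroup (Perm α) := fibSt fun x => decide (x ∈ B)

theorem mem_St {B : Finset α} {g : Perm α} : g ∈ St B ↔ ∀ x, g x ∈ B ↔ x ∈ B := by
  change _ = _ ↔ _
  simp [funext_iff]

theorem card_St (B : Finset α) : Nat.card (St B) = B.card ! * (Fintype.card α - B.card)! := by
  rw [St, card_fibSt, Fintype.prod_bool, ← Finset.card_compl]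
  congr 3 <;> ext x <;> simp

theorem St_le (B : Finset α) : St B ≤ St2 B := fun _ h => Or.inl (mem_St.1 h)

theorem relIndex_St (B : Finset α) : (St B).relIndex (St2 B) ∣ 2 := by
  rw [Subgroup.relIndex, Subgroup.index_dvd_two_iff]
  by_cases h : ∃ a : St2 B, ∀ i, a.1 i ∈ B ↔ i ∉ B
  · obtain ⟨a, ha⟩ := h
    refine ⟨a, fun b => ?_⟩
    rcases b.2 with hb | hb
    · exact Or.inr (mem_St.2 hb)
    · exact Or.inl (mem_St.2 fun x => (hb (a.1 x)).trans ((ha x).not.trans not_not))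
  · exact ⟨1, fun b => Or.inr (mem_St.2 (b.2.resolve_right fun e => h ⟨b, e⟩))⟩

theorem card_St2_dvd (B : Finset α) :
    Nat.card (St2 B) ∣ B.card ! * (Fintype.card α - B.card)! * 2 := by
  rw [← H4.card_mul_relIndex (St_le B), card_St]
  exact Nat.mul_dvd_mul_left _ (relIndex_St B)

theorem index_St (B : Finset α) : (St B).index = (Fintype.card α).choose B.card := by
  have h1 := (St B).card_mul_index
  rw [card_St, Nat.card_perm, Nat.card_eq_fintype_card (α := α),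
    ← Nat.choose_mul_factorial_mul_factorial (Finset.card_le_univ B)] at h1
  refine Nat.eq_of_mul_eq_mul_left (Nat.mul_pos (Nat.factorial_pos B.card)
    (Nat.factorial_pos (Fintype.card α - B.card))) (h1.trans ?_)
  ring

theorem prime_le_of_dvd {B : Finset α} {r : ℕ} (hr : r.Prime) (h : r ∣ Nat.card (St2 B)) :
    r ≤ B.card ∨ r ≤ Fintype.card α - B.card ∨ r = 2 := by
  have h1 := h.trans (card_St2_dvd B)
  rw [hr.dvd_mul, hr.dvd_mul, hr.dvd_factorial, hr.dvd_factorial,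
    Nat.prime_dvd_prime_iff_eq hr Nat.prime_two, or_assoc] at h1
  exact h1

theorem exists_map {B C : Finset α} (h : B.card = C.card) :
    ∃ g : Perm α, ∀ x, g x ∈ C ↔ x ∈ B := by
  obtain ⟨g, rfl⟩ := Perm.exists_map_finset_eq B C h
  exact ⟨g, fun x => by simp⟩

theorem Typ.hall {B : Finset α} (h : Typ π (Fintype.card α) B.card) : IsPiHall π (St2 B) := by
  have h0 := Subgroup.relIndex_mul_index (St_le B)
  rw [index_St] at h0
  rcases h with ⟨h1, h2, h3, h4⟩ | ⟨h1, h2⟩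
  · refine ⟨fun r hr hd => ?_, fun r hr hπ hd => ?_⟩
    · have := prime_le_of_dvd hr hd
      have := hr.two_le
      exact (h4 r hr (by omega)).2 (by omega)
    · rw [h3, Nat.choose_one_right] at h0
      obtain rfl := (Nat.prime_dvd_prime_iff_eq hr h1).1 (hd.trans (Dvd.intro_left _ h0))
      exact lt_irrefl _ ((h4 _ hr le_rfl).1 hπ)
  · have h5 : (St2 B).index ∣ 35 := by
      rcases h1 with ⟨h3, h4⟩ | ⟨h3, h4⟩
      · rw [h3, h4] at h0
        exact Dvd.intro_left _ h0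
      · rw [h3, h4] at h0
        rcases (Nat.dvd_prime Nat.prime_two).1 (relIndex_St B) with e | e
        · exfalso
          obtain ⟨g, hg⟩ := exists_map (B := Bᶜ) (C := B) (by rw [Finset.card_compl]; omega)
          have h6 := mem_St.1 (Subgroup.relIndex_eq_one.1 e
            (show g ∈ St2 B from Or.inr fun x => by simpa using hg x))
          obtain ⟨x, hx⟩ : B.Nonempty := Finset.card_pos.1 (by omega)
          simpa [hx] using (hg x).1 ((h6 x).2 hx)
        · rw [e, show Nat.choose 8 4 = 2 * 35 from rfl] at h0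
          exact Dvd.intro 1 (by omega)
    refine ⟨fun r hr hd => ?_, fun r hr hπ hd => ?_⟩
    · have h6 := prime_le_of_dvd hr hd
      have h7 := hr.two_le
      have h8 : r ≠ 4 := fun e => absurd (e ▸ hr) (by decide)
      exact (h2 r hr (by omega)).2 (by omega)
    · have h6 := hd.trans h5
      have h7 : r ∣ 5 * 7 := h6
      rw [hr.dvd_mul, Nat.prime_dvd_prime_iff_eq hr Nat.prime_five,
        Nat.prime_dvd_prime_iff_eq hr (by norm_num)] at h7
      have := (h2 r hr (by omega)).1 hπ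
      omega

theorem Typ.unique {n b c : ℕ} (h : Typ π n b) (h' : Typ π n c) : b = c := by
  have key : ∀ {b c : ℕ}, (n.Prime ∧ 5 ≤ n ∧ b = 1 ∧ ∀ r : ℕ, r.Prime → r ≤ n → (r ∈ π ↔ r < n)) →
      ((n = 7 ∧ c = 3 ∨ n = 8 ∧ c = 4) ∧
        ∀ r : ℕ, r.Prime → r ≤ n → (r ∈ π ↔ (r = 2 ∨ r = 3))) → False := by
    intro b c h h'
    have h1 := (h'.2 5 Nat.prime_five h.2.1).1 ((h.2.2.2 5 Nat.prime_five h.2.1).2 (by omega))
    omega
  rcases h with h | h <;> rcases h' with h' | h'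
  · omega
  · exact (key h h').elim
  · exact (key h' h).elim
  · omega

theorem Typ.le {n b : ℕ} (h : Typ π n b) : b + 2 ≤ n := by
  rcases h with h | h <;> omega

theorem St2_conj {B C : Finset α} (h : B.card = C.card) (h2 : B.card + 2 ≤ Fintype.card α) :
    ∃ g ∈ alternatingGroup α, ∀ x, x ∈ St2 C ↔ g⁻¹ * x * g ∈ St2 B := by
  obtain ⟨g, hA, hg⟩ : ∃ g ∈ alternatingGroup α, ∀ x, g x ∈ C ↔ x ∈ B := by
    obtain ⟨g, hg⟩ := exists_map h
    by_cases e : g ∈ alternatingGroup α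
    · exact ⟨g, e, hg⟩
    obtain ⟨u, hu, v, hv, huv⟩ := Finset.one_lt_card.1
      (show 1 < Bᶜ.card by rw [Finset.card_compl]; omega)
    rw [Finset.mem_compl] at hu hv
    refine ⟨g * swap u v, ?_, fun x => ?_⟩
    · rw [mem_alternatingGroup] at e ⊢
      simp [(Int.units_eq_one_or _).resolve_left e, huv]
    · rw [Perm.mul_apply, hg, swap_apply_def]
      split_ifs with e1 e2 <;> simp [*]
  have hg' : ∀ x, g⁻¹ x ∈ B ↔ x ∈ C := fun x => by simpa using (hg (g⁻¹ x)).symm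
  refine ⟨g, hA, fun x => or_congr ?_ ?_⟩
  · exact ⟨fun e i => (hg' _).trans ((e _).trans (hg i)),
      fun e i => by simpa [hg', ← hg] using e (g⁻¹ i)⟩
  · exact ⟨fun e i => (hg' _).trans ((e _).trans (hg i).not),
      fun e i => by simpa [hg', ← hg] using e (g⁻¹ i)⟩

/-- Two primes of `π` and one prime outside `π` are at most `n`. -/
def Mid (π : Set ℕ) (n : ℕ) : Prop :=
  (∃ r s : ℕ, r.Prime ∧ s.Prime ∧ r ≠ s ∧ r ∈ π ∧ s ∈ π ∧ r ≤ n ∧ s ≤ n) ∧
    ∃ r : ℕ, r.Prime ∧ r ≤ n ∧ r ∉ π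

theorem hall_perm (hm : Mid π (Fintype.card α)) {H : Subgroup (Perm α)} (hH : IsPiHall π H) :
    ∃ B : Finset α, H = St2 B ∧ Typ π (Fintype.card α) B.card := by
  obtain ⟨B, h1, h2⟩ := Good.main (M := H) ⟨hH.1, (H4.isPiHall_subgroupOf_of_normal hH _).2⟩ hm.1 hm.2
  exact ⟨B, H4.eq_of_isPiHall_of_le hH h2.hall.1 h1, h2⟩

theorem hall_alt (hm : Mid π (Fintype.card α)) {H : Subgroup (alternatingGroup α)}
    (hH : IsPiHall π H) :
    ∃ B : Finset α, H = (St2 B).subgroupOf _ ∧ Typ π (Fintype.card α) B.card := by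
  have e : (H.map (alternatingGroup α).subtype).subgroupOf (alternatingGroup α) = H :=
    Subgroup.comap_map_eq_self_of_injective (alternatingGroup α).subtype_injective H
  obtain ⟨B, h1, h2⟩ := Good.main (M := H.map (alternatingGroup α).subtype)
    ⟨H4.isPiSubgroup_map hH.1 _, by rw [Subgroup.relIndex, e]; exact hH.2⟩ hm.1 hm.2
  exact ⟨B, H4.eq_of_isPiHall_of_le hH (H4.isPiSubgroup_subgroupOf h2.hall.1 _)
    (Subgroup.map_le_iff_le_comap.1 h1), h2⟩

theorem Typ.exists_hall {b : ℕ} (h : Typ π (Fintype.card α) b) : IsEPiGroup π (Perm α) := by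
  obtain ⟨B, -, rfl⟩ := Finset.exists_subset_card_eq (s := (Finset.univ : Finset α)) (n := b)
    (by have := h.le; rw [Finset.card_univ]; omega)
  exact ⟨_, h.hall⟩

theorem conj_perm (hm : Mid π (Fintype.card α)) (H K : Subgroup (Perm α)) (hH : IsPiHall π H)
    (hK : IsPiHall π K) : ∃ g, K = H.map (MulAut.conj g).toMonoidHom := by
  obtain ⟨B, rfl, h1⟩ := hall_perm hm hH
  obtain ⟨C, rfl, h2⟩ := hall_perm hm hK
  obtain ⟨g, -, hg⟩ := St2_conj (h1.unique h2) h1.le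
  refine ⟨g, ?_⟩
  ext x
  rw [← H4.conj_smul_eq_map, H4.mem_conj_smul, hg]

theorem conj_alt (hm : Mid π (Fintype.card α)) (H K : Subgroup (alternatingGroup α))
    (hH : IsPiHall π H) (hK : IsPiHall π K) : ∃ g, K = H.map (MulAut.conj g).toMonoidHom := by
  obtain ⟨B, rfl, h1⟩ := hall_alt hm hH
  obtain ⟨C, rfl, h2⟩ := hall_alt hm hK
  obtain ⟨g, hA, hg⟩ := St2_conj (h1.unique h2) h1.le
  refine ⟨⟨g, hA⟩, ?_⟩
  ext x
  rw [← H4.conj_smul_eq_map, H4.mem_conj_smul, Subgroup.mem_subgroupOf, hg]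
  rfl

theorem le_of_dvd_perm {r : ℕ} (hr : r.Prime) (h : r ∣ Nat.card (Perm α)) : r ≤ Fintype.card α := by
  rwa [Nat.card_perm, Nat.card_eq_fintype_card, hr.dvd_factorial] at h

theorem tri (π : Set ℕ) (n : ℕ) : Mid π n ∨
    (∀ r s : ℕ, r.Prime → s.Prime → r ∈ π → s ∈ π → r ≤ n → s ≤ n → r = s) ∨
    ∀ r : ℕ, r.Prime → r ≤ n → r ∈ π := by
  by_contra h
  push Not at h
  obtain ⟨h1, ⟨r, s, h2, h3, h4, h5, h6, h7, h8⟩, h9⟩ := h
  exact h1 ⟨⟨r, s, h2, h3, h8, h4, h5, h6, h7⟩, h9⟩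

end H30.HS
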