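import Cfsg.Agent.H68.KcSpec

/-! Slot Num2 of the tower KC: the numerical facts for the primes above `3`. -/

set_option autoImplicit false

namespace H30.Kc

open H68.Kc

theorem le_pow32 (k : ℕ) : ((k + 5 : ℕ) : ℝ) ≤ (3 / 2) ^ (k + 4) := by
  induction k with
  | zero => norm_num
  | succ k ih =>
    rw [show k + 1 + 4 = k + 4 + 1 from rfl, pow_succ]
    push_cast at ih ⊢
    have : (0 : ℝ) ≤ k := Nat.cast_nonneg k
    linarith

theorem om_le {p : ℕ} (hp : 5 ≤ p) (m : ℕ) : (om p m : ℝ) ≤ (3 / 2) ^ m := by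
  obtain ⟨k, rfl⟩ := Nat.exists_eq_add_of_le' hp
  rw [om, Nat.cast_pow]
  refine (pow_le_pow_left₀ (Nat.cast_nonneg _) (le_pow32 k) _).trans ?_
  rw [← pow_mul]
  exact pow_le_pow_right₀ (by norm_num)
    ((Nat.mul_div_le (m - 1) (k + 4)).trans (Nat.sub_le _ _))

theorem gen {p : ℕ} (hp : 5 ≤ p) {a c₁ d : ℝ} (ha : 3 / 2 ≤ a) (hc : a ≤ c₁)
    (h1 : a ^ p + ((p : ℝ) - 1) * a ≤ c₁ ^ p) (hd : 0 ≤ d) (h2 : 1 ≤ d * c₁ ^ ((p - 2) * p - 1)) :
    ∃ c : ℕ → ℝ, HR p a c ∧ ∀ j, c j ≤ c₁ + d := by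
  have hp0 : (0 : ℝ) < p := by positivity
  have key : ∀ j : ℕ, p ≤ j → p * d / j ≤ d := fun j hj => by
    have : (p : ℝ) ≤ j := by exact_mod_cast hj
    rw [div_le_iff₀ (hp0.trans_le this)]
    nlinarith
  refine ⟨fun j => if j < p then a else c₁ + d - p * d / j, ⟨fun j k hjk => ?_, ?_, ?_, ?_⟩,
    fun j => ?_⟩
  · dsimp only
    split_ifs with h h' h'
    · exact le_rfl
    · have := key k (not_lt.1 h'); linarith
    · omega
    · have : (p : ℝ) ≤ j := by exact_mod_cast not_lt.1 h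
      have : p * d / k ≤ p * d / j :=
        div_le_div_of_nonneg_left (by positivity) (hp0.trans_le this) (by exact_mod_cast hjk)
      linarith
  · exact if_pos (by omega)
  · dsimp only
    rwa [if_neg (lt_irrefl p), mul_div_cancel_left₀ d hp0.ne', add_sub_cancel_right]
  · intro j m hm
    have hpm : p ≤ m := hm ▸ Nat.le_self_pow (Nat.succ_ne_zero j) p
    have hm0 : (0 : ℝ) < m := by exact_mod_cast (by omega : 0 < m)
    have hpm' : m ≤ p * m := Nat.le_mul_of_pos_left m (by omega)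
    dsimp only
    rw [if_neg (not_lt.2 hpm), if_neg (by omega)]
    have hy : c₁ ≤ c₁ + d - p * d / m := by have := key m hpm; linarith
    set y := c₁ + d - p * d / m with hy'
    have hp1 : (1 : ℝ) ≤ p := by exact_mod_cast (by omega : 1 ≤ p)
    have he : 0 ≤ (p - 1) * d / m := div_nonneg (mul_nonneg (by linarith) hd) hm0.le
    have hx : c₁ + d - p * d / ((p * m : ℕ) : ℝ) = y + (p - 1) * d / m := by
      rw [hy']; push_cast; field_simp; ring
    rw [hx]
    refine le_trans ?_ (pow_add_mul_le_add_pow (a := y) (by linarith) (by linarith) (p * m))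
    have e1 : ((p * m : ℕ) : ℝ) * y ^ (p * m - 1) * ((p - 1) * d / m) =
        p * (p - 1) * (d * y ^ (p * m - 1)) := by
      push_cast; field_simp
    rw [e1, mul_assoc (p * (p - 1) : ℝ), add_le_add_iff_left]
    refine mul_le_mul_of_nonneg_left ?_ (mul_nonneg hp0.le (by linarith))
    have e2 : p * m - 1 = ((p - 2) * m - 1) + (m + m) := by
      obtain ⟨k, rfl⟩ := Nat.exists_eq_add_of_le' (show 2 ≤ p by omega)
      have : 1 ≤ k * m := Nat.mul_pos (by omega) (by omega)
      rw [Nat.add_sub_cancel, add_mul]; omega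
    have h3 : 1 ≤ d * y ^ ((p - 2) * m - 1) := h2.trans (mul_le_mul_of_nonneg_left
      ((pow_le_pow_left₀ (by linarith) hy _).trans (pow_le_pow_right₀ (by linarith)
        (Nat.sub_le_sub_right (Nat.mul_le_mul_left _ hpm) 1))) hd)
    have h4 : (om p m : ℝ) ≤ y ^ m :=
      (om_le hp m).trans (pow_le_pow_left₀ (by norm_num) (by linarith) m)
    have h5 : a ^ m ≤ y ^ m := pow_le_pow_left₀ (by linarith) (by linarith) m
    have h6 : 0 ≤ y ^ m := pow_nonneg (by linarith) m
    rw [e2, pow_add, pow_add, ← mul_assoc]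
    exact (mul_le_mul h4 h5 (pow_nonneg (by linarith) m) h6).trans
      (le_mul_of_one_le_left (mul_nonneg h6 h6) h3)
  · dsimp only
    split_ifs
    · linarith
    · have : 0 ≤ p * d / j := by positivity
      linarith

theorem aa_big (k : ℕ) : aa (k + 10) = 2 - 5 / 1000 * (6 / 10) ^ k := by
  rcases k with _ | k
  · norm_num [aa]
  · rw [aa, if_neg (by omega), if_neg (by omega), if_neg (by omega), if_neg (by omega),
      if_neg (by omega), Nat.add_sub_cancel]

theorem aa_mono : Monotone aa := monotone_nat_of_le_succ fun m => by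
  rcases lt_or_ge m 10 with h | h
  · interval_cases m <;> norm_num [aa]
  · obtain ⟨k, rfl⟩ := Nat.exists_eq_add_of_le' h
    rw [show k + 10 + 1 = k + 1 + 10 by omega, aa_big, aa_big, pow_succ]
    have : (0 : ℝ) ≤ (6 / 10) ^ k := by positivity
    linarith

theorem jobNum2 : JobNum2 := by
  refine ⟨aa_mono, fun m => (aa_mono (Nat.le_add_right m 10)).trans ?_, fun p hp h5 => ?_⟩
  · rw [aa_big]
    have : (0 : ℝ) ≤ (6 / 10) ^ m := by positivity
    linarith
  rcases lt_or_ge p 11 with h | h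
  · interval_cases p
    · obtain ⟨c, h1, h2⟩ := gen (p := 5) (a := aa 4) (c₁ := 19663 / 10000) (d := 2 / 10000) le_rfl
        (by norm_num [aa]) (by norm_num [aa]) (by norm_num [aa]) (by norm_num) (by norm_num)
      exact ⟨c, h1, fun j => (h2 j).trans (by norm_num [aa])⟩
    · exact absurd hp (by decide)
    · obtain ⟨c, h1, h2⟩ := gen (p := 7) (a := aa 6) (c₁ := 19945 / 10000) (d := 5 / 10000)
        (by decide) (by norm_num [aa]) (by norm_num [aa]) (by norm_num [aa]) (by norm_num)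
        (by norm_num)
      exact ⟨c, h1, fun j => (h2 j).trans (by norm_num [aa])⟩
    all_goals exact absurd hp (by decide)
  obtain ⟨k, rfl⟩ := Nat.exists_eq_add_of_le' h
  have e1 : aa (k + 11 - 1) = 2 - 5 / 1000 * (6 / 10) ^ k := aa_big k
  have e2 : aa (k + 11) = 2 - 3 / 1000 * (6 / 10) ^ k := by
    rw [show k + 11 = k + 1 + 10 by omega, aa_big, pow_succ]; ring
  have t0 : (0 : ℝ) < (6 / 10) ^ k := by positivity
  have t1 : ((6 : ℝ) / 10) ^ k ≤ 1 := pow_le_one₀ (by norm_num) (by norm_num)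
  have t2 : ∀ (y : ℝ) (n : ℕ), 1995 / 1000 ≤ y →
      (1995 / 1000) ^ n ≤ (6 / 10) ^ k * y ^ (k + n) := fun y n hy => by
    have h1 : 1 ≤ (6 / 10 * y) ^ k := one_le_pow₀ (by linarith)
    rw [pow_add, ← mul_assoc, ← mul_pow]
    exact (pow_le_pow_left₀ (by norm_num) hy n).trans
      (le_mul_of_one_le_left (pow_nonneg (by linarith) n) h1)
  rw [e1, e2]
  set t : ℝ := (6 / 10) ^ k
  set a : ℝ := 2 - 5 / 1000 * t with ha
  have ha' : 1995 / 1000 ≤ a := by linarith
  obtain ⟨c, h1, h2⟩ := gen (p := k + 11) (a := a) (c₁ := a + 1998 / 1000000 * t)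
    (d := 2 / 1000000 * t) (by omega) (by linarith) (by linarith) (by
      refine le_trans ?_ (pow_add_mul_le_add_pow (a := a) (by linarith) (by linarith) (k + 11))
      have h3 := t2 a 9 ha'
      have h4 : 1 ≤ 1998 / 1000000 * (t * a ^ (k + 9)) := le_trans (by norm_num)
        (mul_le_mul_of_nonneg_left h3 (by norm_num))
      rw [add_le_add_iff_left, show k + 11 - 1 = k + 9 + 1 from rfl, pow_succ]
      have h6 : (0 : ℝ) ≤ ((k + 11 : ℕ) : ℝ) * a := by positivity
      nlinarith [mul_le_mul_of_nonneg_left h4 h6]) (by linarith) (by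
      have h3 := t2 (a + 1998 / 1000000 * t) 20 (by linarith)
      have h4 : (a + 1998 / 1000000 * t) ^ (k + 20) ≤
          (a + 1998 / 1000000 * t) ^ ((k + 11 - 2) * (k + 11) - 1) :=
        pow_le_pow_right₀ (by linarith) (by
          rw [show k + 11 - 2 = k + 9 from rfl]
          have : (k + 9) * (k + 11) = k * k + 20 * k + 99 := by ring
          omega)
      rw [mul_assoc]
      exact le_trans (by norm_num) (mul_le_mul_of_nonneg_left
        (h3.trans (mul_le_mul_of_nonneg_left h4 t0.le)) (by norm_num)))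
  exact ⟨c, h1, fun j => (h2 j).trans (by linarith)⟩

end H30.Kc
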