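import Cfsg.Agent.H70.R3Spec
import Cfsg.Agent.H18.FpfHom

/-! Groups of prime-power order for a primitive prime divisor of `p ^ m - 1` in dimension `2 m`. -/

set_option autoImplicit false

namespace H30.R3

open Cfsg H90 Subgroup MulAction

universe u

variable {G V : Type*} [Group G] [AddCommGroup V] [DistribMulAction G V]

/-- The action of a subgroup on an invariant subgroup. -/
def act (A : Subgroup G) (U : AddSubgroup V) (inv : ∀ g ∈ A, ∀ x ∈ U, g • x ∈ U) :
    A →* MulAut (Multiplicative U) where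
  toFun a :=
    { toFun := fun x => .ofAdd ⟨(a : G) • (x.toAdd : V), inv _ a.2 _ x.toAdd.2⟩
      invFun := fun x => .ofAdd ⟨(a : G)⁻¹ • (x.toAdd : V), inv _ (A.inv_mem a.2) _ x.toAdd.2⟩
      left_inv := fun x => Subtype.ext (inv_smul_smul (a : G) (x.toAdd : V))
      right_inv := fun x => Subtype.ext (smul_inv_smul (a : G) (x.toAdd : V))
      map_mul' := fun x y => Subtype.ext (smul_add (a : G) (x.toAdd : V) (y.toAdd : V)) }
  map_one' := MulEquiv.ext fun x => Subtype.ext (one_smul G (x.toAdd : V))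
  map_mul' a b := MulEquiv.ext fun x => Subtype.ext (mul_smul (a : G) (b : G) (x.toAdd : V))

theorem cyc [Finite G] [Finite V] {r c : ℕ} [Fact r.Prime] (h2 : r ≠ 2) (A K : Subgroup G)
    (hA : IsPGroup r A) (hc : ∀ g ∈ A, g ^ r ^ c = 1) (U : AddSubgroup V) (hU : U ≠ ⊥)
    (inv : ∀ g ∈ A, ∀ x ∈ U, g • x ∈ U)
    (h1 : ∀ g ∈ A, ∀ x ∈ U, x ≠ 0 → g • x = x → ∀ y ∈ U, g • y = y)
    (hK : ∀ g ∈ A, (∀ y ∈ U, g • y = y) → g ∈ K) : Nat.card A ∣ Nat.card K * r ^ c := by
  have : Nontrivial U := (AddSubgroup.nontrivial_iff_ne_bot U).2 hU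
  let φ := act A U inv
  have hR : IsPGroup r φ.range := hA.of_surjective φ.rangeRestrict φ.rangeRestrict_surjective
  have hcy : IsCyclic φ.range := H18.isCyclic_of_fpf_hom φ.range.subtype (by
    rintro ⟨_, a, rfl⟩ ha w hw
    by_contra hw1
    refine ha (Subtype.ext (MulEquiv.ext fun y => Subtype.ext ?_))
    exact h1 a a.2 _ w.toAdd.2 (fun e => hw1 (Subtype.ext e)) (congrArg Subtype.val hw) _
      y.toAdd.2) h2 hR
  have h3 : Nat.card φ.range ∣ r ^ c := by
    rw [← IsCyclic.exponent_eq_card]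
    refine Monoid.exponent_dvd_of_forall_pow_eq_one ?_
    rintro ⟨_, a, rfl⟩
    refine Subtype.ext ?_
    change φ a ^ r ^ c = 1
    rw [← map_pow, show a ^ r ^ c = 1 from Subtype.ext (hc a a.2), map_one]
  have h4 : Nat.card φ.ker ∣ Nat.card K := by
    rw [← card_map_of_injective (K := φ.ker) (f := A.subtype) Subtype.val_injective]
    refine card_dvd_of_le ?_
    rintro _ ⟨a, ha, rfl⟩
    exact hK a a.2 fun y hy => congrArg Subtype.val
      (DFunLike.congr_fun (MonoidHom.mem_ker.1 ha) (Multiplicative.ofAdd (⟨y, hy⟩ : U)))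
  rw [← φ.ker.card_mul_index, index_ker]
  exact mul_dvd_mul h4 h3

theorem fix_card [Finite V] [FaithfulSMul G V] {p m r : ℕ} (hp : p.Prime) (hm : 0 < m)
    (hV : Nat.card V = p ^ (2 * m)) (hr : Ppd p m r) {Q : Subgroup G} (hQ : IsPGroup r Q)
    (h1 : Q ≠ ⊥) (h0 : FixedPoints.addSubgroup Q V ≠ ⊥) :
    Nat.card (FixedPoints.addSubgroup Q V) = p ^ m := by
  have := Fact.mk hr.prime
  obtain ⟨i, hi, hF⟩ := (Nat.dvd_prime_pow hp).1
    (hV ▸ (FixedPoints.addSubgroup Q V).card_addSubgroup_dvd_card)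
  have i0 : i ≠ 0 := by
    rintro rfl
    exact h0 (AddSubgroup.card_eq_one.1 hF)
  have i1 : i ≠ 2 * m := by
    rintro rfl
    have h2 := AddSubgroup.eq_top_of_card_eq _ (hF.trans hV.symm)
    refine h1 (eq_bot_iff.2 fun g hg => eq_of_smul_eq_smul (α := V) fun w => ?_)
    rw [one_smul]
    exact (show w ∈ FixedPoints.addSubgroup Q V from h2 ▸ AddSubgroup.mem_top w) ⟨g, hg⟩
  have h2 := hQ.card_modEq_card_fixedPoints V
  change _ ≡ Nat.card (FixedPoints.addSubgroup Q V) [MOD r] at h2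
  obtain ⟨j, hj⟩ := Nat.exists_eq_add_of_le hi
  rw [hF, hV, hj] at h2
  have h3 := (Nat.modEq_iff_dvd' (Nat.pow_le_pow_right hp.pos (Nat.le_add_right i j))).1 h2.symm
  rw [pow_add, ← Nat.mul_pred, hr.prime.dvd_mul] at h3
  have h4 : r ∣ p ^ j - 1 := h3.resolve_left fun h4 =>
    hr.not_dvd hp.pos hm (hr.prime.dvd_of_dvd_pow h4)
  rw [hF]
  congr 1
  rcases lt_trichotomy j m with h5 | h5 | h5
  · exact absurd h4 (hr.min j (by omega) h5)
  · omega
  obtain ⟨k, rfl⟩ := Nat.exists_eq_add_of_le h5.le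
  refine absurd ?_ (hr.min k (by omega) (by omega))
  have e1 := (Nat.modEq_iff_dvd' (Nat.one_le_pow _ p hp.pos)).2 h4
  have e2 := ((Nat.modEq_iff_dvd' (Nat.one_le_pow _ p hp.pos)).2 hr.dvd).mul_right (p ^ k)
  rw [← pow_add, one_mul] at e2
  exact (Nat.modEq_iff_dvd' (Nat.one_le_pow _ p hp.pos)).1 (e1.trans e2.symm)

/-- The map `v ↦ g v - v`. -/
def dif (V : Type*) [AddCommGroup V] [DistribMulAction G V] (g : G) : V →+ V :=
  DistribSMul.toAddMonoidHom V g - AddMonoidHom.id V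

theorem dif_apply (g : G) (v : V) : dif V g v = g • v - v := rfl

/-- The translate of a subgroup. -/
def tr (g : G) (W : AddSubgroup V) : AddSubgroup V := W.comap (DistribSMul.toAddMonoidHom V g⁻¹)

theorem mem_tr {g : G} {W : AddSubgroup V} {v : V} : v ∈ tr g W ↔ g⁻¹ • v ∈ W := Iff.rfl

theorem card_tr (g : G) (W : AddSubgroup V) : Nat.card (tr g W) = Nat.card W :=
  Nat.card_congr
    { toFun := fun x => ⟨g⁻¹ • x.1, x.2⟩
      invFun := fun x => ⟨g • x.1, mem_tr.2 (by rw [inv_smul_smul]; exact x.2)⟩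
      left_inv := fun x => Subtype.ext (smul_inv_smul g x.1)
      right_inv := fun x => Subtype.ext (inv_smul_smul g x.1) }

theorem jobRank : H70.R3.JobRank.{u} := by
  intro G V _ _ _ _ _ _ p m r c R hp hm hV hr hR hc
  have := Fact.mk hr.prime
  have hrm := hr.lt hp.pos (by omega)
  have h2 : r ≠ 2 := by omega
  have hpm : 1 < p ^ m := Nat.one_lt_pow (by omega) hp.one_lt
  by_cases hs : ∀ g ∈ R, ∀ x : V, x ≠ 0 → g • x = x → g = 1
  · have : Nontrivial V := Finite.one_lt_card_iff_nontrivial.1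
      (hV ▸ Nat.one_lt_pow (by omega) hp.one_lt)
    have h3 := cyc h2 R ⊥ hR hc (⊤ : AddSubgroup V) top_ne_bot (fun _ _ _ _ => trivial)
      (fun g hg x _ x0 e y _ => by rw [hs g hg x x0 e, one_smul])
      fun g _ e => eq_of_smul_eq_smul (α := V) fun w => by rw [e w trivial, one_smul]
    rw [card_bot, one_mul] at h3
    exact h3.trans (pow_dvd_pow r (by omega))
  push Not at hs
  obtain ⟨s, hsR, v, v0, hsv, s1⟩ := hs
  set S := R ⊓ stabilizer G v with hS
  set W := FixedPoints.addSubgroup S V with hW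
  have mW : ∀ {x}, x ∈ W ↔ ∀ g ∈ S, g • x = x := ⟨fun h g hg => h ⟨g, hg⟩, fun h g => h g g.2⟩
  have vW : v ∈ W := mW.2 fun g hg => hg.2
  have sS : s ∈ S := ⟨hsR, hsv⟩
  have fx : ∀ {Q : Subgroup G} {x : V}, Q ≤ R → Q ≠ ⊥ → x ≠ 0 → (∀ g ∈ Q, g • x = x) →
      Nat.card (FixedPoints.addSubgroup Q V) = p ^ m := fun {Q x} h3 h4 h5 h6 =>
    fix_card hp (by omega) hV hr (hR.to_le h3) h4 fun e =>
      h5 (AddSubgroup.mem_bot.1 (e ▸ fun g => h6 g g.2))
  have S0 : S ≠ ⊥ := fun e => s1 (mem_bot.1 (e ▸ sS))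
  have cW : Nat.card W = p ^ m := fx inf_le_left S0 v0 fun g hg => hg.2
  have W0 : W ≠ ⊥ := fun e => v0 (AddSubgroup.mem_bot.1 (e ▸ vW))
  -- a non-trivial element of `S` fixes only `W`
  have f1 : ∀ g ∈ S, g ≠ 1 → ∀ x, g • x = x → x ∈ W := fun g hg g1 x e => by
    have h3 : W = FixedPoints.addSubgroup (zpowers g) V :=
      AddSubgroup.eq_of_le_of_card_ge (fun y hy k => mW.1 hy k (zpowers_le.2 hg k.2))
        ((fx (zpowers_le.2 hg.1) (by simpa using g1) v0
          fun k hk => (zpowers_le.2 hg hk).2).trans cW.symm).le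
    exact h3 ▸ fun k => zpowers_le.2 (show g ∈ stabilizer G x from e) k.2
  -- the stabilizer of a non-zero element of `W` is `S`
  have f2 : ∀ g ∈ R, ∀ x ∈ W, x ≠ 0 → g • x = x → g ∈ S := fun g hg x hx x0 e => by
    have h4 : S ≤ R ⊓ stabilizer G x := fun k hk => ⟨hk.1, mW.1 hx k hk⟩
    have h3 : FixedPoints.addSubgroup ↥(R ⊓ stabilizer G x) V = W :=
      AddSubgroup.eq_of_le_of_card_ge (fun y hy => mW.2 fun k hk => hy ⟨k, h4 hk⟩)
        (cW.trans (fx inf_le_left (fun e => S0 (le_bot_iff.1 (e ▸ h4))) x0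
          fun k hk => hk.2).symm).le
    exact ⟨hg, (h3 ▸ vW : v ∈ FixedPoints.addSubgroup ↥(R ⊓ stabilizer G x) V) ⟨g, hg, e⟩⟩
  have kd : ∀ g ∈ S, g ≠ 1 → (dif V g).ker = W := fun g hg g1 => AddSubgroup.ext fun x =>
    ⟨fun e => f1 g hg g1 x (sub_eq_zero.1 e), fun e => sub_eq_zero.2 (mW.1 e g hg)⟩
  have cd : ∀ g ∈ S, g ≠ 1 → Nat.card (dif V g).range = p ^ m := fun g hg g1 => by
    have h3 := (dif V g).ker.card_mul_index
    rw [AddSubgroup.index_ker, kd g hg g1, cW, hV, two_mul, pow_add] at h3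
    exact Nat.eq_of_mul_eq_mul_left (by omega) h3
  -- an invariant complement is unique
  have un : ∀ U : AddSubgroup V, Nat.card U = p ^ m → (∀ x ∈ U, s • x ∈ U) →
      (∀ x ∈ U, x ∈ W → x = 0) → U = (dif V s).range := fun U h3 h4 h5 => by
    have h6 : Nat.card (U.map (dif V s)) = p ^ m := by
      rw [← h3]
      refine (Nat.card_congr (Equiv.ofBijective (fun x : U => (⟨_, x, x.2, rfl⟩ : U.map (dif V s)))
        ⟨fun x y e => Subtype.ext (sub_eq_zero.1 (h5 _ (U.sub_mem x.2 y.2) ?_)), ?_⟩)).symm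
      · rw [← kd s sS s1, AddMonoidHom.mem_ker, map_sub]
        exact sub_eq_zero.2 (congrArg Subtype.val e)
      · rintro ⟨_, x, hx, rfl⟩
        exact ⟨⟨x, hx⟩, rfl⟩
    have h7 : U.map (dif V s) = U := AddSubgroup.eq_of_le_of_card_ge
      (by rintro _ ⟨x, hx, rfl⟩; exact U.sub_mem (h4 x hx) hx) (h3.trans h6.symm).le
    exact h7.symm.trans (AddSubgroup.eq_of_le_of_card_ge (AddSubgroup.map_le_range _ _)
      ((cd s sS s1).trans h6.symm).le)
  -- the stabilizer of `W`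
  let N : Subgroup R :=
    { carrier := {g | ∀ x, (g : G) • x ∈ W ↔ x ∈ W}
      mul_mem' := fun {a b} ha hb x => by rw [coe_mul, mul_smul, ha, hb]
      one_mem' := fun x => by rw [coe_one, one_smul]
      inv_mem' := fun {a} ha x => by rw [← ha, coe_inv, smul_inv_smul] }
  have mN : ∀ g : R, (∀ x ∈ W, (g : G) • x ∈ W) → g ∈ N := fun g hg x => by
    have h3 : W = tr (g : G)⁻¹ W := AddSubgroup.eq_of_le_of_card_ge
      (fun y hy => mem_tr.2 (by rw [inv_inv]; exact hg y hy)) (card_tr _ _).le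
    conv_rhs => rw [h3, mem_tr, inv_inv]
  have sN : (⟨s, hsR⟩ : R) ∈ N := mN _ fun x hx => by rw [mW.1 hx s sS]; exact hx
  have ut : ∀ g : R, g ∈ normalizer (N : Set R) → g ∉ N → tr (g : G) W = (dif V s).range :=
    fun g hg gN => un _ ((card_tr _ _).trans cW) (fun x hx => by
      have h3 : g⁻¹ * ⟨s, hsR⟩ * g⁻¹⁻¹ ∈ N := (mem_normalizer_iff.1 (inv_mem hg) _).1 sN
      have h4 := (h3 _).2 (mem_tr.1 hx)
      rw [inv_inv, coe_mul, coe_mul, mul_smul, mul_smul, coe_inv, smul_inv_smul] at h4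
      exact h4) fun x hx xW => by
      by_contra x0
      refine gN (mN g fun y hy => mW.2 fun k hk => ?_)
      have h3 : (g : G)⁻¹ * k * g ∈ S := f2 _ (R.mul_mem (R.mul_mem (R.inv_mem g.2) hk.1) g.2) _
        (mem_tr.1 hx) ((smul_ne_zero_iff_ne _).2 x0)
        (by rw [mul_smul, mul_smul, smul_inv_smul, mW.1 xW k hk])
      have h4 := mW.1 hy _ h3
      rwa [mul_smul, mul_smul, inv_smul_eq_iff] at h4
  have hN : N = ⊤ := by
    by_contra h3
    have : Group.IsNilpotent R := hR.isNilpotent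
    obtain ⟨g, hg, gN⟩ := SetLike.exists_of_lt
      (normalizerCondition_of_isNilpotent (G := R) N (lt_top_iff_ne_top.2 h3))
    have h4 := (ut g hg gN).trans (ut g⁻¹ (inv_mem hg) fun e => gN (inv_mem_iff.1 e)).symm
    have h5 : g ^ 2 ∈ N := mN _ fun x hx => by
      have h6 : (g : G) • x ∈ tr (g : G) W := mem_tr.2 (by rw [inv_smul_smul]; exact hx)
      rw [h4, mem_tr, coe_inv, inv_inv, ← mul_smul] at h6
      rwa [sq, coe_mul]
    obtain ⟨k, hk⟩ : Odd (r ^ c) := (hr.prime.odd_of_ne_two h2).pow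
    have h6 : g ^ (2 * k + 1) = 1 := Subtype.ext (hk ▸ hc g g.2)
    rw [pow_succ, pow_mul] at h6
    exact gN (eq_inv_of_mul_eq_one_right h6 ▸ N.inv_mem (N.pow_mem h5 k))
  have h3 := cyc h2 R S hR hc W W0 (fun g hg x hx => ((hN.ge (mem_top ⟨g, hg⟩) :) x).2 hx)
    (fun g hg x hx x0 e y hy => mW.1 hy g (f2 g hg x hx x0 e)) fun g hg e => ⟨hg, e v vW⟩
  have hSp : IsPGroup r S := hR.to_le inf_le_left
  have : Nontrivial S := (nontrivial_iff_ne_bot S).2 S0
  have := hSp.center_nontrivial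
  obtain ⟨⟨⟨z, zS⟩, hz⟩, z1⟩ := exists_ne (1 : center S)
  have z1' : z ≠ 1 := fun e => z1 (Subtype.ext (Subtype.ext e))
  have zc : ∀ g ∈ S, g * z = z * g := fun g hg =>
    congrArg Subtype.val (mem_center_iff.1 hz ⟨g, hg⟩)
  have dj : ∀ x ∈ (dif V z).range, x ∈ W → x = 0 := by
    rintro _ ⟨y, rfl⟩ hy
    have h4 : ∀ k : ℕ, z ^ k • y = y + k • dif V z y := fun k => by
      induction k with
      | zero => simp
      | succ k ih =>
        rw [pow_succ', mul_smul, ih, smul_add, smul_comm, mW.1 hy z zS, succ_nsmul, dif_apply]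
        abel
    have h5 := h4 (r ^ c)
    rw [hc z zS.1, one_smul, left_eq_add] at h5
    have h6 : addOrderOf (dif V z y) ∣ Nat.gcd (r ^ c) (p ^ (2 * m)) :=
      Nat.dvd_gcd (addOrderOf_dvd_of_nsmul_eq_zero h5) (hV ▸ addOrderOf_dvd_natCard _)
    rw [Nat.Coprime.pow _ _ ((Nat.Prime.coprime_iff_not_dvd hr.prime).2
      (hr.not_dvd hp.pos (by omega))), Nat.dvd_one] at h6
    exact AddMonoid.addOrderOf_eq_one_iff.1 h6
  have h4 := cyc h2 S ⊥ hSp (fun g hg => hc g hg.1) (dif V z).range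
    (fun e => by have := cd z zS z1'; rw [e, AddSubgroup.card_bot] at this; omega)
    (by
      rintro g hg _ ⟨y, rfl⟩
      exact ⟨g • y, by rw [dif_apply, dif_apply, smul_sub, ← mul_smul, ← mul_smul, zc g hg]⟩)
    (fun g hg x hx x0 e y _ => by
      by_cases g1 : g = 1
      · rw [g1, one_smul]
      · exact absurd (dj x hx (f1 g hg g1 x e)) x0)
    fun g hg e => by
      by_contra g1
      have h5 : (dif V z).range = ⊥ := eq_bot_iff.2 fun x hx => dj x hx (f1 g hg g1 x (e x hx))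
      have := cd z zS z1'
      rw [h5, AddSubgroup.card_bot] at this
      omega
  rw [card_bot, one_mul] at h4
  rw [two_mul, pow_add]
  exact h3.trans (mul_dvd_mul_right h4 _)

end H30.R3
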