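import Cfsg.Agent.Base
import Cfsg.Agent.H61.SL2Lift

/-! The affine group `3^{4n} : (2 × L₂(q))` on `W ⊗ W^{(3)}`, whose maximal element orders are
`6, 9, q - 1, (q + 1)/2` for `q = 3^{odd}`. -/

set_option autoImplicit false
open Matrix MatrixGroups

namespace H30.RA

variable {K : Type*} [Field K] [CharP K 3]

local notation "M" => Matrix (Fin 2) (Fin 2) K

instance : Fact (Nat.Prime 3) := ⟨Nat.prime_three⟩

/-- The twisted transpose. -/
noncomputable def tw (g : SL(2, K)) : M := ((g : M).map (frobenius K 3))ᵀ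

theorem tw_mul (g h : SL(2, K)) : tw (g * h) = tw h * tw g := by
  simp [tw, Matrix.map_mul, transpose_mul]

theorem tw_one : tw (1 : SL(2, K)) = 1 := by simp [tw]

theorem tw_neg_one : tw (-1 : SL(2, K)) = -1 := by
  ext i j; fin_cases i <;> fin_cases j <;> simp [tw]

/-- The linear action. -/
noncomputable def lin : ℤˣ × SL(2, K) →* AddMonoid.End M where
  toFun γ := { toFun := fun X => γ.1 • ((γ.2 : M) * X * tw γ.2)
               map_zero' := by simp
               map_add' := fun X Y => by simp [mul_add, add_mul] }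
  map_one' := by ext1 X; simp [tw_one]; rfl
  map_mul' a b := by
    ext1 X
    change (a.1 * b.1) • (((a.2 * b.2 : SL(2, K)) : M) * X * tw (a.2 * b.2)) =
      a.1 • ((a.2 : M) * (b.1 • ((b.2 : M) * X * tw b.2)) * tw a.2)
    rw [tw_mul, mul_smul]
    simp [Matrix.mul_assoc]

theorem lin_apply (γ : ℤˣ × SL(2, K)) (X : M) : lin γ X = γ.1 • ((γ.2 : M) * X * tw γ.2) := rfl

theorem lin_mul (γ δ : ℤˣ × SL(2, K)) (X : M) : lin (γ * δ) X = lin γ (lin δ X) := by
  rw [map_mul]; rfl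

theorem lin_one (X : M) : lin (1 : ℤˣ × SL(2, K)) X = X := by rw [map_one]; rfl

theorem lin_of_pm {e : ℤˣ} {g : SL(2, K)} (h : g = 1 ∨ g = -1) (X : M) : lin (e, g) X = e • X := by
  rcases h with rfl | rfl <;> simp [lin_apply, tw_one, tw_neg_one]

theorem two_ne : (2 : K) ≠ 0 := fun h => by
  have : ((2 : ℕ) : K) = 0 := by exact_mod_cast h
  have := (CharP.cast_eq_zero_iff K 3 2).1 this
  omega

theorem three_eq : (3 : K) = 0 := by exact_mod_cast CharP.cast_eq_zero K 3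

theorem of_lin_eq {γ : ℤˣ × SL(2, K)} (h : ∀ X : M, lin γ X = X) :
    γ.1 = 1 ∧ (γ.2 = 1 ∨ γ.2 = -1) := by
  obtain ⟨e, g⟩ := γ
  have h1 : ∀ X : M, (g : M) * X = X * g := fun X => by
    have a := h (X * g)
    have b := h 1
    have c := h (X * g * g)
    simp only [lin_apply, mul_one] at a b
    have e1 : e • tw g * (g : M) = 1 := by
      apply mul_eq_one_comm.1
      rw [← b]; simp
    calc (g : M) * X = (g : M) * X * (e • tw g * (g : M)) := by rw [e1, mul_one]
      _ = lin (e, g) X * g := by simp [lin_apply, Matrix.mul_assoc]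
      _ = X * g := by rw [h]
  have h2 : g = 1 ∨ g = -1 := by
    have a := congrFun (congrFun (h1 !![1, 0; 0, 0]) 0) 1
    have b := congrFun (congrFun (h1 !![1, 0; 0, 0]) 1) 0
    have c := congrFun (congrFun (h1 !![0, 1; 0, 0]) 0) 1
    simp [Matrix.mul_apply, Fin.sum_univ_two] at a b c
    exact H61.sl_eq_of_offdiag a.symm b c
  refine ⟨?_, h2⟩
  rcases Int.units_eq_one_or e with rfl | rfl
  · rfl
  · have a := congrFun (congrFun (h 1) 0) 0
    rw [lin_of_pm h2] at a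
    simp at a
    exact absurd (by linear_combination -a : (2 : K) = 0) two_ne

theorem tw_ch (g : SL(2, K)) : tw g * tw g = (H61.tr g) ^ 3 • tw g - 1 := by
  rw [← tw_mul, tw, H61.sl_mul_self]
  ext i j
  fin_cases i <;> fin_cases j <;> simp [tw, frobenius_def, sub_pow_char, mul_pow]

/-- No fixed vectors unless the trace is `0` or `±1`. -/
theorem fix_eq_zero (hs : ∀ a : K, a ^ 2 ≠ -1) {γ : ℤˣ × SL(2, K)} (h0 : H61.tr γ.2 ≠ 0)
    (h1 : H61.tr γ.2 ^ 2 ≠ 1) {X : M} (h : lin γ X = X) : X = 0 := by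
  obtain ⟨e, g⟩ := γ
  simp only at h0 h1
  set t := H61.tr g
  have hg : (g : M) * g = t • (g : M) - 1 := by rw [← H61.sl_mul_self]; rfl
  have hb := tw_ch g
  have hinv : tw g * tw g⁻¹ = 1 := by rw [← tw_mul, inv_mul_cancel, tw_one]
  have hgi : ((g⁻¹ : SL(2, K)) : M) * g = 1 := by
    rw [← Matrix.SpecialLinearGroup.coe_mul, inv_mul_cancel]; rfl
  have key : ∀ c : K, c ^ 2 = 1 → (g : M) * X * tw g = c • X → (c * t ^ 3 - t) • X = 0 := by
    intro c hc h
    have h2 : (g : M) * g * X * (tw g * tw g) = X := by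
      calc (g : M) * g * X * (tw g * tw g) = g * ((g : M) * X * tw g) * tw g := by
            simp [Matrix.mul_assoc]
        _ = X := by rw [h, Matrix.mul_smul, Matrix.smul_mul, h, smul_smul, ← sq, hc, one_smul]
    have h3 : (g : M) * g * X * tw g = c • ((g : M) * X) := by
      rw [← Matrix.mul_smul, ← h]; simp [Matrix.mul_assoc]
    have h4 : (c * t ^ 3 - t) • ((g : M) * X) = 0 := by
      rw [hb, mul_sub, Matrix.mul_smul, h3, mul_one, hg, sub_mul, Matrix.smul_mul, one_mul] at h2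
      rw [sub_smul, mul_comm c, mul_smul]
      linear_combination (norm := module) h2
    have := congrArg (fun Y => ((g⁻¹ : SL(2, K)) : M) * Y) h4
    simpa only [Matrix.mul_smul, ← Matrix.mul_assoc, hgi, one_mul, mul_zero] using this
  rcases Int.units_eq_one_or e with rfl | rfl
  · have := key 1 (by simp) (by simpa [lin_apply] using h)
    refine (smul_eq_zero.1 this).resolve_left fun h => h1 ?_
    exact mul_left_cancel₀ h0 (by linear_combination h)
  · have := key (-1) (by simp) (by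
      simp only [lin_apply, Units.neg_smul, one_smul] at h
      rw [neg_smul, one_smul, ← h, neg_neg, h])
    refine (smul_eq_zero.1 this).resolve_left fun h => hs t ?_
    exact mul_left_cancel₀ h0 (by linear_combination -h)

/-- The affine group. -/
def Aff (K : Type*) [Field K] [CharP K 3] : Subgroup (Equiv.Perm (Matrix (Fin 2) (Fin 2) K)) where
  carrier := {σ | ∃ γ v, ∀ X, σ X = lin γ X + v}
  one_mem' := ⟨1, 0, fun X => by simp⟩
  mul_mem' := by
    rintro a b ⟨γ, v, h⟩ ⟨δ, w, k⟩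
    exact ⟨γ * δ, lin γ w + v, fun X => by simp [h, k, add_assoc]⟩
  inv_mem' := by
    rintro a ⟨γ, v, h⟩
    refine ⟨γ⁻¹, -lin γ⁻¹ v, fun X => ?_⟩
    rw [Equiv.Perm.inv_eq_iff_eq, h, map_add, map_neg, ← lin_mul, ← lin_mul, mul_inv_cancel,
      lin_one, lin_one]
    simp

/-- The affine map with given linear part and translation. -/
noncomputable def mk (γ : ℤˣ × SL(2, K)) (v : M) : Aff K :=
  ⟨{ toFun := fun X => lin γ X + v
     invFun := fun X => lin γ⁻¹ (X - v)
     left_inv := fun X => by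
       simp only [add_sub_cancel_right]
       rw [← lin_mul, inv_mul_cancel, lin_one]
     right_inv := fun X => by
       simp only
       rw [← lin_mul, mul_inv_cancel, lin_one]; simp },
   γ, v, fun _ => rfl⟩

theorem mk_apply (γ : ℤˣ × SL(2, K)) (v X : M) : (mk γ v).1 X = lin γ X + v := rfl

theorem pow_apply {σ : Equiv.Perm M} {γ : ℤˣ × SL(2, K)} {v : M} (h : ∀ X, σ X = lin γ X + v)
    (n : ℕ) : ∃ w, ∀ X, (σ ^ n) X = lin (γ ^ n) X + w := by
  induction n with
  | zero => exact ⟨0, fun X => by simp⟩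
  | succ n ih =>
    obtain ⟨w, hw⟩ := ih
    exact ⟨lin γ w + v, fun X => by simp [pow_succ', h, hw, add_assoc]⟩

theorem pow_six {σ : Equiv.Perm M} {e : ℤˣ} {v : M} (h : ∀ X, σ X = e • X + v) :
    (e = 1 → σ ^ 3 = 1) ∧ (e = -1 → σ ^ 2 = 1) := by
  constructor
  · rintro rfl
    ext1 X
    simp only [pow_succ, pow_zero, one_mul, Equiv.Perm.mul_apply, h, one_smul, Equiv.Perm.one_apply]
    have : (3 : K) • v = 0 := by rw [three_eq, zero_smul]
    linear_combination (norm := module) this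
  · rintro rfl
    ext1 X
    simp [pow_succ, h]

theorem pow_eq_one_of_fix {σ : Equiv.Perm M} {γ : ℤˣ × SL(2, K)} {v : M} [Finite K]
    (h : ∀ X, σ X = lin γ X + v) (hf : ∀ X, lin γ X = X → X = 0) {n : ℕ}
    (hn : ∀ X, lin (γ ^ n) X = X) : σ ^ n = 1 := by
  have hi : Function.Injective (fun X : M => X - lin γ X) := fun X Y e => by
    refine sub_eq_zero.1 (hf _ ?_)
    simp only at e
    rw [map_sub]; linear_combination (norm := abel) -e
  obtain ⟨X0, h0⟩ := Finite.surjective_of_injective hi v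
  have h1 : σ X0 = X0 := by rw [h, ← h0]; simp
  obtain ⟨w, hw⟩ := pow_apply h n
  have h2 : (σ ^ n) X0 = X0 := Equiv.Perm.pow_apply_eq_self_of_apply_eq_self h1 n
  rw [hw, hn] at h2
  ext1 X
  rw [hw, hn, add_eq_left.1 h2]; simp

theorem neg_one_not_sq [Fintype K] (hq : Fintype.card K % 4 = 3) (a : K) : a ^ 2 ≠ -1 := fun h =>
  FiniteField.isSquare_neg_one_iff.1 ⟨a, by rw [← h, sq]⟩ hq

theorem orderOf_dvd [Fintype K] (hq : Fintype.card K % 4 = 3) (σ : Aff K) :
    orderOf σ ∣ 6 ∨ orderOf σ ∣ 9 ∨ orderOf σ ∣ Fintype.card K - 1 ∨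
      orderOf σ ∣ (Fintype.card K + 1) / 2 := by
  obtain ⟨σ, hσ⟩ := σ
  simp only [Subgroup.orderOf_mk]
  obtain ⟨⟨e, g⟩, v, h⟩ := hσ
  simp only [orderOf_dvd_iff_pow_eq_one]
  have c3 : (g ^ 3 = 1 ∨ g ^ 3 = -1) → σ ^ 6 = 1 ∨ σ ^ 9 = 1 := fun h3 => by
    obtain ⟨w, hw⟩ := pow_apply h 3
    have := pow_six (σ := σ ^ 3) (e := e ^ 3) (v := w) fun X => by
      rw [hw, Prod.pow_mk, lin_of_pm h3]
    rcases Int.units_eq_one_or (e ^ 3) with h | h
    · right; rw [← this.1 h, ← pow_mul]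
    · left; rw [← this.2 h, ← pow_mul]
  by_cases h0 : H61.tr g = 0
  · left
    obtain ⟨w, hw⟩ := pow_apply h 2
    have := pow_six (σ := σ ^ 2) (e := e ^ 2) (v := w) fun X => by
      rw [hw, Prod.pow_mk, lin_of_pm (Or.inr (by rw [sq, H61.sl_mul_self_of_tr_zero h0]))]
    rw [← this.1 (Int.units_sq e), ← pow_mul]
  by_cases h1 : H61.tr g ^ 2 = 1
  · have : g ^ 3 = 1 ∨ g ^ 3 = -1 := by
      refine H61.sl_eq_of_smul_eq (a := 1) (b := -H61.tr g) one_ne_zero ?_
      rw [H61.sl_cube, h1]; simp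
    rcases c3 this with h | h
    exacts [Or.inl h, Or.inr (Or.inl h)]
  have hf := fun X => fix_eq_zero (neg_one_not_sq hq) (γ := (e, g)) h0 h1 (X := X)
  have he : ∀ n, Even n → e ^ n = 1 := fun n ⟨k, hk⟩ => by
    rw [hk, ← two_mul, pow_mul, Int.units_sq, one_pow]
  rcases H61.sl_orderOf_cases 3 g with h3 | h3 | h3
  · rw [← map_pow, H61.proj_eq_one_iff] at h3
    rcases c3 h3 with h | h
    exacts [Or.inl h, Or.inr (Or.inl h)]
  · rw [Nat.card_eq_fintype_card, orderOf_dvd_iff_pow_eq_one] at h3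
    refine Or.inr (Or.inr (Or.inl (pow_eq_one_of_fix h hf fun X => ?_)))
    rw [Prod.pow_mk, lin_of_pm (Or.inl h3), he _ ⟨(Fintype.card K - 1) / 2, by omega⟩, one_smul]
  · rw [Nat.card_eq_fintype_card, orderOf_dvd_iff_pow_eq_one] at h3
    refine Or.inr (Or.inr (Or.inr (pow_eq_one_of_fix h hf fun X => ?_)))
    rw [Prod.pow_mk, lin_of_pm, he _ ⟨(Fintype.card K + 1) / 4, by omega⟩, one_smul]
    refine H61.sl_eq_of_mul_self_eq_one two_ne ?_
    rw [← pow_add, ← h3]; congr 1; omega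

theorem dvd_orderOf_mk (e : ℤˣ) (g : SL(2, K)) (v : M) :
    orderOf e ∣ orderOf (mk (e, g) v) ∧ orderOf (H61.proj K g) ∣ orderOf (mk (e, g) v) := by
  set n := orderOf (mk (e, g) v)
  have h : (mk (e, g) v).1 ^ n = 1 := by
    rw [← Subgroup.coe_pow, pow_orderOf_eq_one]; rfl
  obtain ⟨w, hw⟩ := pow_apply (mk_apply (e, g) v) n
  rw [h] at hw
  have h0 := hw 0
  simp only [Equiv.Perm.coe_one, id_eq, map_zero, zero_add] at h0 hw
  have := of_lin_eq (γ := (e, g) ^ n) fun X => by simpa [← h0] using (hw X).symm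
  rw [orderOf_dvd_iff_pow_eq_one, orderOf_dvd_iff_pow_eq_one, ← map_pow, H61.proj_eq_one_iff]
  exact this

theorem exists_dvd_orderOf [Fintype K] (hq : Fintype.card K % 4 = 3) :
    (∃ σ : Aff K, 6 ∣ orderOf σ) ∧ (∃ σ : Aff K, 9 ∣ orderOf σ) ∧
      (∃ σ : Aff K, Fintype.card K - 1 ∣ orderOf σ) ∧
      ∃ σ : Aff K, (Fintype.card K + 1) / 2 ∣ orderOf σ := by
  have h2 : orderOf (-1 : ℤˣ) = 2 := orderOf_eq_prime (Int.units_sq _) (by decide)
  have hu3 : H61.upper (1 : K) ^ 3 = 1 ∨ H61.upper (1 : K) ^ 3 = -1 := by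
    refine H61.sl_eq_of_smul_eq (a := 1) (b := -H61.tr (H61.upper (1 : K))) one_ne_zero ?_
    have : H61.tr (H61.upper (1 : K)) ^ 2 - 1 = 0 := by
      simp only [H61.tr, H61.upper, H61.sl2]; simp
      linear_combination three_eq (K := K)
    rw [H61.sl_cube, this]; simp
  have hu : orderOf (H61.proj K (H61.upper 1)) = 3 := by
    refine orderOf_eq_prime ?_ ?_
    · rwa [← map_pow, H61.proj_eq_one_iff]
    · rw [Ne, H61.proj_eq_one_iff]
      rintro (h | h) <;> have := congrArg (fun g : SL(2, K) => g 0 1) h <;>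
        simp [H61.upper, H61.sl2] at this
  open H61 in
  obtain ⟨y, m⟩ := H61.main_psl (F := K) 3
  rw [Nat.card_eq_fintype_card, H61.gcd_two_of_odd (Nat.odd_iff.2 (by omega))] at m
  obtain ⟨a, ha⟩ := m.exists_orderOf_eq_d
  obtain ⟨b, hb⟩ := m.exists_orderOf_eq_n
  obtain ⟨a, rfl⟩ := H61.proj_surjective a
  obtain ⟨b, rfl⟩ := H61.proj_surjective b
  refine ⟨⟨mk (-1, H61.upper 1) 0, ?_⟩, ⟨mk (1, H61.upper 1) !![0, 0; 0, 1], ?_⟩,
    ⟨mk (-1, a) 0, ?_⟩, ⟨mk (1, b) 0, hb ▸ (dvd_orderOf_mk _ _ _).2⟩⟩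
  · have := dvd_orderOf_mk (-1) (H61.upper (1 : K)) 0
    rw [h2, hu] at this
    exact Nat.Coprime.mul_dvd_of_dvd_of_dvd (by norm_num : Nat.Coprime 2 3) this.1 this.2
  · set σ := mk (1, H61.upper (1 : K)) !![0, 0; 0, 1]
    have hne : σ ^ 3 ≠ 1 := fun h => by
      have := congrArg (fun τ : Aff K => τ.1 0 0 0) h
      have ht : tw (H61.upper (1 : K)) = !![1, 0; 1, 1] := by
        ext i j; fin_cases i <;> fin_cases j <;> simp [tw, H61.upper, H61.sl2]
      simp only [σ, pow_succ, pow_zero, one_mul, Subgroup.coe_mul, Equiv.Perm.mul_apply, mk_apply,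
        lin_apply, ht] at this
      simp [H61.upper, H61.sl2] at this
      exact two_ne (K := K) (by linear_combination this - three_eq (K := K))
    obtain ⟨w, hw⟩ := pow_apply (mk_apply (1, H61.upper (1 : K)) !![0, 0; 0, 1]) 3
    have h9 := (pow_six (e := 1 ^ 3) (v := w) fun X => by
      rw [hw, Prod.pow_mk, lin_of_pm hu3]).1 (one_pow 3)
    rw [orderOf_eq_prime_pow (p := 3) (n := 1) (x := σ) hne (Subtype.ext (by
      rw [← pow_mul] at h9; exact h9))]
    norm_num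
  · have := dvd_orderOf_mk (-1) a 0
    rw [h2, ha] at this
    have h := Nat.Coprime.mul_dvd_of_dvd_of_dvd
      ((Nat.coprime_two_left).2 (Nat.odd_iff.2 (by omega))) this.1 this.2
    rwa [show 2 * ((Fintype.card K - 1) / 2) = Fintype.card K - 1 by omega] at h

/-- The translations. -/
def Tr (K : Type*) [Field K] [CharP K 3] : Subgroup (Aff K) where
  carrier := {σ | ∃ v, ∀ X, σ.1 X = X + v}
  one_mem' := ⟨0, fun X => by simp⟩
  mul_mem' := by
    rintro a b ⟨v, h⟩ ⟨w, k⟩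
    exact ⟨w + v, fun X => by simp [h, k, add_assoc]⟩
  inv_mem' := by
    rintro a ⟨v, h⟩
    refine ⟨-v, fun X => ?_⟩
    rw [Subgroup.coe_inv, Equiv.Perm.inv_eq_iff_eq, h]; simp

instance : (Tr K).Normal := ⟨by
  rintro a ⟨v, h⟩ ⟨g, γ, w, hg⟩
  refine ⟨lin γ v, fun X => ?_⟩
  obtain ⟨Y, rfl⟩ := g.surjective X
  simp only [Subgroup.coe_mul, Subgroup.coe_inv, Equiv.Perm.mul_apply, Equiv.Perm.coe_inv,
    Equiv.symm_apply_apply, h]
  rw [hg, hg, map_add]; abel⟩

theorem tr_comm (a b : Tr K) : a * b = b * a := by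
  obtain ⟨a, v, h⟩ := a
  obtain ⟨b, w, k⟩ := b
  refine Subtype.ext (Subtype.ext (Equiv.ext fun X => ?_))
  change a.1 (b.1 X) = b.1 (a.1 X)
  rw [h, k, k, h]; abel

theorem tr_ne_bot : Tr K ≠ ⊥ := fun h => by
  have : mk (1 : ℤˣ × SL(2, K)) 1 ∈ Tr K := ⟨1, fun X => by rw [mk_apply, lin_one]⟩
  rw [h, Subgroup.mem_bot] at this
  have := congrArg (fun τ : Aff K => τ.1 0 0 0) this
  simp [mk_apply] at this

end H30.RA
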