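/- Tower RV (S5207), Monster part: homologies of order four in characteristic 13. -/
import Cfsg.Agent.H30.RvSpec

set_option autoImplicit false
set_option linter.unusedSectionVars false
set_option maxHeartbeats 400000

namespace H30.Rv

abbrev K : Type := ZMod 13
abbrev T4 : Type := K × K × K × K

instance : Fact (Nat.Prime 13) := ⟨by norm_num⟩

def mul4 (X Y : T4) : T4 :=
  (X.1 * Y.1 + X.2.1 * Y.2.2.1, X.1 * Y.2.1 + X.2.1 * Y.2.2.2,
    X.2.2.1 * Y.1 + X.2.2.2 * Y.2.2.1, X.2.2.1 * Y.2.1 + X.2.2.2 * Y.2.2.2)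
def one4 : T4 := (1, 0, 0, 1)
def pw4 (X : T4) : ℕ → T4
  | 0 => one4
  | n + 1 => mul4 (pw4 X n) X
def ev4 (j k : K) : List Bool → T4
  | [] => one4
  | t :: l => mul4 (cond t (1, 0, (j - 1) * k, j) (j, j - 1, 0, 1)) (ev4 j k l)
def WL : List (List Bool) := [[false, true], [false, false, false, true],
  [false, false, false, true, false, true], [false, false, false, true, false, true, true, true],
  [false, false, false, true, false, true, false, false, true, true],
  [false, false, false, true, false, false, true, true, false, true]]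

theorem words : ∀ j k : K, j * j = -1 → 2 * k = 1 ∨
    ∃ l ∈ WL, pw4 (pw4 (ev4 j k l) 12) 13 = one4 ∧ pw4 (ev4 j k l) 12 ≠ one4 := by decide +kernel

variable {M : Type*} [AddCommGroup M] [Module K M]

/-- `E` acts on the plane spanned by `y, y'` by the matrix `A` and trivially on the quotient -/
def Rel (y y' : M) (E : Module.End K M) (A : T4) : Prop :=
  E y = A.1 • y + A.2.2.1 • y' ∧ E y' = A.2.1 • y + A.2.2.2 • y' ∧
    ∀ m, ∃ s t : K, E m = m + s • y + t • y'

theorem Rel.one (y y' : M) : Rel y y' 1 one4 :=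
  ⟨by simp [one4], by simp [one4], fun m => ⟨0, 0, by simp⟩⟩

theorem Rel.mul {y y' : M} {E E' : Module.End K M} {A A' : T4} (h : Rel y y' E A)
    (h' : Rel y y' E' A') : Rel y y' (E * E') (mul4 A A') := by
  refine ⟨?_, ?_, fun m => ?_⟩
  · rw [Module.End.mul_apply, h'.1, map_add, map_smul, map_smul, h.1, h.2.1, mul4]; module
  · rw [Module.End.mul_apply, h'.2.1, map_add, map_smul, map_smul, h.1, h.2.1, mul4]; module
  · obtain ⟨s, t, e⟩ := h.2.2 m
    obtain ⟨s', t', e'⟩ := h'.2.2 m
    refine ⟨s + s' * A.1 + t' * A.2.1, t + s' * A.2.2.1 + t' * A.2.2.2, ?_⟩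
    rw [Module.End.mul_apply, e', map_add, map_add, map_smul, map_smul, h.1, h.2.1, e]; module

theorem Rel.pow {y y' : M} {E : Module.End K M} {A : T4} (h : Rel y y' E A) (n : ℕ) :
    Rel y y' (E ^ n) (pw4 A n) := by
  induction n with
  | zero => exact Rel.one y y'
  | succ n ih => rw [pow_succ]; exact ih.mul h

theorem Rel.pow13 {y y' : M} {E : Module.End K M} (h : Rel y y' E one4) : E ^ 13 = 1 := by
  have h1 : E y = y := by simpa [one4] using h.1
  have h2 : E y' = y' := by simpa [one4] using h.2.1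
  ext m
  obtain ⟨s, t, e⟩ := h.2.2 m
  have : ∀ n : ℕ, (E ^ n) m = m + (n : K) • (s • y + t • y') := fun n => by
    induction n with
    | zero => simp
    | succ n ih =>
      rw [pow_succ', Module.End.mul_apply, ih, map_add, map_smul, map_add, map_smul, map_smul, h1, h2, e]
      push_cast; module
  rw [this, show ((13 : ℕ) : K) = 0 from rfl, zero_smul, add_zero]; rfl

variable {N : Type*} [Group N] (φ : N →* Module.End K M)

/-- scalar multiples of the acting elements -/
def WW : Submonoid (Module.End K M) where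
  carrier := {E | ∃ c : K, c ≠ 0 ∧ ∃ n, E = c • φ n}
  one_mem' := ⟨1, one_ne_zero, 1, by simp⟩
  mul_mem' := by
    rintro _ _ ⟨c, hc, n, rfl⟩ ⟨d, hd, k, rfl⟩
    exact ⟨c * d, mul_ne_zero hc hd, n * k, by rw [map_mul, smul_mul_smul_comm]⟩

theorem mem_WW (n : N) : φ n ∈ WW φ := ⟨1, one_ne_zero, n, (one_smul _ _).symm⟩

variable {φ}

theorem WW_free (hp : ∀ n, φ n ^ 13 = 1 → φ n = 1) {E : Module.End K M} (hE : E ∈ WW φ)
    (h : E ^ 13 = 1) : E = 1 := by
  obtain ⟨c, hc, n, rfl⟩ := hE
  have c1 : c ^ 12 = 1 := ZMod.pow_card_sub_one_eq_one hc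
  have e : (c • φ n) ^ 12 = φ (n ^ 12) := by rw [smul_pow, c1, one_smul, map_pow]
  have h1 : (c • φ n) ^ 12 = 1 := e.trans (hp _ (by rw [← e, ← pow_mul, mul_comm, pow_mul, h, one_pow]))
  rwa [pow_succ, h1, one_mul] at h

variable (φ) in
/-- `t` fixes `y`, inverts the quotient, and the homology of order four with the same centre and axis acts -/
structure Root (j : K) (y : M) (t : N) : Prop where
  fix : φ t y = y
  inv : ∀ m, ∃ c : K, φ t m + m = (2 * c) • y
  hom : 1 + ((j - 1) * 7) • (φ t + 1) ∈ WW φ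

theorem two_seven : (2 : K) * 7 = 1 := by decide

theorem pair (hp : ∀ n, φ n ^ 13 = 1 → φ n = 1) {j : K} (hj : j * j = -1) {y y' : M} {t t' : N}
    (h : Root φ j y t) (h' : Root φ j y' t') {u u' : K} (hu : φ t y' + y' = (2 * u) • y)
    (hu' : φ t' y + y = (2 * u') • y') (u0 : u ≠ 0)
    (li : ∀ s s' : K, s • y + s' • y' = 0 → s = 0 ∧ s' = 0) : 2 * (u * u') = 1 := by
  refine (words j (u * u') hj).resolve_right ?_
  rintro ⟨l, -, e1, e2⟩
  have k : ∀ {c : K} {a : M}, ((j - 1) * 7) • (2 * c) • a = ((j - 1) * c) • a := fun {c a} => by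
    rw [smul_smul]; congr 1; linear_combination (j - 1) * c * two_seven
  have r : Rel (u • y) y' (1 + ((j - 1) * 7) • (φ t + 1)) (j, j - 1, 0, 1) := by
    refine ⟨?_, ?_, fun m => ?_⟩
    · have : φ t (u • y) + u • y = (2 * u) • y := by rw [map_smul, h.fix]; module
      simp only [LinearMap.add_apply, LinearMap.smul_apply, Module.End.one_apply, this, k]; module
    · simp only [LinearMap.add_apply, LinearMap.smul_apply, Module.End.one_apply, hu, k]; module
    · obtain ⟨c, e⟩ := h.inv m
      refine ⟨(j - 1) * c / u, 0, ?_⟩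
      simp only [LinearMap.add_apply, LinearMap.smul_apply, Module.End.one_apply, e, k]
      rw [smul_smul, div_mul_cancel₀ _ u0]; module
  have r' : Rel (u • y) y' (1 + ((j - 1) * 7) • (φ t' + 1)) (1, 0, (j - 1) * (u * u'), j) := by
    refine ⟨?_, ?_, fun m => ?_⟩
    · have : φ t' (u • y) + u • y = (2 * (u * u')) • y' := by
        rw [map_smul, ← smul_add, hu']; module
      simp only [LinearMap.add_apply, LinearMap.smul_apply, Module.End.one_apply, this, k]; module
    · have : φ t' y' + y' = (2 * 1 : K) • y' := by rw [h'.fix]; module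
      simp only [LinearMap.add_apply, LinearMap.smul_apply, Module.End.one_apply, this, k]; module
    · obtain ⟨c, e⟩ := h'.inv m
      refine ⟨0, (j - 1) * c, ?_⟩
      simp only [LinearMap.add_apply, LinearMap.smul_apply, Module.End.one_apply, e, k]; module
  have w : ∀ l, ∃ E ∈ WW φ, Rel (u • y) y' E (ev4 j (u * u') l) := fun l => by
    induction l with
    | nil => exact ⟨1, one_mem _, Rel.one _ _⟩
    | cons b l ih =>
      obtain ⟨E, a, c⟩ := ih
      cases b
      exacts [⟨_, mul_mem h.hom a, r.mul c⟩, ⟨_, mul_mem h'.hom a, r'.mul c⟩]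
  obtain ⟨E, a, c⟩ := w l
  have c1 := c.pow 12
  have c2 := c1.pow 13
  rw [e1] at c2
  have a1 := pow_mem a 12
  rw [WW_free hp a1 (WW_free hp (pow_mem a1 13) c2.pow13)] at c1
  generalize pw4 _ 12 = A at c1 e2
  obtain ⟨A, B, C, D⟩ := A
  have b1 := li ((A - 1) * u) C (by have := c1.1; simp only [Module.End.one_apply] at this
                                    linear_combination (norm := module) -this)
  have b2 := li (B * u) (D - 1) (by have := c1.2.1; simp only [Module.End.one_apply] at this
                                    linear_combination (norm := module) -this)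
  refine e2 ?_
  rw [sub_eq_zero.1 ((mul_eq_zero.1 b1.1).resolve_right u0), b1.2,
    (mul_eq_zero.1 b2.1).resolve_right u0, sub_eq_zero.1 b2.2]; rfl

theorem Root.cj {j : K} {y : M} {t : N} (h : Root φ j y t) (n : N) :
    Root φ j (φ n y) (n * t * n⁻¹) := by
  have e : ∀ m, φ n (φ n⁻¹ m) = m := fun m => by
    rw [← Module.End.mul_apply, ← map_mul, mul_inv_cancel, map_one]; rfl
  have e' : ∀ m, φ n⁻¹ (φ n m) = m := fun m => by
    rw [← Module.End.mul_apply, ← map_mul, inv_mul_cancel, map_one]; rfl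
  refine ⟨by simp only [map_mul, Module.End.mul_apply, e', h.fix], fun m => ?_, ?_⟩
  · obtain ⟨c, k⟩ := h.inv (φ n⁻¹ m)
    exact ⟨c, by rw [← map_smul, ← k, map_add, e, map_mul, map_mul]; rfl⟩
  · convert mul_mem (mul_mem (mem_WW φ n) h.hom) (mem_WW φ n⁻¹) using 1
    ext m
    simp [e]

theorem Root.uniq (hp : ∀ n, φ n ^ 13 = 1 → φ n = 1) {j : K} {y : M} {t t' : N} (h : Root φ j y t)
    (f : φ t' y = y) (i : ∀ m, ∃ c : K, φ t' m + m = (2 * c) • y) : Root φ j y t' := by
  have r : Rel y 0 (φ (t * t')) one4 := by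
    refine ⟨by simp [one4, f, h.fix], by simp [one4], fun m => ?_⟩
    obtain ⟨c, e⟩ := h.inv m
    obtain ⟨c', e'⟩ := i m
    refine ⟨2 * c' - 2 * c, 0, ?_⟩
    rw [map_mul, Module.End.mul_apply, eq_sub_of_add_eq e', map_sub, map_smul, h.fix,
      eq_sub_of_add_eq e]; module
  have e : φ t = φ t' := by
    ext m
    obtain ⟨c', e'⟩ := i m
    have k : φ t' (φ t' m) = m := by
      rw [eq_sub_of_add_eq e', map_sub, map_smul, f, eq_sub_of_add_eq e']; module
    have := LinearMap.congr_fun (hp _ r.pow13) (φ t' m)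
    rwa [map_mul, Module.End.mul_apply, k] at this
  exact ⟨f, i, e ▸ h.hom⟩

theorem half {a : M} (h : a = -a) : a = 0 := by
  have : ((2 : K) * 7) • a = 0 := by linear_combination (norm := module) (7 : K) • h
  rwa [two_seven, one_smul] at this

theorem fin3 {a2 a3 b1 b2 b3 c1 c2 c3 : K} (h2 : a2 ≠ 0) (h3 : a3 ≠ 0) (q1 : a2 * b1 + a3 * b2 - b3 = 0)
    (q2 : a2 * c1 + a3 * c2 - c3 = 0) (d : b1 * c2 - b2 * c1 ≠ 0) (l1 : b1 = 0 ∨ c1 = 0)
    (l2 : b2 = 0 ∨ c2 = 0) (l3 : b3 = 0 ∨ c3 = 0) : False := by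
  rcases l1 with rfl | rfl <;> rcases l2 with rfl | rfl <;> rcases l3 with rfl | rfl <;> simp_all

/-- there is no group of order prime to 13 with this configuration -/
theorem la (hp : ∀ n, φ n ^ 13 = 1 → φ n = 1) {z w s t u : N} {x e f g : M}
    (zs : z * s = s * z) (zu : z * u = u * z) (ht : t = s * z) (su : s * u * (s * u) = z)
    (ws : w * s = s * w) (wt : w * t = t * w) (wu : w * u = u * w) (ww : w * w = z)
    (x0 : x ≠ 0) (zx : φ z x = x) (wx : φ w x = -x) (sx : φ s x = -x) (ux : φ u x = -x)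
    (se : φ s e = e) (tf : φ t f = f) (ug : φ u g = g)
    (iz : ∀ m, ∃ c : K, φ z m + m = (2 * c) • x) (is : ∀ m, ∃ c : K, φ s m + m = (2 * c) • e)
    (it : ∀ m, ∃ c : K, φ t m + m = (2 * c) • f) (iu : ∀ m, ∃ c : K, φ u m + m = (2 * c) • g)
    (ce : ∃ n, φ n x = e) (cf : ∃ n, φ n x = f) (cg : ∃ n, φ n x = g) : False := by
  have cm : ∀ {a b : N}, a * b = b * a → ∀ m, φ a (φ b m) = φ b (φ a m) := fun h m => by
    rw [← Module.End.mul_apply, ← map_mul, h, map_mul]; rfl
  have nz : ∀ n {m}, m ≠ 0 → φ n m ≠ 0 := fun n m h k => h (by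
    have := congrArg (φ n⁻¹) k
    rwa [← Module.End.mul_apply, ← map_mul, inv_mul_cancel, map_one, map_zero] at this)
  obtain ⟨n1, h1⟩ := ce
  obtain ⟨n2, h2⟩ := cf
  obtain ⟨n3, h3⟩ := cg
  have e0 : e ≠ 0 := h1 ▸ nz n1 x0
  have f0 : f ≠ 0 := h2 ▸ nz n2 x0
  have g0 : g ≠ 0 := h3 ▸ nz n3 x0
  have tm : ∀ m, φ t m = φ s (φ z m) := fun m => by rw [ht, map_mul]; rfl
  have tx : φ t x = -x := by rw [tm, zx, sx]
  have zi : ∀ {a : N} {m}, z * a = a * z → φ a x = -x → φ a m = m → φ z m = -m := by
    intro a m h k l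
    obtain ⟨c, q⟩ := iz m
    have := congrArg (φ a) q
    rw [map_add, ← cm h, l, q, map_smul, k, smul_neg] at this
    exact eq_neg_of_add_eq_zero_left (q.trans (half this))
  have ze := zi zs sx se
  have zf := zi (by rw [ht, ← mul_assoc, zs]) tx tf
  have zg := zi zu ux ug
  have sf : φ s f = -f := by rw [tm, zf, map_neg] at tf; exact neg_eq_iff_eq_neg.1 tf
  have te : φ t e = -e := by rw [tm, ze, map_neg, se]
  have sp : ∀ m, ∃ a b c : K, m = a • x + b • e + c • f := fun m => by
    obtain ⟨a, ha⟩ := iz m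
    obtain ⟨b, hb⟩ := is m
    obtain ⟨c, hc⟩ := it m
    refine ⟨a, b, c, ?_⟩
    have q := congrArg (φ z) hb
    rw [map_add, cm zs, ← tm, map_smul, ze] at q
    have : ((2 : K) * 7) • m = ((2 : K) * 7) • (a • x + b • e + c • f) := by
      linear_combination (norm := module) (7 : K) • (ha + hb + hc - q - hb)
    rwa [two_seven, one_smul, one_smul] at this
  have li : ∀ a b c : K, a • x + b • e + c • f = 0 → a = 0 ∧ b = 0 ∧ c = 0 := fun a b c q => by
    have q1 := congrArg (φ z) q
    have q2 := congrArg (φ s) q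
    have q3 := congrArg (φ t) q
    simp only [map_add, map_smul, map_zero, zx, ze, zf, sx, se, sf, tx, te, tf] at q1 q2 q3
    refine ⟨(smul_eq_zero.1 (half ?_)).resolve_right x0, (smul_eq_zero.1 (half ?_)).resolve_right e0,
      (smul_eq_zero.1 (half ?_)).resolve_right f0⟩
    · linear_combination (norm := module) q + q1
    · linear_combination (norm := module) q + q2
    · linear_combination (norm := module) q + q3
  have ng : ∀ c : K, φ s g ≠ c • g ∨ (c ≠ 1 ∧ c ≠ -1) := fun c => by
    by_contra k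
    push Not at k
    have a : φ z g = (c * c) • g := by
      rw [← su]; simp only [map_mul, Module.End.mul_apply, ug, k.1, map_smul, smul_smul]
    have b : c * c = 1 := by
      by_cases d : c = 1
      · rw [d, one_mul]
      · rw [k.2 d]; ring
    rw [b, one_smul, zg] at a
    exact g0 (half a.symm)
  obtain ⟨a1, a2, a3, hg⟩ := sp g
  have a10 : a1 = 0 := by
    have q := zg
    rw [hg] at q
    simp only [map_add, map_smul, zx, ze, zf] at q
    exact (smul_eq_zero.1 (half (by linear_combination (norm := module) q))).resolve_right x0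
  rw [a10, zero_smul, zero_add] at hg
  have a20 : a2 ≠ 0 := fun q => (ng (-1)).elim
    (fun k => k (by rw [hg, q, zero_smul, zero_add, map_smul, sf]; module)) fun k => k.2 rfl
  have a30 : a3 ≠ 0 := fun q => (ng 1).elim
    (fun k => k (by rw [hg, q, zero_smul, add_zero, map_smul, se, one_smul])) fun k => k.1 rfl
  have wf : ∀ {a : N} {m}, w * a = a * w → φ a m = m → (∀ k, ∃ c : K, φ a k + k = (2 * c) • m) →
      ∃ c : K, φ w m = c • m := by
    intro a m h k l
    obtain ⟨c, q⟩ := l (φ w m)
    rw [← cm h, k] at q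
    refine ⟨c, ?_⟩
    have : ((2 : K) * 7) • φ w m = ((2 : K) * 7) • c • m := by
      linear_combination (norm := module) (7 : K) • q
    rwa [two_seven, one_smul, one_smul] at this
  obtain ⟨j, we⟩ := wf ws se is
  obtain ⟨j2, wf2⟩ := wf wt tf it
  obtain ⟨j3, wg⟩ := wf wu ug iu
  have jj : j2 = j := by
    rw [hg, map_add, map_smul, map_smul, we, wf2] at wg
    have q := li 0 (a2 * (j - j3)) (a3 * (j2 - j3)) (by linear_combination (norm := module) wg)
    rw [sub_eq_zero.1 ((mul_eq_zero.1 q.2.1).resolve_left a20),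
      sub_eq_zero.1 ((mul_eq_zero.1 q.2.2).resolve_left a30)]
  rw [jj] at wf2
  have hj : j * j = -1 := by
    have q := ze
    rw [← ww, map_mul, Module.End.mul_apply, we, map_smul, we] at q
    have := (li 0 (j * j + 1) 0 (by linear_combination (norm := module) q)).2.1
    linear_combination this
  have r0 : Root φ j x z := by
    refine ⟨zx, iz, -j, fun q => ?_, w, LinearMap.ext fun m => ?_⟩
    · rw [neg_eq_zero.1 q, mul_zero] at hj; exact absurd hj (by decide)
    · obtain ⟨a, b, c, rfl⟩ := sp m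
      simp only [LinearMap.add_apply, LinearMap.smul_apply, Module.End.one_apply, map_add, map_smul,
        zx, ze, zf, wx, we, wf2]
      match_scalars
      · linear_combination a * (j - 1) * two_seven
      · linear_combination b * hj
      · linear_combination c * hj
  have re : Root φ j e s := (h1 ▸ r0.cj n1).uniq hp se is
  have rf : Root φ j f t := (h2 ▸ r0.cj n2).uniq hp tf it
  have rg : Root φ j g u := (h3 ▸ r0.cj n3).uniq hp ug iu
  have es : ∀ m, φ s (φ n1 m) = φ n1 (φ z m) := fun m => by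
    obtain ⟨c, q⟩ := iz m
    obtain ⟨d, q'⟩ := is (φ n1 m)
    have r : Rel e 0 (φ (s * (n1 * z * n1⁻¹))) one4 := by
      have r1 := h1 ▸ r0.cj n1
      refine ⟨by rw [map_mul, Module.End.mul_apply, r1.fix, se]; simp [one4], by simp [one4], fun m => ?_⟩
      obtain ⟨c, e⟩ := is m
      obtain ⟨c', e'⟩ := r1.inv m
      refine ⟨2 * c' - 2 * c, 0, ?_⟩
      rw [map_mul, Module.End.mul_apply, eq_sub_of_add_eq e', map_sub, map_smul, se,
        eq_sub_of_add_eq e]; module
    have := LinearMap.congr_fun (hp _ r.pow13) (φ n1 (φ z m))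
    rw [← Module.End.mul_apply, ← map_mul, show s * (n1 * z * n1⁻¹) * n1 = s * n1 * z by group, map_mul,
      map_mul, Module.End.mul_apply, Module.End.mul_apply] at this
    rwa [show φ z (φ z m) = m by
      rw [eq_sub_of_add_eq q, map_sub, map_smul, zx, eq_sub_of_add_eq q]; module] at this
  have key : ∀ {y : M} {a : N}, Root φ j y a → φ z y = -y → φ a x = -x →
      ∃ b c : K, φ n1 y = b • x + c • f ∧ (b = 0 ∨ c = 0) := by
    intro y a r zy ax
    obtain ⟨b1, b2, b3, hb⟩ := sp (φ n1 y)
    have b20 : b2 = 0 := by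
      have q := es y
      rw [zy, map_neg, hb] at q
      simp only [map_add, map_smul, sx, se, sf] at q
      exact (smul_eq_zero.1 (half (by linear_combination (norm := module) q))).resolve_right e0
    rw [b20, zero_smul, add_zero] at hb
    refine ⟨b1, b3, hb, ?_⟩
    by_contra q
    push Not at q
    have rb := r.cj n1
    have be : φ (n1 * a * n1⁻¹) e = -e := by
      rw [← h1, ← Module.End.mul_apply, ← map_mul, inv_mul_cancel_right, map_mul, Module.End.mul_apply,
        ax, map_neg]
    rw [hb] at rb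
    obtain ⟨c1, k1⟩ := rb.inv f
    obtain ⟨c2, k2⟩ := rg.inv f
    have p1 := pair hp hj rf rb (u := b3) (by rw [map_add, map_smul, map_smul, tx, tf]; module) k1 q.2
      fun s s' k => by
        have := li (s' * b1) 0 (s + s' * b3) (by linear_combination (norm := module) k)
        have z1 := (mul_eq_zero.1 this.1).resolve_right q.1
        exact ⟨by simpa [z1] using this.2.2, z1⟩
    have p2 := pair hp hj rf rg (u := a3) (by rw [hg, map_add, map_smul, map_smul, te, tf]; module) k2 a30
      fun s s' k => by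
        have := li 0 (s' * a2) (s + s' * a3) (by rw [hg] at k; linear_combination (norm := module) k)
        have z1 := (mul_eq_zero.1 this.2.1).resolve_right a20
        exact ⟨by simpa [z1] using this.2.2, z1⟩
    have p3 := pair hp hj rg rb (u := b3 * c2) (u' := a3 * c1)
      (by rw [map_add, map_smul, map_smul, ux]; linear_combination (norm := module) b3 • k2)
      (by rw [hg, map_add, map_smul, map_smul, be]; linear_combination (norm := module) a3 • k1)
      (mul_ne_zero q.2 fun k => by rw [k] at p2; simp at p2)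
      fun s s' k => by
        have := li (s' * b1) (s * a2) (s * a3 + s' * b3) (by
          rw [hg] at k; linear_combination (norm := module) k)
        exact ⟨(mul_eq_zero.1 this.2.1).resolve_right a20, (mul_eq_zero.1 this.1).resolve_right q.1⟩
    have : (2 : K) = 1 := by linear_combination p1 * (2 * (a3 * c2)) + p2 - 2 * p3
    exact absurd this (by decide)
  obtain ⟨b1, c1, k1, l1⟩ := key re ze sx
  obtain ⟨b2, c2, k2, l2⟩ := key rf zf tx
  obtain ⟨b3, c3, k3, l3⟩ := key rg zg ux
  have k4 := k3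
  rw [hg, map_add, map_smul, map_smul, k1, k2] at k4
  have q := li (a2 * b1 + a3 * b2 - b3) 0 (a2 * c1 + a3 * c2 - c3) (by linear_combination (norm := module) k4)
  have d : b1 * c2 - b2 * c1 ≠ 0 := fun d => by
    have q1 := li 0 c2 (-c1) (by_contra fun k => nz n1 k (by
      rw [zero_smul, zero_add, map_add, map_smul, map_smul, k1, k2]
      linear_combination (norm := module) d • x))
    have q2 := li 0 b2 (-b1) (by_contra fun k => nz n1 k (by
      rw [zero_smul, zero_add, map_add, map_smul, map_smul, k1, k2]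
      linear_combination (norm := module) (-d) • f))
    exact nz n1 f0 (by rw [k2, q1.2.1, q2.2.1]; simp)
  exact fin3 a20 a30 q.1 q.2.2 d l1 l2 l3

end H30.Rv
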