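import Cfsg.Agent.H58.SOSpec
import Cfsg.Agent.S0297
import Cfsg.Agent.S0303
import Cfsg.Agent.S0283
import Cfsg.Agent.S0300

/-! Tower SIM (S3694), chapter OUT: job Om. -/

set_option autoImplicit false

namespace H30.SOOm

open Subgroup Cfsg H98 Matrix H0.Sim H58.SO

theorem exists_sq_field (F : Type) [Field F] [Fintype F] :
    ∃ (K : Type) (_ : Field K) (_ : Fintype K), Fintype.card K = Fintype.card F ^ 2 := by
  obtain ⟨r, hr, f, hp, hc⟩ := FiniteField.card' F
  haveI : Fact r.Prime := ⟨hp⟩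
  letI : Fintype (GaloisField r ((f : ℕ) * 2)) := Fintype.ofFinite _
  refine ⟨GaloisField r ((f : ℕ) * 2), inferInstance, inferInstance, ?_⟩
  rw [← Nat.card_eq_fintype_card, GaloisField.card r _ (mul_ne_zero f.ne_zero two_ne_zero), hc,
    pow_mul]

theorem jobOm : H58.SO.JobOm := by
  intro m F _ _ a b hm hab
  by_cases h4 : 4 ≤ m
  · exact hc_simple (Cfsg.Agent.S0297.result m h4 a b hab)
  obtain ⟨K, _, _, hK⟩ := exists_sq_field F
  have h2 : 2 ≤ Fintype.card F := Fintype.one_lt_card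
  obtain rfl | rfl : m = 2 ∨ m = 3 := by omega
  · obtain ⟨e⟩ := Cfsg.Agent.S0300.result rfl hK a b hab
    refine hc_equiv e.symm (hc_simple (Matrix.ProjectiveSpecialLinearGroup.rank_two_simple ?_))
    rw [Nat.card_eq_fintype_card, hK]
    nlinarith
  · obtain ⟨e⟩ := Cfsg.Agent.S0303.result rfl hK a b hab
    exact hc_equiv e.symm (hc_simple (Cfsg.Agent.S0283.result hK 4 (by norm_num) (by omega)))

end H30.SOOm
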