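import Cfsg.Agent.Base
import Cfsg.Agent.H18.Elt

/-! Tower SQ (S4132): specification.  Proofs: `blueprints/SQ.md`. -/

set_option autoImplicit false

open Cfsg Subgroup

namespace H30.SQ

universe u

/-- every element of prime power order has class size satisfying `Q` -/
def PP (Q : ℕ → Prop) (G : Type*) [Group G] : Prop :=
  ∀ x : G, (∃ r k : ℕ, r.Prime ∧ orderOf x = r ^ k) → Q (centralizer ({x} : Set G)).index

/-- `4` divides no class size of an element of prime power order -/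
abbrev P4 (G : Type*) [Group G] : Prop := PP (fun m => ¬ 4 ∣ m) G

/-- square-free class sizes of elements of prime power order -/
abbrev SF (G : Type*) [Group G] : Prop := PP Squarefree G

variable {G : Type*} [Group G]

/-- `w ∈ T` and `C_T(w)` has index at most `2` in `T` -/
def Br (T : Subgroup G) (w : G) : Prop :=
  w ∈ T ∧ ∀ a ∈ T, ∀ b ∈ T, Commute a w ∨ Commute b w ∨ Commute (a * b) w

/-- `z ∈ Z(T)` -/
def Cen (T : Subgroup G) (z : G) : Prop := z ∈ T ∧ ∀ s ∈ T, Commute s z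

/-- every conjugate `y ∈ T` of `x` is carried to `x` by an element carrying `C_T(y)` into `T` -/
def Ext (T : Subgroup G) (x : G) : Prop :=
  x ∈ T ∧ ∀ y ∈ T, IsConj y x → ∃ h : G, h * y * h⁻¹ = x ∧ ∀ s ∈ T, Commute s y → h * s * h⁻¹ ∈ T

/-- the local hypotheses on a Sylow `2`-subgroup `T` of exponent `2 n` -/
structure Hy (T : Subgroup G) (n : ℕ) : Prop where
  pg : IsPGroup 2 T
  odd : ¬ 2 ∣ T.index
  ev : ∃ m : ℕ, n = 2 ^ (m + 1)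
  ex : ∀ x ∈ T, x ^ (2 * n) = 1
  top : ∃ x ∈ T, x ^ n ≠ 1
  br : ∀ x ∈ T, ∃ g : G, Br T (g * x * g⁻¹) ∧ Ext T (g * x * g⁻¹)
  cen : ∀ z : G, Cen T z → Ext T z
  nsc : ∀ A : Subgroup G, A ≠ ⊥ → IsMulCommutative A → ¬ IsStronglyClosed A T

/-- the subgroup generated by the top powers of the elements of breadth at most one -/
def AA (T : Subgroup G) (n : ℕ) : Subgroup G := closure {a | ∃ w : G, Br T w ∧ a = w ^ n}

/-- the set-up of part 2 (`A = AA T n`) -/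
structure SE (T A U : Subgroup G) : Prop where
  UT : U ≤ T
  Ac : ∀ a ∈ A, Cen T a ∧ a * a = 1
  Az : ∀ a ∈ A, ∀ y : G, Cen T y → IsConj a y → y ∈ A
  ZU : ∀ z : G, Cen T z → z ∈ U
  ne : ∃ s ∈ T, s ∉ U
  syl : ¬ 2 ∣ (T ⊓ normalizer (U : Set G)).relIndex (normalizer (U : Set G))
  K : ∀ t ∈ U, (∀ u ∈ U, Commute u t) → (∃ a ∈ A, IsConj a t) → t ∉ A →
    ∀ s ∈ T, Commute s t → s ∈ U
  mv : ∃ x ∈ normalizer (U : Set G), ∃ a ∈ A, x * a * x⁻¹ ∉ A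

/-- `ν` acts on `U` as a transvection with centre `z` -/
structure NU (T U : Subgroup G) (ν z : G) : Prop where
  νT : ν ∈ T
  νU : ν ∉ U
  zc : Cen T z
  z1 : z ≠ 1
  z2 : z * z = 1
  mv : ∀ u ∈ U, Commute u ν ∨ ν * u * ν⁻¹ = u * z
  ix : ∀ a ∈ U, ∀ b ∈ U, Commute a ν ∨ Commute b ν ∨ Commute (a * b) ν

/-- the conclusion of job LF -/
def LF (T A U : Subgroup G) (ν z : G) : Prop :=
  ∀ x ∈ normalizer (U : Set G), ∀ a ∈ A, x * a * x⁻¹ ∉ A →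
    ¬ Commute (x * z * x⁻¹) ν ∧ ¬ Commute z (x * ν * x⁻¹) ∧ ¬ Commute a (x * ν * x⁻¹) ∧
      ∀ σ ∈ T, σ ∈ normalizer (U : Set G) → σ ∈ U ∨ ν⁻¹ * σ ∈ U

/-- the output of job C2 -/
structure MID (T U Ux : Subgroup G) (n : ℕ) (w c z v a : G) : Prop where
  UT : U ≤ T
  xU : Ux ≤ U
  ix : ∀ s ∈ U, ∀ t ∈ U, s ∈ Ux ∨ t ∈ Ux ∨ s * t ∈ Ux
  ZU : ∀ y : G, Cen T y → y ∈ U
  br : Br T w
  wn : Cen T (w ^ n)
  ax : w ^ n ∉ Ux
  wc : Commute w c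
  oc : orderOf c = n
  zc : z = c ^ (n / 2)
  zx : z ∉ Ux
  a2 : a * a = 1
  aw : a * w * a⁻¹ = w * c
  Ca : ∀ s ∈ T, (Commute s a ↔ s ∈ U)
  aU : a ∈ U
  vU : v ∈ U
  vc : ∀ u ∈ U, Commute u v
  v2 : v * v = 1
  vw : v * w * v⁻¹ = w * c
  vz : IsConj z v
  sig : ∀ σ ∈ T, σ ∈ normalizer (U : Set G) → σ ∈ U ∨ (w ^ (n / 2))⁻¹ * σ ∈ U

/-- `T = U₁ ∘ ⟨w, v⟩` -/
structure ST (T U₁ : Subgroup G) (n : ℕ) (w v c z : G) : Prop where
  le : U₁ ≤ T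
  wT : w ∈ T
  vT : v ∈ T
  cw : ∀ u ∈ U₁, Commute u w
  cv : ∀ u ∈ U₁, Commute u v
  v2 : v * v = 1
  vw : v * w * v⁻¹ = w * c
  wc : Commute w c
  oc : orderOf c = n
  zc : z = c ^ (n / 2)
  az : w ^ n * z ∈ U₁
  zU : z ∉ U₁
  ze : w * w * c ∈ U₁ ∨ w * w * c * z ∈ U₁
  gen : ∀ s ∈ T, ∃ u ∈ U₁, ∃ i : ℕ, s = u * w ^ i ∨ s = u * w ^ i * v
  vz : IsConj z v

/-- `U₀ = C_T(w, v)` -/
def U0 (T : Subgroup G) (w v : G) : Subgroup G := T ⊓ centralizer ({w, v} : Set G)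

/-- calculus in `ST` -/
structure KT (T U₁ : Subgroup G) (n : ℕ) (w v c z : G) : Prop where
  cT : c ∈ T
  vc : v * c * v⁻¹ = c⁻¹
  uc : ∀ u ∈ U₁, Commute u c
  zc : Cen T z
  z1 : z ≠ 1
  z2 : z * z = 1
  uq : ∀ j : ℤ, c ^ j ≠ 1 → ∃ k : ℕ, (c ^ j) ^ k = z
  cU : ∀ j : ℤ, c ^ j ∈ U₁ → c ^ j = 1
  u0 : ∀ s : G, s ∈ U0 T w v ↔ s ∈ U₁ ∨ s * z ∈ U₁
  br : Br T w
  jw : ∀ s ∈ T, s * w * s⁻¹ = w ∨ s * w * s⁻¹ = w * c
  jv : ∀ s ∈ T, ∃ j : ℤ, s * v * s⁻¹ = c ^ j * v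
  jc : ∀ s ∈ T, s * c * s⁻¹ = c ∨ s * c * s⁻¹ = c⁻¹
  iv : ∀ s ∈ T, s * s = 1 → Commute s w → s ∈ U0 T w v
  ze : Cen T (w * w * c)
  zi : ∀ i : ℕ, (w ^ i * v) ^ 2 = (w * w * c) ^ i
  zn : (w * w * c) ^ (n / 2) = w ^ n * z
  wn : Cen T (w ^ n)
  wU : w ^ n ∉ U₁
  sq : ∀ s ∈ U0 T w v, s * s ∈ U₁
  wv : ∀ i : ℤ, w ^ i * v * (w ^ i)⁻¹ = c ^ (-i) * v
  vi : ∀ i : ℤ, v * w ^ i * v⁻¹ = w ^ i * c ^ i
  nu : ∀ s ∈ T, ¬ Commute s w → w ^ (n / 2) * s * (w ^ (n / 2))⁻¹ = s * z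
  act : ∀ s ∈ T, ∃ u ∈ U₁, ∃ d ∈ closure ({w, v} : Set G), s = u * d

/-- the conjugates of `z` in `T` -/
def WS (T : Subgroup G) (z : G) : Set G := {t | t ∈ T ∧ IsConj z t}

/-- the final structure -/
structure FS (T U₀ : Subgroup G) (z ν v : G) : Prop where
  le : U₀ ≤ T
  zU : z ∈ U₀
  zc : Cen T z
  z1 : z ≠ 1
  z2 : z * z = 1
  νT : ν ∈ T
  νc : ∀ u ∈ U₀, Commute u ν
  mv : ∀ s ∈ T, ¬ Commute s ν → ν * s * ν⁻¹ = s * z
  iv : ∀ s ∈ T, s * s = 1 → Commute s ν → s ∈ U₀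
  sU : ∀ t ∈ U₀, IsConj z t → t = z
  cS : ∀ t ∈ WS T z, t ≠ z → ∀ s ∈ T, (Commute s t ↔ s ∈ U₀ ∨ s * t ∈ U₀)
  two : ∀ t ∈ WS T z, t ≠ z → ∀ t' ∈ WS T z, t' ≠ z → Commute t t' → t' = t ∨ t' = t * z
  vS : v ∈ WS T z
  vz : v ≠ z
  cyc : ∃ y ∈ T, ∀ t ∈ WS T z, t ≠ z → ∀ t' ∈ WS T z, t' ≠ z → t * t' ∈ zpowers y
  cl : ∃ v' ∈ WS T z, v' ≠ z ∧
    (∀ t ∈ WS T z, t ≠ z → ∃ h ∈ T, (∀ u ∈ U₀, Commute u h) ∧ (t = h * v * h⁻¹ ∨ t = h * v' * h⁻¹)) ∧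
    (v' = v ∨ ∃ M : Subgroup G, M ≤ T ∧ z ∈ M ∧ (∀ s ∈ M, s * s = 1 → s = 1 ∨ IsConj z s) ∧
      ∀ s ∈ T, ∃ u ∈ U₀, s * u ∈ M)
  gen : ∀ s ∈ T, ∃ u ∈ U₀, ∃ d ∈ T, (∀ y ∈ U₀, Commute y d) ∧ s = u * d

/-- `r` acts on `U₀⟨t⟩` as a transvection with centre `t` moving `z` -/
def RP (U₀ : Subgroup G) (z t r : G) : Prop :=
  r * t * r⁻¹ = t ∧ r * z * r⁻¹ = z * t ∧ ∀ u ∈ U₀, Commute u r ∨ Commute (u * z) r

/-! ### Jobs -/

def JobHy : Prop := ∀ (G : Type u) [Group G] [Finite G] (T : Sylow 2 G), P4 G →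
  ¬ IsMulCommutative (T : Subgroup G) →
  (∀ A : Subgroup G, A ≠ ⊥ → IsMulCommutative A → ¬ IsStronglyClosed A T) → ∃ n, Hy (T : Subgroup G) n

def JobSE : Prop := ∀ (G : Type u) [Group G] [Finite G] (T : Subgroup G) (n : ℕ), Hy T n →
  ∃ U : Subgroup G, SE T (AA T n) U

def JobC1 : Prop := ∀ (G : Type u) [Group G] [Finite G] (T A U : Subgroup G) (n : ℕ), Hy T n →
  SE T A U → ∀ w : G, Br T w → w ^ n ∈ A → ∀ x ∈ normalizer (U : Set G), x * w ^ n * x⁻¹ ∉ A → w ∉ U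

def JobLF : Prop := ∀ (G : Type u) [Group G] [Finite G] (T A U : Subgroup G) (ν z : G),
  IsPGroup 2 T → SE T A U → NU T U ν z → LF T A U ν z

def JobC2 : Prop := ∀ (G : Type u) [Group G] [Finite G] (T A U : Subgroup G) (n : ℕ), Hy T n →
  SE T A U → (∀ ν z : G, NU T U ν z → LF T A U ν z) → ∀ w : G, Br T w → w ^ n ∈ A → w ∉ U →
  ∀ x ∈ normalizer (U : Set G), x * w ^ n * x⁻¹ ∉ A →
    ∃ (Ux : Subgroup G) (c z v a : G), MID T U Ux n w c z v a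

def JobC3 : Prop := ∀ (G : Type u) [Group G] [Finite G] (T U Ux : Subgroup G) (n : ℕ)
  (w c z v a : G), Hy T n → MID T U Ux n w c z v a →
    ST T (Ux ⊓ centralizer ({w} : Set G)) n w v c z

def JobKT : Prop := ∀ (G : Type u) [Group G] [Finite G] (T U₁ : Subgroup G) (n : ℕ)
  (w v c z : G), Hy T n → ST T U₁ n w v c z → KT T U₁ n w v c z

def JobN4 : Prop := ∀ (G : Type u) [Group G] [Finite G] (T U₁ : Subgroup G) (n : ℕ)
  (w v c z : G), Hy T n → ST T U₁ n w v c z → KT T U₁ n w v c z →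
    ∀ k ∈ normalizer (T : Set G), k * z * k⁻¹ = z

def JobS5 : Prop := ∀ (G : Type u) [Group G] [Finite G] (T U₁ : Subgroup G) (n : ℕ)
  (w v c z : G), Hy T n → ST T U₁ n w v c z → KT T U₁ n w v c z →
    (∀ k ∈ normalizer (T : Set G), k * z * k⁻¹ = z) → ∀ t ∈ U0 T w v, IsConj z t → t = z

/-- the fields `two` and `cS` of `FS` -/
def S6a (T : Subgroup G) (w v z : G) : Prop :=
  (∀ t ∈ WS T z, t ≠ z → ∀ t' ∈ WS T z, t' ≠ z → Commute t t' → t' = t ∨ t' = t * z) ∧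
  (∀ t ∈ WS T z, t ≠ z → ∀ s ∈ T, (Commute s t ↔ s ∈ U0 T w v ∨ s * t ∈ U0 T w v))

def JobS6a : Prop := ∀ (G : Type u) [Group G] [Finite G] (T U₁ : Subgroup G) (n : ℕ)
  (w v c z : G), Hy T n → ST T U₁ n w v c z → KT T U₁ n w v c z →
    (∀ t ∈ U0 T w v, IsConj z t → t = z) → S6a T w v z

def JobS6b : Prop := ∀ (G : Type u) [Group G] [Finite G] (T U₁ : Subgroup G) (n : ℕ)
  (w v c z : G), Hy T n → ST T U₁ n w v c z → KT T U₁ n w v c z →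
    (∀ t ∈ U0 T w v, IsConj z t → t = z) → S6a T w v z → FS T (U0 T w v) z (w ^ (n / 2)) v

def JobR : Prop := ∀ (G : Type u) [Group G] [Finite G] (T U₀ : Subgroup G) (n : ℕ) (z ν v : G),
  Hy T n → FS T U₀ z ν v → ∀ t ∈ WS T z, t ≠ z → ∃ r : G, RP U₀ z t r

def JobF : Prop := ∀ (G : Type u) [Group G] [Finite G] (T U₀ : Subgroup G) (n : ℕ) (z ν v : G),
  Hy T n → FS T U₀ z ν v → ∀ t ∈ WS T z, t ≠ z → ∀ r : G, RP U₀ z t r →
    ∀ x ∈ U₀, x ∈ ⁅centralizer (WS T z), centralizer (WS T z)⁆ → Commute x r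

def JobNC : Prop := ∀ (G : Type u) [Group G] [Finite G] (T U₀ : Subgroup G) (n : ℕ) (z ν v : G),
  Hy T n → FS T U₀ z ν v → T ⊓ centralizer (WS T z) = U₀ ∧
    ¬ 2 ∣ U₀.relIndex (centralizer (WS T z)) ∧
    ∀ g : G, (∀ t ∈ WS T z, g * t * g⁻¹ ∈ T) →
      ∃ τ ∈ T, ∃ h ∈ centralizer (WS T z), g = τ * h ∧ ∃ τ' ∈ T, ∃ h' ∈ centralizer (WS T z), g⁻¹ = τ' * h'

def JobSol : Prop := ∀ (G : Type u) [Group G] [Finite G] (H P V : Subgroup G),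
  Group.IsSolvable H → P ≤ H → IsPGroup 2 P → ¬ 2 ∣ P.relIndex H → V ≤ P → V ≠ ⊥ →
  (∀ x ∈ P, x ∈ ⁅H, H⁆ → x ∈ V) →
    ∃ E : Subgroup G, E ≤ V ∧ E ≠ ⊥ ∧ IsMulCommutative E ∧ (∀ f ∈ E, f * f = 1) ∧
      ∀ f ∈ E, ∀ h ∈ H, h * f * h⁻¹ ∈ P → h * f * h⁻¹ ∈ E

def JobCL : Prop := ∀ (G : Type u) [Group G] [Finite G] (T U₀ : Subgroup G) (n : ℕ) (z ν v : G),
  Hy T n → FS T U₀ z ν v → ∀ E : Subgroup G, E ≤ U₀ → z ∉ E → (∀ f ∈ E, f * f = 1) →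
  (∀ g : G, (∀ t ∈ WS T z, g * t * g⁻¹ ∈ T) → ∀ f ∈ T, g * f * g⁻¹ ∈ T → (f ∈ E ↔ g * f * g⁻¹ ∈ E)) →
  (∀ t ∈ WS T z, t ≠ z → ∃ h : G, (∀ f ∈ E, Commute f h) ∧ h * z * h⁻¹ = t) →
    IsStronglyClosed E T

def JobP4C : Prop := ∀ (G : Type u) [Group G] [Finite G] (T : Subgroup G) (z : G),
  P4 G → IsPGroup 2 T → ¬ 2 ∣ T.index → P4 (centralizer (WS T z))

/-- the conclusion of the local analysis -/
def Four (T : Subgroup G) : Prop :=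
  ∃ v ∈ T, orderOf v = 2 ∧ Nat.card ↥(T ⊓ centralizer ({v} : Set G)) = 4

def JobEnd : Prop := JobR.{u} → JobF.{u} → JobNC.{u} → JobSol.{u} → JobCL.{u} →
  ∀ (G : Type u) [Group G] [Finite G] (T U₀ : Subgroup G) (n : ℕ) (z ν v : G),
  Hy T n → FS T U₀ z ν v → (∀ M : Subgroup G, M.index ≠ 2) →
    Group.IsSolvable (centralizer (WS T z)) → Four T

def JobSEm : Prop := ∀ (G : Type u) [Group G] [Finite G] (H : Subgroup G),
  IsStronglyEmbedded H → 4 ∣ Nat.card G → ¬ P4 G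

def JobL3 : Prop := ∀ (F : Type) [Field F] [Fintype F], Odd (Fintype.card F) →
  ∃ x : Matrix.ProjectiveSpecialLinearGroup (Fin 3) F, (∃ r k : ℕ, r.Prime ∧ orderOf x = r ^ k) ∧
    ∀ t : Matrix.ProjectiveSpecialLinearGroup (Fin 3) F, Commute t x → orderOf t ≠ 2

def JobU3 : Prop := ∀ (F : Type) [Field F] [Fintype F] (q : ℕ), Fintype.card F = q ^ 2 → Odd q →
  ∃ x : PSU 3 F q, (∃ r k : ℕ, r.Prime ∧ orderOf x = r ^ k) ∧
    ∀ t : PSU 3 F q, Commute t x → orderOf t ≠ 2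

def JobQD : Prop := JobL3 → JobU3 → ∀ (G : Type u) [Group G] [Finite G] [IsSimpleGroup G]
  (T : Sylow 2 G), IsQuasiDihedral (T : Subgroup G) → ¬ P4 G

/-- the local theorem -/
def Loc : Prop := ∀ (G : Type u) [Group G] [Finite G] (T : Subgroup G) (n : ℕ), Hy T n →
  (∀ M : Subgroup G, M.index ≠ 2) →
  (∀ z ∈ T, z ≠ 1 → Group.IsSolvable (centralizer (WS T z))) → Four T

def QD : Prop := ∀ (G : Type u) [Group G] [Finite G] [IsSimpleGroup G]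
  (T : Sylow 2 G), IsQuasiDihedral (T : Subgroup G) → ¬ P4 G

def JobTop : Prop := JobHy.{u} → Loc.{u} → JobP4C.{u} → JobSEm.{u} → QD.{u} →
  ∀ (G : Type u) [Group G] [Finite G], P4 G → Group.IsSolvable G

def JobSS : Prop := ∀ (G : Type u) [Group G] [Finite G], Group.IsSolvable G → SF G →
  IsSupersolvable G

def JobEx : Prop := ∀ (G : Type u) [Group G] [Finite G], IsSupersolvable G → SF G →
  ∀ _h : (fittingSubgroup G).Normal, Squarefree (Monoid.exponent (G ⧸ fittingSubgroup G))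

def JobFD : Prop := ∀ (G : Type u) [Group G] [Finite G], Group.IsNilpotent G → SF G →
  Squarefree (Nat.card (commutator G))

/-! ### Kit -/

theorem cj_pow (g x : G) (n : ℕ) : (g * x * g⁻¹) ^ n = g * x ^ n * g⁻¹ := conj_pow

/-- L1: no element of order `4 n`. -/
theorem L1 {w y : G} {n : ℕ} (h1 : Commute w (y * w * y⁻¹)) (h2 : Commute (y * y) w)
    (hw : w ^ (2 * n) = 1) (hy : y ^ (2 * n) = 1) (hwy : (w * y) ^ (2 * n) = 1) :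
    Commute y (w ^ n) := by
  have h3 : Commute (y * y) (y * w * y⁻¹) := by
    have e := h2.eq
    show y * y * (y * w * y⁻¹) = y * w * y⁻¹ * (y * y)
    calc y * y * (y * w * y⁻¹) = y * (y * y * w) * y⁻¹ := by group
      _ = _ := by rw [e]; group
  have e : (w * y) ^ 2 = w * (y * w * y⁻¹) * (y * y) := by rw [sq]; group
  rw [pow_mul, e, (h2.symm.mul_left h3.symm).mul_pow, h1.mul_pow, ← sq, ← pow_mul, hy, mul_one,
    cj_pow] at hwy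
  have e2 : w ^ n * w ^ n = 1 := by rw [← pow_add, ← two_mul, hw]
  have e3 : y * w ^ n * y⁻¹ = w ^ n := by
    rw [eq_inv_of_mul_eq_one_right hwy, eq_comm, eq_inv_iff_mul_eq_one, e2]
  show y * w ^ n = w ^ n * y
  rw [← e3]; conv_lhs => rw [e3]
  conv_rhs => rw [e3]
  exact (mul_inv_eq_iff_eq_mul.mp e3)

theorem Br.sq {T : Subgroup G} {w s : G} (h : Br T w) (hs : s ∈ T) : Commute (s * s) w := by
  rcases h.2 s hs s hs with h | h | h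
  · exact h.mul_left h
  · exact h.mul_left h
  · exact h

theorem Br.conj {T : Subgroup G} {w s : G} (h : Br T w) (hs : s ∈ T) :
    Commute w (s * w * s⁻¹) := by
  by_cases h0 : Commute s w
  · rw [h0.eq, mul_inv_cancel_right]
  rcases h.2 s hs (w * s⁻¹) (T.mul_mem h.1 (T.inv_mem hs)) with h1 | h1 | h1
  · exact absurd h1 h0
  · refine absurd ?_ h0
    have := ((Commute.refl w).inv_left.mul_left h1).inv_left
    simpa using this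
  · rw [mul_assoc]; exact h1.symm

/-- top powers of elements of breadth at most one are central -/
theorem Hy.top_cen {T : Subgroup G} {n : ℕ} (H : Hy T n) {w : G} (h : Br T w) : Cen T (w ^ n) :=
  ⟨T.pow_mem h.1 n, fun s hs => L1 (h.conj hs) (h.sq hs) (H.ex w h.1) (H.ex s hs)
    (H.ex _ (T.mul_mem h.1 hs))⟩

/-- V1: a `2`-element of `H` is conjugate into a Sylow `2`-subgroup `P` of `H` -/
theorem syl_conj [Finite G] {P H Q : Subgroup G} (hPH : P ≤ H) (hP : IsPGroup 2 P)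
    (ho : ¬ 2 ∣ P.relIndex H) (hQ : IsPGroup 2 Q) (hQH : Q ≤ H) :
    ∃ h ∈ H, ∀ s ∈ Q, h * s * h⁻¹ ∈ P := by
  have := Fact.mk Nat.prime_two
  let P' : Sylow 2 H := (hP.comap_subtype (K := H)).toSylow ho
  obtain ⟨Q', hQ'⟩ := (hQ.comap_subtype (K := H)).exists_le_sylow
  obtain ⟨h, hh⟩ := MulAction.exists_smul_eq H Q' P'
  refine ⟨h, h.2, fun s hs => ?_⟩
  have h1 : (⟨s, hQH hs⟩ : H) ∈ (Q' : Subgroup H) := hQ' hs
  have h2 : h * ⟨s, hQH hs⟩ * h⁻¹ ∈ ((h • Q' : Sylow 2 H) : Subgroup H) :=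
    Subgroup.smul_mem_pointwise_smul _ (MulAut.conj h) _ h1
  rw [hh] at h2
  exact h2

theorem PP.normal [Finite G] {Q : ℕ → Prop} (hQ : ∀ a b, a ∣ b → Q b → Q a) (h : PP Q G)
    (N : Subgroup G) [N.Normal] : PP Q N := fun x hx =>
  hQ _ _ (H18.index_centralizer_normal_dvd N x) (h x (by rwa [orderOf_coe]))

theorem PP.map [Finite G] {Q : ℕ → Prop} (hQ : ∀ a b, a ∣ b → Q b → Q a) (h : PP Q G)
    {H : Type*} [Group H] (f : G →* H) (hf : Function.Surjective f) : PP Q H := by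
  rintro y ⟨r, k, hr, hy⟩
  obtain ⟨x, rfl, j, hx⟩ := H18.exists_lift_primePow f hf hr ⟨k, hy⟩
  exact hQ _ _ (H18.index_centralizer_map_dvd f hf x) (h x ⟨r, j, hr, hx⟩)

/-- a `2`-element outside a proper subgroup `U` of the `2`-group `T`, normalising `U` -/
theorem ex_sig [Finite G] {T U : Subgroup G} (hT : IsPGroup 2 T) (hU : U ≤ T)
    (hne : ∃ s ∈ T, s ∉ U) : ∃ σ ∈ T, σ ∈ normalizer (U : Set G) ∧ σ ∉ U ∧ σ * σ ∈ U := by
  have := Fact.mk Nat.prime_two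
  have hN : Group.IsNilpotent T := hT.isNilpotent
  have hlt : U.subgroupOf T < ⊤ := by
    obtain ⟨s, hs, h⟩ := hne
    exact lt_top_iff_ne_top.mpr fun e => h (show (⟨s, hs⟩ : T) ∈ U.subgroupOf T from e ▸ mem_top _)
  obtain ⟨g, hg, hg'⟩ := SetLike.exists_of_lt (normalizerCondition_of_isNilpotent _ hlt)
  have hn : (g : G) ∈ normalizer (U : Set G) := fun y => by
    constructor
    · intro hy
      exact (hg ⟨y, hU hy⟩).mp hy
    · intro hy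
      have hyT : y ∈ T := by
        have := T.mul_mem (T.mul_mem (T.inv_mem g.2) (hU hy)) g.2
        simpa [mul_assoc] using this
      exact (hg ⟨y, hyT⟩).mpr hy
  obtain ⟨k, hk⟩ := hT g
  have hex : ∃ j, (g : G) ^ 2 ^ j ∈ U := ⟨k, by
    rw [show (g : G) ^ 2 ^ k = 1 from congrArg Subtype.val hk]; exact U.one_mem⟩
  classical
  have h0 : Nat.find hex ≠ 0 := fun e => hg' (by
    have := Nat.find_spec hex
    rw [e, pow_zero, pow_one] at this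
    exact this)
  obtain ⟨j, hj⟩ := Nat.exists_eq_succ_of_ne_zero h0
  refine ⟨(g : G) ^ 2 ^ j, T.pow_mem g.2 _, pow_mem hn _, Nat.find_min hex (by omega), ?_⟩
  have := Nat.find_spec hex
  rwa [hj, pow_succ, pow_mul, sq] at this

theorem p4_dvd : ∀ a b : ℕ, a ∣ b → ¬ 4 ∣ b → ¬ 4 ∣ a := fun _ _ h1 h2 h3 => h2 (h3.trans h1)

theorem sf_dvd : ∀ a b : ℕ, a ∣ b → Squarefree b → Squarefree a := fun _ _ h1 h2 =>
  h2.squarefree_of_dvd h1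

theorem SF.p4 (h : SF G) : P4 G := fun x hx h4 =>
  absurd (Nat.isUnit_iff.mp (h x hx 2 h4)) (by norm_num)

end H30.SQ
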