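import Cfsg.Agent.Base

/-! Schur rings over finite abelian groups: the Schur-Wielandt theorem. -/

set_option autoImplicit false
set_option maxHeartbeats 400000

namespace H30.SR

variable {H : Type*} [CommGroup H] [Fintype H] [DecidableEq H]

/-- The point stabilizer of a group containing the translations. -/
structure IsS (K : Subgroup (Equiv.Perm H)) : Prop where
  one : ∀ τ ∈ K, τ 1 = 1
  mul : ∀ τ ∈ K, ∀ a : H, ∃ τ' ∈ K, ∀ h : H, τ (a * h) = τ a * τ' h

variable {K : Subgroup (Equiv.Perm H)}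

/-- Invariant finite set. -/
def Inv (K : Subgroup (Equiv.Perm H)) (X : Finset H) : Prop := ∀ τ ∈ K, ∀ x ∈ X, τ x ∈ X

theorem Inv.iff {X : Finset H} (hX : Inv K X) {τ : Equiv.Perm H} (hτ : τ ∈ K) (x : H) :
    τ x ∈ X ↔ x ∈ X := by
  refine ⟨fun h => ?_, hX τ hτ x⟩
  have := hX τ⁻¹ (K.inv_mem hτ) _ h
  simpa using this

theorem IsS.div (hK : IsS K) {τ : Equiv.Perm H} (hτ : τ ∈ K) (a : H) :
    ∃ τ' ∈ K, ∀ h : H, (τ a)⁻¹ * τ h = τ' (a⁻¹ * h) := by
  obtain ⟨τ', h1, h2⟩ := hK.mul τ hτ a
  refine ⟨τ', h1, fun h => ?_⟩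
  have := h2 (a⁻¹ * h)
  rw [mul_inv_cancel_left] at this
  rw [this, inv_mul_cancel_left]

theorem IsS.closure_inv (hK : IsS K) (Y : Set H) (hY : ∀ τ ∈ K, ∀ y ∈ Y, τ y ∈ Y) :
    ∀ τ ∈ K, ∀ h ∈ Subgroup.closure Y, τ h ∈ Subgroup.closure Y := by
  intro τ hτ h hh
  induction hh using Subgroup.closure_induction generalizing τ with
  | mem x hx => exact Subgroup.subset_closure (hY τ hτ x hx)
  | one => rw [hK.one τ hτ]; exact one_mem _
  | mul x y _ _ ihx ihy =>
    obtain ⟨τ', h1, h2⟩ := hK.mul τ hτ x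
    rw [h2]
    exact mul_mem (ihx τ hτ) (ihy τ' h1)
  | inv x _ ih =>
    obtain ⟨τ', h1, h2⟩ := hK.div hτ x⁻¹
    have := h2 1
    rw [hK.one τ hτ, mul_one, mul_one, inv_inv] at this
    have h3 := ih τ' h1
    rw [← this] at h3
    simpa using h3

noncomputable def ind (R : Type*) [Semiring R] (X : Finset H) : MonoidAlgebra R H :=
  ∑ x ∈ X, MonoidAlgebra.single x 1

theorem coeff_ind_mul {R : Type*} [Semiring R] (X : Finset H) (g : MonoidAlgebra R H) (h : H) :
    (ind R X * g).coeff h = ∑ x ∈ X, g.coeff (x⁻¹ * h) := by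
  rw [ind, Finset.sum_mul, MonoidAlgebra.coeff_sum, Finsupp.finset_sum_apply]
  refine Finset.sum_congr rfl fun x _ => ?_
  rw [MonoidAlgebra.coeff_single_mul_apply, one_mul]

theorem IsS.pow_inv (hK : IsS K) {R : Type*} [Semiring R] {X : Finset H} (hX : Inv K X) (k : ℕ) :
    ∀ τ ∈ K, ∀ h : H, (ind R X ^ k).coeff (τ h) = (ind R X ^ k).coeff h := by
  induction k with
  | zero =>
    intro τ hτ h
    rw [pow_zero, MonoidAlgebra.one_def, MonoidAlgebra.coeff_single_apply,
      MonoidAlgebra.coeff_single_apply]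
    have : (1 : H) = τ h ↔ 1 = h := by
      constructor
      · intro e
        apply τ.injective
        rw [hK.one τ hτ, e]
      · rintro rfl
        exact (hK.one τ hτ).symm
    simp only [this]
  | succ k ih =>
    intro τ hτ h
    rw [pow_succ', coeff_ind_mul, coeff_ind_mul]
    symm
    refine Finset.sum_bij (fun x _ => τ x) (fun x hx => hX τ hτ x hx)
      (fun a _ b _ e => τ.injective e)
      (fun b hb => ⟨τ⁻¹ b, hX _ (K.inv_mem hτ) _ hb, by simp⟩) ?_
    intro x _
    obtain ⟨τ', h1, h2⟩ := hK.div hτ x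
    rw [h2, ih τ' h1]

theorem coeff_ind_pow (p : ℕ) [hp : Fact p.Prime] (X : Finset H) (h : H) :
    (ind (ZMod p) X ^ p).coeff h = ((X.filter fun x => x ^ p = h).card : ZMod p) := by
  haveI : CharP (MonoidAlgebra (ZMod p) H) p :=
    charP_of_injective_algebraMap (R := ZMod p) (algebraMap (ZMod p) _).injective p
  rw [ind, sum_pow_char, MonoidAlgebra.coeff_sum, Finsupp.finset_sum_apply, Finset.card_filter]
  push_cast
  refine Finset.sum_congr rfl fun x _ => ?_
  rw [MonoidAlgebra.single_pow, one_pow, MonoidAlgebra.coeff_single_apply]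

/-- Primitivity. -/
def Prim (K : Subgroup (Equiv.Perm H)) : Prop :=
  ∀ L : Subgroup H, (∀ τ ∈ K, ∀ h ∈ L, τ h ∈ L) → L = ⊥ ∨ L = ⊤

theorem IsS.dvd_fiber (hK : IsS K) (hP : Prim K) (p : ℕ) [hp : Fact p.Prime]
    (hns : ∃ h : H, ∀ x : H, x ^ p ≠ h) {X : Finset H} (hX : Inv K X) (h : H) (hh : h ≠ 1) :
    p ∣ (X.filter fun x => x ^ p = h).card := by
  set Y : Set H := {y | (ind (ZMod p) X ^ p).coeff y ≠ 0} with hY
  have hYi : ∀ τ ∈ K, ∀ y ∈ Y, τ y ∈ Y := by
    intro τ hτ y hy
    simp only [hY, Set.mem_setOf_eq] at hy ⊢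
    rwa [hK.pow_inv hX p τ hτ y]
  have hle : Subgroup.closure Y ≤ (powMonoidHom p : H →* H).range := by
    rw [Subgroup.closure_le]
    intro y hy
    simp only [hY, Set.mem_setOf_eq, coeff_ind_pow] at hy
    have : (X.filter fun x => x ^ p = y).Nonempty := by
      rw [← Finset.card_pos, Nat.pos_iff_ne_zero]
      intro e
      rw [e] at hy
      exact hy (by simp)
    obtain ⟨x, hx⟩ := this
    exact ⟨x, (Finset.mem_filter.1 hx).2⟩
  rcases hP _ (hK.closure_inv Y hYi) with h0 | h0
  · by_contra hc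
    have : h ∈ Y := by
      simp only [hY, Set.mem_setOf_eq, coeff_ind_pow]
      rwa [Ne, ZMod.natCast_eq_zero_iff]
    have := Subgroup.subset_closure this
    rw [h0] at this
    exact hh (by simpa using this)
  · obtain ⟨y, hy⟩ := hns
    rw [h0] at hle
    obtain ⟨x, hx⟩ := hle (Subgroup.mem_top y)
    exact absurd hx (hy x)

theorem IsS.mul_mem (hK : IsS K) (hP : Prim K) (p : ℕ) [hp : Fact p.Prime]
    (hns : ∃ h : H, ∀ x : H, x ^ p ≠ h)
    (hU : (Finset.univ.filter fun u : H => u ^ p = 1).card ≤ p)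
    {X : Finset H} (hX : Inv K X) {x : H} (hx : x ∈ X) (hxp : x ^ p ≠ 1) {u : H}
    (hu : u ^ p = 1) : u * x ∈ X := by
  have h1 := hK.dvd_fiber hP p hns hX _ hxp
  have h2 : 0 < (X.filter fun y => y ^ p = x ^ p).card :=
    Finset.card_pos.2 ⟨x, Finset.mem_filter.2 ⟨hx, rfl⟩⟩
  have h3 := Nat.le_of_dvd h2 h1
  set F := (Finset.univ.filter fun u : H => u ^ p = 1).image (fun u => u * x) with hF
  have hFc : F.card ≤ p := Finset.card_image_le.trans hU
  have hsub : (X.filter fun y => y ^ p = x ^ p) ⊆ F := by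
    intro y hy
    rw [Finset.mem_filter] at hy
    refine Finset.mem_image.2 ⟨y * x⁻¹, Finset.mem_filter.2 ⟨Finset.mem_univ _, ?_⟩, by simp⟩
    rw [mul_pow, hy.2, inv_pow, mul_inv_cancel]
  have heq := Finset.eq_of_subset_of_card_le hsub (hFc.trans h3)
  have : u * x ∈ F := Finset.mem_image.2 ⟨u, Finset.mem_filter.2 ⟨Finset.mem_univ _, hu⟩, rfl⟩
  rw [← heq] at this
  exact (Finset.mem_filter.1 this).1

/-- The coefficient of `X X⁻¹`. -/
def cc (X : Finset H) (h : H) : ℕ := (X.filter fun x => h⁻¹ * x ∈ X).card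

theorem IsS.cc_le (hK : IsS K) {X : Finset H} (hX : Inv K X) {τ : Equiv.Perm H} (hτ : τ ∈ K)
    (h : H) : cc X h ≤ cc X (τ h) := by
  refine Finset.card_le_card_of_injOn τ ?_ (τ.injective.injOn)
  intro x hx
  rw [Finset.mem_coe, Finset.mem_filter] at hx ⊢
  obtain ⟨τ', h1, h2⟩ := hK.div hτ h
  refine ⟨hX τ hτ x hx.1, ?_⟩
  rw [h2]
  exact hX τ' h1 _ hx.2

theorem sum_cc (X : Finset H) : ∑ h, cc X h = X.card * X.card := by
  simp only [cc, Finset.card_filter]
  rw [Finset.sum_comm, Finset.card_eq_sum_ones X, Finset.sum_mul]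
  refine Finset.sum_congr rfl fun x _ => ?_
  rw [one_mul, ← Finset.card_filter, ← Finset.card_eq_sum_ones]
  refine Finset.card_bij (fun h _ => h⁻¹ * x) (fun h hh => (Finset.mem_filter.1 hh).2)
    (fun a _ b _ e => by simpa using e) (fun y hy => ⟨x * y⁻¹, ?_, by simp⟩)
  simpa using hy

/-- An invariant set stable under a nontrivial translation is everything. -/
theorem IsS.one_mem (hK : IsS K) (hP : Prim K) {X : Finset H} (hX : Inv K X) {u : H} (hu : u ≠ 1)
    (hst : ∀ x ∈ X, u⁻¹ * x ∈ X) {x : H} (hx : x ∈ X) : (1 : H) ∈ X := by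
  set Y : Set H := {y | ∀ x ∈ X, y⁻¹ * x ∈ X} with hY
  have hcc : ∀ y, y ∈ Y ↔ X.card ≤ cc X y := by
    intro y
    constructor
    · intro hy
      refine Finset.card_le_card fun x hx => Finset.mem_filter.2 ⟨hx, hy x hx⟩
    · intro hy x hx
      have := Finset.eq_of_subset_of_card_le (Finset.filter_subset (fun x => y⁻¹ * x ∈ X) X) hy
      rw [← this] at hx
      exact (Finset.mem_filter.1 hx).2
  have hYi : ∀ τ ∈ K, ∀ y ∈ Y, τ y ∈ Y := by
    intro τ hτ y hy
    rw [hcc] at hy ⊢
    exact hy.trans (hK.cc_le hX hτ y)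
  have hcl : ∀ y ∈ Subgroup.closure Y, y ∈ Y := by
    intro y hy
    rw [← Subgroup.mem_toSubmonoid, Subgroup.closure_toSubmonoid_of_finite] at hy
    induction hy using Submonoid.closure_induction with
    | mem z hz => exact hz
    | one => intro x hx; simpa using hx
    | mul a b _ _ iha ihb =>
      intro x hx
      rw [mul_inv_rev, mul_assoc]
      exact ihb _ (iha x hx)
  rcases hP _ (hK.closure_inv Y hYi) with h0 | h0
  · have : u ∈ Subgroup.closure Y := Subgroup.subset_closure hst
    rw [h0] at this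
    exact absurd (by simpa using this) hu
  · have := hcl x (h0 ▸ Subgroup.mem_top x) x hx
    simpa using this

open Classical in
/-- The suborbit of `x`. -/
noncomputable def orb (K : Subgroup (Equiv.Perm H)) (x : H) : Finset H :=
  Finset.univ.filter fun y => ∃ τ ∈ K, τ x = y

theorem mem_orb {x y : H} : y ∈ orb K x ↔ ∃ τ ∈ K, τ x = y := by
  simp [orb]

theorem orb_inv (x : H) : Inv K (orb K x) := by
  intro τ hτ y hy
  obtain ⟨σ, hσ, rfl⟩ := mem_orb.1 hy
  exact mem_orb.2 ⟨τ * σ, K.mul_mem hτ hσ, rfl⟩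

theorem self_mem_orb (x : H) : x ∈ orb K x := mem_orb.2 ⟨1, K.one_mem, rfl⟩

theorem IsS.one_not_mem (hK : IsS K) {x : H} (hx : x ≠ 1) : (1 : H) ∉ orb K x := by
  intro h
  obtain ⟨σ, hσ, e⟩ := mem_orb.1 h
  exact hx (σ.injective (e.trans (hK.one σ hσ).symm))

theorem IsS.large (hK : IsS K) (hP : Prim K) (p : ℕ) [hp : Fact p.Prime]
    (hns : ∃ h : H, ∀ x : H, x ^ p ≠ h)
    (hU : (Finset.univ.filter fun u : H => u ^ p = 1).card = p)
    (hne : ∃ h : H, h ^ p ≠ 1) {x : H} (hx : x ≠ 1) :
    Fintype.card H ≤ 2 * (orb K x).card := by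
  by_contra hlt
  push Not at hlt
  obtain ⟨u0, hu0, hu1⟩ : ∃ u : H, u ^ p = 1 ∧ u ≠ 1 := by
    by_contra hc
    push Not at hc
    have : (Finset.univ.filter fun u : H => u ^ p = 1) ⊆ {1} := by
      intro u hu
      simpa using hc u (Finset.mem_filter.1 hu).2
    have := Finset.card_le_card this
    rw [hU, Finset.card_singleton] at this
    exact absurd hp.out.two_le (by omega)
  -- every nontrivial element is conjugate to an element of `U`
  have hmeet : ∀ h : H, h ≠ 1 → ∃ τ ∈ K, ∃ u : H, u ^ p = 1 ∧ τ u = h := by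
    intro h hh
    by_contra hc
    push Not at hc
    have hno : ∀ y ∈ orb K h, y ^ p ≠ 1 := by
      intro y hy e
      obtain ⟨σ, hσ, rfl⟩ := mem_orb.1 hy
      exact hc σ⁻¹ (K.inv_mem hσ) _ e (by simp)
    refine hK.one_not_mem hh (hK.one_mem hP (orb_inv h) hu1 ?_ (self_mem_orb h))
    intro y hy
    exact hK.mul_mem hP p hns hU.le (orb_inv h) hy (hno y hy) (by rw [inv_pow, hu0, inv_one])
  set X := orb K x with hXdef
  have hX : Inv K X := orb_inv x
  set A := X.filter fun y => y ^ p ≠ 1 with hA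
  set D := X.filter fun y => y ^ p = 1 with hD
  have hAD : D.card + A.card = X.card := Finset.card_filter_add_card_filter_not _
  have hDp : D.card + 1 ≤ p := by
    have h1 : (1 : H) ∉ D := fun h => hK.one_not_mem hx (Finset.mem_filter.1 h).1
    rw [← Finset.card_insert_of_notMem h1, ← hU]
    refine Finset.card_le_card fun y hy => ?_
    rw [Finset.mem_insert] at hy
    rcases hy with rfl | hy
    · simp
    · exact Finset.mem_filter.2 ⟨Finset.mem_univ _, (Finset.mem_filter.1 hy).2⟩
  have hcc : ∀ h : H, A.card ≤ cc X h := by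
    have hu : ∀ u : H, u ^ p = 1 → A.card ≤ cc X u := by
      intro u hu
      refine Finset.card_le_card fun y hy => ?_
      rw [Finset.mem_filter] at hy
      exact Finset.mem_filter.2 ⟨hy.1, hK.mul_mem hP p hns hU.le hX hy.1 hy.2
        (by rw [inv_pow, hu, inv_one])⟩
    intro h
    by_cases hh : h = 1
    · exact hu h (by rw [hh, one_pow])
    · obtain ⟨τ, hτ, u, hu', rfl⟩ := hmeet h hh
      exact (hu u hu').trans (hK.cc_le hX hτ u)
  have hc1 : cc X 1 = X.card := by
    simp only [cc, inv_one, one_mul]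
    rw [Finset.filter_true_of_mem fun x hx => hx]
  have hsum := sum_cc X
  rw [← Finset.add_sum_erase _ _ (Finset.mem_univ (1 : H)), hc1] at hsum
  have hge : (Finset.univ.erase (1 : H)).card * A.card ≤ ∑ h ∈ Finset.univ.erase (1 : H), cc X h := by
    rw [← smul_eq_mul]
    exact Finset.card_nsmul_le_sum _ _ _ fun h _ => hcc h
  rw [Finset.card_erase_of_mem (Finset.mem_univ _), Finset.card_univ] at hge
  have hk : 0 < X.card := Finset.card_pos.2 ⟨x, self_mem_orb x⟩
  have h2 : X.card * (2 * A.card + 1) ≤ X.card * X.card := by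
    have : 2 * X.card * A.card ≤ (Fintype.card H - 1) * A.card :=
      Nat.mul_le_mul_right _ (by omega)
    nlinarith
  have h3 := Nat.le_of_mul_le_mul_left h2 hk
  have hA0 : A = ∅ := by
    by_contra hc
    obtain ⟨y, hy⟩ := Finset.nonempty_iff_ne_empty.2 hc
    have hy' := Finset.mem_filter.1 hy
    have : p ≤ A.card := by
      rw [← hU]
      refine Finset.card_le_card_of_injOn (fun u => u * y) ?_ (fun a _ b _ e => by simpa using e)
      intro u hu
      rw [Finset.mem_coe, Finset.mem_filter] at hu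
      refine Finset.mem_coe.2 (Finset.mem_filter.2
        ⟨hK.mul_mem hP p hns hU.le hX hy'.1 hy'.2 hu.2, ?_⟩)
      rw [mul_pow, hu.2, one_mul]
      exact hy'.2
    omega
  have hall : ∀ y ∈ X, y ^ p = 1 := by
    intro y hy
    by_contra hc
    have : y ∈ A := Finset.mem_filter.2 ⟨hy, hc⟩
    rw [hA0] at this
    simp at this
  have hle : Subgroup.closure (X : Set H) ≤ (powMonoidHom p : H →* H).ker := by
    rw [Subgroup.closure_le]
    intro y hy
    exact hall y hy
  rcases hP _ (hK.closure_inv (X : Set H) hX) with h0 | h0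
  · have : x ∈ Subgroup.closure (X : Set H) := Subgroup.subset_closure (self_mem_orb x)
    rw [h0] at this
    exact hx (by simpa using this)
  · obtain ⟨h, hh⟩ := hne
    rw [h0] at hle
    exact hh (hle (Subgroup.mem_top h))

/-- Schur-Wielandt: a primitive Schur ring of orbits over an abelian group with a cyclic Sylow
`p`-subgroup, of order not `p`, has rank two. -/
theorem IsS.trans (hK : IsS K) (hP : Prim K) (p : ℕ) [hp : Fact p.Prime]
    (hns : ∃ h : H, ∀ x : H, x ^ p ≠ h)
    (hU : (Finset.univ.filter fun u : H => u ^ p = 1).card = p)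
    (hne : ∃ h : H, h ^ p ≠ 1) {x y : H} (hx : x ≠ 1) (hy : y ≠ 1) : ∃ τ ∈ K, τ x = y := by
  by_contra hc
  have hdis : Disjoint (orb K x) (orb K y) := by
    rw [Finset.disjoint_left]
    intro z h1 h2
    obtain ⟨σ, hσ, rfl⟩ := mem_orb.1 h1
    obtain ⟨ρ, hρ, e⟩ := mem_orb.1 h2
    exact hc ⟨ρ⁻¹ * σ, K.mul_mem (K.inv_mem hρ) hσ, by simp [← e]⟩
  have h1 := hK.large hP p hns hU hne hx
  have h2 := hK.large hP p hns hU hne hy
  have h3 : (orb K x ∪ orb K y).card ≤ (Finset.univ.erase (1 : H)).card := by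
    refine Finset.card_le_card fun z hz => Finset.mem_erase.2 ⟨?_, Finset.mem_univ _⟩
    rintro rfl
    rcases Finset.mem_union.1 hz with h | h
    · exact hK.one_not_mem hx h
    · exact hK.one_not_mem hy h
  rw [Finset.card_union_of_disjoint hdis, Finset.card_erase_of_mem (Finset.mem_univ _),
    Finset.card_univ] at h3
  have : 0 < Fintype.card H := Fintype.card_pos
  omega

open MulAction in
/-- A primitive group with a regular abelian subgroup (given by a homomorphism) having exactly
`p` solutions of `u ^ p = 1`, of exponent not `p`, is doubly transitive. -/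
theorem two_trans {G Ω : Type*} [Group G] [MulAction G Ω] (hprim : IsPreprimitive G Ω)
    (f : H →* G) (a : Ω) (hbij : Function.Bijective fun h : H => f h • a)
    (p : ℕ) [hp : Fact p.Prime] (hns : ∃ h : H, ∀ x : H, x ^ p ≠ h)
    (hU : (Finset.univ.filter fun u : H => u ^ p = 1).card = p)
    (hne : ∃ h : H, h ^ p ≠ 1) : IsMultiplyPretransitive G Ω 2 := by
  let e : H ≃ Ω := Equiv.ofBijective _ hbij
  have he : ∀ h, e h = f h • a := fun _ => rfl
  let φ : G →* Equiv.Perm H := (e.symm.permCongrHom : Equiv.Perm Ω →* Equiv.Perm H).comp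
    (MulAction.toPermHom G Ω)
  have hφ : ∀ g h, e (φ g h) = g • e h := by
    intro g h
    simp [φ]
  let K : Subgroup (Equiv.Perm H) := (stabilizer G a).map φ
  have hK : IsS K := by
    constructor
    · rintro _ ⟨g, hg, rfl⟩
      apply e.injective
      rw [hφ, he, map_one, one_smul]
      exact hg
    · rintro _ ⟨g, hg, rfl⟩ b
      refine ⟨φ ((f (φ g b))⁻¹ * g * f b), ⟨_, ?_, rfl⟩, fun h => ?_⟩
      · rw [SetLike.mem_coe, mem_stabilizer_iff, mul_smul, mul_smul, ← he, ← hφ, he,
          inv_smul_smul]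
      · apply e.injective
        rw [hφ, he (φ g b * _), map_mul f, mul_smul, ← he, hφ, mul_smul, mul_smul, smul_inv_smul,
          he, he, map_mul, mul_smul]
  haveI : Nontrivial Ω := by
    obtain ⟨h, hh⟩ := hne
    refine ⟨⟨e h, e 1, fun h1 => hh ?_⟩⟩
    rw [e.injective h1, one_pow]
  have hP : Prim K := by
    intro L hL
    have hdec : ∀ g : G, ∃ s ∈ stabilizer G a, g = f (e.symm (g • a)) * s := by
      intro g
      refine ⟨(f (e.symm (g • a)))⁻¹ * g, ?_, by simp⟩
      rw [mem_stabilizer_iff, mul_smul, inv_smul_eq_iff, ← he, Equiv.apply_symm_apply]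
    have hkey : ∀ s ∈ stabilizer G a, ∀ l l' : H, l ∈ L → l' ∈ L →
        e.symm (f l • s • f l' • a) ∈ L := by
      intro s hs l l' hl hl'
      have h1 := hL (φ s) ⟨s, hs, rfl⟩ l' hl'
      rw [← he, ← hφ, he, ← mul_smul, ← map_mul, ← he, Equiv.symm_apply_apply]
      exact L.mul_mem hl h1
    let M : Subgroup G :=
      { carrier := {g | e.symm (g • a) ∈ L}
        one_mem' := by
          have : e.symm a = 1 := by rw [Equiv.symm_apply_eq, he, map_one, one_smul]
          simp only [Set.mem_setOf_eq, one_smul, this]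
          exact L.one_mem
        mul_mem' := by
          intro x y hx hy
          obtain ⟨s, hs, h1⟩ := hdec x
          have h2 : y • a = f (e.symm (y • a)) • a := by rw [← he, Equiv.apply_symm_apply]
          simp only [Set.mem_setOf_eq] at hx hy ⊢
          rw [mul_smul, h2, h1, mul_smul]
          exact hkey s hs _ _ hx hy
        inv_mem' := by
          intro x hx
          obtain ⟨s, hs, h1⟩ := hdec x
          simp only [Set.mem_setOf_eq] at hx ⊢
          have := hkey s⁻¹ (inv_mem hs) 1 _ L.one_mem (L.inv_mem hx)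
          rw [map_one, one_smul, map_inv, ← mul_smul, ← mul_inv_rev, ← h1] at this
          exact this }
    have hM : ∀ h : H, f h ∈ M ↔ h ∈ L := by
      intro h
      show e.symm (f h • a) ∈ L ↔ _
      rw [← he, Equiv.symm_apply_apply]
    have hle : stabilizer G a ≤ M := by
      intro s hs
      show e.symm (s • a) ∈ L
      rw [mem_stabilizer_iff.1 hs]
      have := M.one_mem
      change e.symm ((1 : G) • a) ∈ L at this
      rwa [one_smul] at this
    have hco := IsPreprimitive.isCoatom_stabilizer_of_isPreprimitive G a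
    rcases hle.eq_or_lt with h0 | h0
    · left
      rw [eq_bot_iff]
      intro h hh
      rw [← hM, ← h0, mem_stabilizer_iff] at hh
      apply e.injective
      rw [he, hh, he, map_one, one_smul]
    · right
      rw [eq_top_iff]
      intro h _
      rw [← hM, hco.2 M h0]
      trivial
  have hst : ∀ b c : Ω, b ≠ a → c ≠ a → ∃ g ∈ stabilizer G a, g • b = c := by
    intro b c hb hc
    have h1 : ∀ b : Ω, b ≠ a → e.symm b ≠ 1 := by
      intro b hb h
      rw [Equiv.symm_apply_eq, he, map_one, one_smul] at h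
      exact hb h
    obtain ⟨_, ⟨g, hg, rfl⟩, h2⟩ := hK.trans hP p hns hU hne (h1 b hb) (h1 c hc)
    refine ⟨g, hg, ?_⟩
    have := congrArg e h2
    rwa [hφ, Equiv.apply_symm_apply, Equiv.apply_symm_apply] at this
  rw [is_two_pretransitive_iff]
  intro x y z w hxy hzw
  obtain ⟨g1, hg1⟩ := exists_smul_eq G x a
  obtain ⟨g2, hg2⟩ := exists_smul_eq G z a
  obtain ⟨g, hg, h3⟩ := hst (g1 • y) (g2 • w) (by rw [← hg1]; simpa using hxy.symm)
    (by rw [← hg2]; simpa using hzw.symm)
  refine ⟨g2⁻¹ * g * g1, ?_, ?_⟩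
  · rw [mul_smul, mul_smul, hg1, mem_stabilizer_iff.1 hg, ← hg2, inv_smul_smul]
  · rw [mul_smul, mul_smul, h3, inv_smul_smul]

open MulAction in
/-- Schur: a primitive group with a regular cyclic subgroup of composite order is doubly
transitive. -/
theorem two_trans_cyclic {G Ω : Type*} [Group G] [MulAction G Ω] [Finite Ω]
    (hprim : IsPreprimitive G Ω) (C : Subgroup G) [IsCyclic C] (a : Ω)
    (htr : IsPretransitive C Ω) (hst : stabilizer C a = ⊥) (hn : 2 ≤ Nat.card Ω)
    (hnp : ¬ (Nat.card Ω).Prime) : IsMultiplyPretransitive G Ω 2 := by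
  classical
  have hbij : Function.Bijective fun h : C => C.subtype h • a := by
    constructor
    · intro x y hxy
      have : y⁻¹ * x ∈ stabilizer C a := by
        rw [mem_stabilizer_iff, mul_smul, inv_smul_eq_iff]
        exact hxy
      rw [hst, Subgroup.mem_bot] at this
      exact (inv_mul_eq_one.1 this).symm
    · intro b
      exact exists_smul_eq C a b
  haveI : Finite C := Finite.of_injective _ hbij.1
  letI : Fintype C := Fintype.ofFinite C
  have hcard : Nat.card C = Nat.card Ω := Nat.card_eq_of_bijective _ hbij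
  letI : CommGroup C := IsCyclic.commGroup
  obtain ⟨p, hp, hpd⟩ := Nat.exists_prime_and_dvd (show Nat.card Ω ≠ 1 by omega)
  haveI : Fact p.Prime := ⟨hp⟩
  have hker := IsCyclic.card_powMonoidHom_ker C p
  have hran := IsCyclic.card_powMonoidHom_range C p
  rw [hcard, Nat.gcd_eq_right hpd] at hker hran
  refine two_trans hprim C.subtype a hbij p ?_ ?_ ?_
  · by_contra hc
    push Not at hc
    have : (powMonoidHom p : C →* C).range = ⊤ := by
      rw [eq_top_iff]
      intro h _
      exact hc h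
    rw [this, Subgroup.card_top, hcard] at hran
    have := Nat.div_lt_self (show 0 < Nat.card Ω by omega) hp.one_lt
    omega
  · refine Eq.trans ?_ hker
    rw [Nat.card_eq_fintype_card, Fintype.card_subtype]
    congr 1
    ext u
    simp [MonoidHom.mem_ker]
  · by_contra hc
    push Not at hc
    have : (powMonoidHom p : C →* C).ker = ⊤ := by
      rw [eq_top_iff]
      intro h _
      exact hc h
    rw [this, Subgroup.card_top, hcard] at hker
    exact hnp (hker ▸ hp)

end H30.SR
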