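import Cfsg.Agent.H2.SpSpec

/-! Slots DegB and WS of the tower for row S4578: valuations of degrees. -/

set_option autoImplicit false

namespace H30.Spn

open Cfsg Equiv H2.Sp

theorem jobWS : WS := by
  intro Ω _ _ p hp χ g σ w hg h0
  haveI : Fact p.Prime := ⟨hp⟩
  haveI : NeZero p := ⟨hp.ne_zero⟩
  obtain ⟨r, δ, m, w', γ, hc, ht⟩ :=
    H40.Sn.exists_core (p := p) (H40.Sn.stair1_val (Fintype.card Ω)) (by simp) χ
  have hw : w ≤ w' := by
    by_contra hw
    have h1 := hc.Xv_eq ht.sm σ (ρ := Multiset.replicate w 1) (by simp; omega)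
    rw [H40.Sn.phi_eq_zero_of_ne (by rw [ht.sm]; simp; omega), mul_zero, Multiset.map_replicate,
      mul_one, ← hg] at h1
    rcases ht.lab with h | h <;> simp [h, H40.Sn.chi_apply, h1] at h0
  have h1 := hc.nu_deg hp ht
  have h2 := Nat.factorization_le_factorization_of_dvd_right (a := p)
    (H40.Sn.phi_one_dvd hc.st ht.fi ht.sm)
  rw [H40.An.nu_factorial_mul, Nat.card_perm, Nat.card_eq_fintype_card] at h1
  rcases eq_or_ne (H40.Sn.phi r δ γ (Multiset.replicate w' 1)).natAbs 0 with h | h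
  · rw [h] at h1
    simp only [Nat.factorization_zero, Finsupp.coe_zero, Pi.zero_apply] at h1
    omega
  · have := h2 h (Nat.factorial_ne_zero _)
    omega

theorem cnt_cons (p : ℕ) (a b : ℤ) (l : List ℤ) : cnt p a (b :: l) =
    cnt p a l + (if (p : ℤ) ∣ a + b then 1 else 0) - if (p : ℤ) ∣ a - b then 1 else 0 := by
  simp only [cnt, List.countP_cons, decide_eq_true_eq]
  split_ifs <;> push_cast <;> ring

theorem N_perm (p : ℕ) {l l' : List ℤ} (h : l.Perm l') : N p l = N p l' := by
  induction h with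
  | nil => rfl
  | cons a h ih => simp only [N_cons, ih, cnt, h.countP_eq]
  | swap a b l =>
    simp only [N_cons, cnt_cons, add_comm b a, dvd_sub_comm (b := b) (c := a)]
    ring
  | trans _ _ h1 h2 => exact h1.trans h2

theorem R_perm {l l' : List ℤ} (h : l.Perm l') : |R l| = |R l'| := by
  induction h with
  | nil => rfl
  | cons a h ih => simp only [R_cons, abs_mul, abs_div, ih, (h.map _).prod_eq]
  | swap a b l =>
    simp only [R_cons, List.map_cons, List.prod_cons]
    rw [← abs_neg, add_comm b a, ← neg_sub a b, Int.cast_neg]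
    congr 1
    ring
  | trans _ _ h1 h2 => exact h1.trans h2

/-- The valuation minus the indicator of divisibility. -/
def ex (p : ℕ) (m : ℤ) : ℤ := padicValInt p m - if (p : ℤ) ∣ m then 1 else 0

variable {p : ℕ} [hp : Fact p.Prime]

theorem ex_nonneg {m : ℤ} (hm : m ≠ 0) : 0 ≤ ex p m := by
  unfold ex
  split_ifs with h
  · have := (padicValInt_dvd_iff (p := p) 1 m).1 (by simpa using h)
    omega
  · omega

theorem sum_ex (n : ℕ) : ∀ s : Finset ℤ, (∀ m ∈ s, 0 < m ∧ m ≤ n) →
    ∑ m ∈ s, ex p m ≤ padicValNat p n.factorial - (n / p : ℕ) := by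
  induction n with
  | zero =>
    intro s hs
    rw [Finset.eq_empty_of_forall_notMem (s := s) fun m hm => by have := hs m hm; omega]
    simp
  | succ n ih =>
    intro s hs
    have h1 := ih (s.erase (n + 1)) fun m hm => by
      have := hs m (Finset.mem_of_mem_erase hm)
      have := Finset.ne_of_mem_erase hm
      omega
    have h2 : ∑ m ∈ s, ex p m ≤ ex p (n + 1) + ∑ m ∈ s.erase (n + 1), ex p m := by
      by_cases h : (n + 1 : ℤ) ∈ s
      · exact (Finset.add_sum_erase _ _ h).ge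
      · rw [Finset.erase_eq_of_notMem h]
        have := ex_nonneg (p := p) (m := n + 1) (by omega)
        omega
    have h3 : ex p (n + 1) = padicValNat p (n + 1) - if p ∣ n + 1 then 1 else 0 := by
      rw [ex, ← Nat.cast_succ, padicValInt.of_nat]
      simp only [Int.natCast_dvd_natCast]
    rw [Nat.factorial_succ, padicValNat.mul (by omega) (Nat.factorial_ne_zero _), Nat.succ_div]
    split_ifs at h3 ⊢ <;> simp only [Nat.cast_add (padicValNat _ _), Nat.cast_add (n / p)] <;> omega

theorem val_prod (a : ℤ) : ∀ l : List ℤ, (∀ b ∈ l, 0 < b ∧ b < a) →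
    (l.map fun b => ((a - b : ℤ) : ℚ) / ((a + b : ℤ) : ℚ)).prod ≠ 0 ∧
    padicValRat p (l.map fun b => ((a - b : ℤ) : ℚ) / ((a + b : ℤ) : ℚ)).prod + cnt p a l ≤
      (l.map fun b => ex p (a - b)).sum
  | [], _ => by simp [cnt]
  | b :: l, h => by
    obtain ⟨h1, h2⟩ := val_prod a l fun c hc => h c (List.mem_cons_of_mem _ hc)
    obtain ⟨h3, h4⟩ := h b List.mem_cons_self
    have h5 : ((a - b : ℤ) : ℚ) ≠ 0 := Int.cast_ne_zero.2 (by omega)
    have h6 : ((a + b : ℤ) : ℚ) ≠ 0 := Int.cast_ne_zero.2 (by omega)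
    have h7 := ex_nonneg (p := p) (m := a + b) (by omega)
    simp only [List.map_cons, List.prod_cons, List.sum_cons]
    refine ⟨mul_ne_zero (div_ne_zero h5 h6) h1, ?_⟩
    rw [padicValRat.mul (div_ne_zero h5 h6) h1, padicValRat.div h5 h6, padicValRat.of_int,
      padicValRat.of_int, cnt_cons]
    unfold ex at *
    omega

theorem sorted_case : ∀ l : List ℤ, l.Pairwise (· > ·) → Pos l →
    R l ≠ 0 ∧ padicValRat p (R l) + N p l ≤ 0
  | [], _, _ => by simp [R_nil, N_nil]
  | a :: l, h, h0 => by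
    rw [List.pairwise_cons] at h
    obtain ⟨h1, h2⟩ := sorted_case l h.2 fun c hc => h0 c (List.mem_cons_of_mem _ hc)
    have hl : ∀ b ∈ l, 0 < b ∧ b < a := fun b hb => ⟨h0 b (List.mem_cons_of_mem _ hb), h.1 b hb⟩
    obtain ⟨h3, h4⟩ := val_prod (p := p) a l hl
    obtain ⟨n, rfl⟩ := Int.eq_ofNat_of_zero_le (h0 a List.mem_cons_self).le
    have h5 : ((n.factorial : ℕ) : ℚ) ≠ 0 := Nat.cast_ne_zero.2 (Nat.factorial_ne_zero _)
    have h6 := sum_ex (p := p) n (l.map fun b => (n : ℤ) - b).toFinset fun m hm => by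
      obtain ⟨b, hb, rfl⟩ := List.mem_map.1 (List.mem_toFinset.1 hm)
      have := hl b hb
      omega
    rw [List.sum_toFinset _ ((h.2.imp ne_of_gt).map _ fun _ _ e e' => e (by omega)),
      List.map_map] at h6
    rw [R_cons, N_cons, Int.toNat_natCast]
    refine ⟨mul_ne_zero (div_ne_zero h1 h5) h3, ?_⟩
    rw [padicValRat.mul (div_ne_zero h1 h5) h3, padicValRat.div h1 h5, padicValRat.of_nat]
    have h8 : (l.map (ex p ∘ fun b => (n : ℤ) - b)).sum = (l.map fun b => ex p (n - b)).sum := rfl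
    rw [h8, Int.natCast_div] at h6
    linarith

theorem jobDegB : DegB := by
  intro p hp _ l hl
  haveI : Fact p.Prime := ⟨hp⟩
  have hperm := List.mergeSort_perm l fun a b => decide (a ≥ b)
  have hs : (l.mergeSort fun a b => decide (a ≥ b)).Pairwise (· > ·) :=
    ((List.pairwise_mergeSort' (· ≥ ·) l).and (hperm.nodup_iff.2 hl.1)).imp
      fun h => lt_of_le_of_ne h.1 h.2.symm
  obtain ⟨h1, h2⟩ := sorted_case (p := p) _ hs fun a ha => hl.2 a (hperm.subset ha)
  have h3 := R_perm hperm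
  rw [N_perm p hperm] at h2
  rcases abs_eq_abs.1 h3 with e | e
  · rw [e] at h1 h2; exact ⟨h1, h2⟩
  · rw [e] at h1 h2
    rw [padicValRat.neg] at h2
    exact ⟨neg_ne_zero.1 h1, h2⟩

end H30.Spn
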