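import Cfsg.Agent.H67.G2Two
import Cfsg.Agent.H44.CD1

/-! Irreducible complex representations of `U₃(3)` of degrees 6, 14 and 21. -/

set_option autoImplicit false
open Cfsg

namespace H30.U33

open Matrix Module

/-- a line of weight vectors generates an irreducible subrepresentation -/
theorem exists_irr {G V : Type*} [Group G] [Finite G] [AddCommGroup V] [Module ℂ V] [FiniteDimensional ℂ V]
    (ρ : Representation ℂ G V) (S : Subrepresentation ρ) {v : V} (hv : v ∈ S.toSubmodule) (h0 : v ≠ 0)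
    (P : V →ₗ[ℂ] V) (hP : ∀ U : Subrepresentation ρ, ∀ u ∈ U.toSubmodule, P u ∈ U.toSubmodule)
    (h1 : P v = v) (hS : ∀ u ∈ S.toSubmodule, ∃ a : ℂ, P u = a • v) :
    ∃ W : Subrepresentation ρ, v ∈ W.toSubmodule ∧ W.toSubmodule ≤ S.toSubmodule ∧
      finrank ℂ W.toSubmodule ∈ charDegrees G := by
  let W : Subrepresentation ρ := ⟨Submodule.span ℂ (Set.range fun g => ρ g v), fun g u hu => by
    refine (Submodule.span_le (p := (Submodule.span ℂ (Set.range fun g => ρ g v)).comap (ρ g))).2 ?_ hu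
    rintro _ ⟨a, rfl⟩
    exact Submodule.subset_span ⟨g * a, by simp⟩⟩
  have le : ∀ U : Subrepresentation ρ, v ∈ U.toSubmodule → W.toSubmodule ≤ U.toSubmodule := fun U h =>
    Submodule.span_le.2 (by rintro _ ⟨a, rfl⟩; exact U.apply_mem_toSubmodule a h)
  have vW : v ∈ W.toSubmodule := Submodule.subset_span ⟨1, by simp⟩
  have : NeZero (Nat.card G : ℂ) := ⟨Nat.cast_ne_zero.2 Nat.card_pos.ne'⟩
  have := H28.isIrreducible_of_minimal W (fun e => h0 (by rwa [e] at vW)) fun U h1' h2 => by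
    obtain ⟨U', c⟩ := exists_isCompl U
    obtain ⟨u, hu, u', hu', e⟩ := Submodule.mem_sup.1
      (show v ∈ (U ⊔ U').toSubmodule by rw [c.sup_eq_top]; trivial)
    obtain ⟨a, ha⟩ := hS u (le S hv (h1' hu))
    by_cases a0 : a = 0
    · have : v ∈ U'.toSubmodule := by
        have := hP U' u' hu'
        rwa [eq_sub_of_add_eq' e, map_sub, h1, ha, a0, zero_smul, sub_zero] at this
      refine absurd (le_bot_iff.1 ?_) h2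
      exact (le_inf le_rfl (h1'.trans (le U' this))).trans
        (show (U ⊓ U').toSubmodule ≤ ⊥ by rw [c.inf_eq_bot]; exact le_rfl)
    · exact h1'.antisymm (le U ((Submodule.smul_mem_iff _ a0).1 (ha ▸ hP U u hu)))
  exact ⟨W, vW, le S hv, H28.charDegree_rep W.toRepresentation ▸
    H44.mem_cd (H28.isIrrCharacter_rep W.toRepresentation)⟩

abbrev K : Type := QuadraticAlgebra ℚ (-1) 0
abbrev M6 : Type := Matrix (Fin 6) (Fin 6) K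
abbrev C6 : Type := Matrix (Fin 6) (Fin 6) ℂ

noncomputable def f : K →+* ℂ :=
  (QuadraticAlgebra.lift (R := ℚ) (a := -1) (b := 0) ⟨Complex.I, by simp⟩).toRingHom

def mX : M6 := !![⟨0, 1⟩, 0, 0, 0, 0, 0; 0, 1, 0, 0, 0, 0; 0, 0, ⟨0, -1⟩, 0, 0, 0; 0, 0, 0, ⟨0, -1⟩, 0, 0; 0, 0, 0, 0, 1, 0; 0, 0, 0, 0, 0, ⟨0, 1⟩]
def mY : M6 := !![1, 0, 0, 0, 0, 0; 0, ⟨0, 1⟩, 0, 0, 0, 0; 0, 0, ⟨0, -1⟩, 0, 0, 0; 0, 0, 0, 1, 0, 0; 0, 0, 0, 0, ⟨0, -1⟩, 0; 0, 0, 0, 0, 0, ⟨0, 1⟩]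
def mG : M6 := !![0, 0, 1, 0, 0, 0; 1, 0, 0, 0, 0, 0; 0, 1, 0, 0, 0, 0; 0, 0, 0, 0, 0, 1; 0, 0, 0, 1, 0, 0; 0, 0, 0, 0, 1, 0]
def mH : M6 := !![⟨-1/2, 1/2⟩, ⟨-1/2, 1/2⟩, 0, 0, 0, 0; ⟨1/2, 1/2⟩, ⟨-1/2, -1/2⟩, 0, 0, 0, 0; 0, 0, ⟨-1/2, 0⟩, 0, 0, ⟨1/2, 0⟩; 0, 0, 0, ⟨-1/2, -1/2⟩, ⟨-1/2, -1/2⟩, 0; 0, 0, 0, ⟨1/2, -1/2⟩, ⟨-1/2, 1/2⟩, 0; 0, 0, ⟨-3/2, 0⟩, 0, 0, ⟨-1/2, 0⟩]
def mT : M6 := !![0, ⟨-1, 0⟩, 0, 0, 0, 0; ⟨-1, 0⟩, 0, 0, 0, 0, 0; 0, 0, ⟨-1, 0⟩, 0, 0, 0; 0, 0, 0, 0, ⟨-1, 0⟩, 0; 0, 0, 0, ⟨-1, 0⟩, 0, 0; 0, 0, 0, 0, 0, ⟨-1, 0⟩]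
def mXi : M6 := !![⟨0, -1⟩, 0, 0, 0, 0, 0; 0, 1, 0, 0, 0, 0; 0, 0, ⟨0, 1⟩, 0, 0, 0; 0, 0, 0, ⟨0, 1⟩, 0, 0; 0, 0, 0, 0, 1, 0; 0, 0, 0, 0, 0, ⟨0, -1⟩]
def mYi : M6 := !![1, 0, 0, 0, 0, 0; 0, ⟨0, -1⟩, 0, 0, 0, 0; 0, 0, ⟨0, 1⟩, 0, 0, 0; 0, 0, 0, 1, 0, 0; 0, 0, 0, 0, ⟨0, 1⟩, 0; 0, 0, 0, 0, 0, ⟨0, -1⟩]
def mGi : M6 := !![0, 1, 0, 0, 0, 0; 0, 0, 1, 0, 0, 0; 1, 0, 0, 0, 0, 0; 0, 0, 0, 0, 1, 0; 0, 0, 0, 0, 0, 1; 0, 0, 0, 1, 0, 0]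
def mHi : M6 := !![⟨-1/2, -1/2⟩, ⟨1/2, -1/2⟩, 0, 0, 0, 0; ⟨-1/2, -1/2⟩, ⟨-1/2, 1/2⟩, 0, 0, 0, 0; 0, 0, ⟨-1/2, 0⟩, 0, 0, ⟨-1/2, 0⟩; 0, 0, 0, ⟨-1/2, 1/2⟩, ⟨1/2, 1/2⟩, 0; 0, 0, 0, ⟨-1/2, 1/2⟩, ⟨-1/2, -1/2⟩, 0; 0, 0, ⟨3/2, 0⟩, 0, 0, ⟨-1/2, 0⟩]
def mW1 : M6 := !![⟨-1/2, 0⟩, 0, 0, ⟨1/2, 0⟩, 0, 0; 0, ⟨-1/2, 1/2⟩, ⟨-1/2, 1/2⟩, 0, 0, 0; 0, ⟨1/2, 1/2⟩, ⟨-1/2, -1/2⟩, 0, 0, 0; ⟨-3/2, 0⟩, 0, 0, ⟨-1/2, 0⟩, 0, 0; 0, 0, 0, 0, ⟨-1/2, -1/2⟩, ⟨-1/2, -1/2⟩; 0, 0, 0, 0, ⟨1/2, -1/2⟩, ⟨-1/2, 1/2⟩]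
def mW : M6 := !![0, ⟨-1/4, -1/4⟩, ⟨-1/4, 1/4⟩, 0, ⟨1/4, -1/4⟩, ⟨1/4, 1/4⟩; ⟨-1/4, 1/4⟩, ⟨-1/2, 0⟩, ⟨0, -1/2⟩, ⟨-1/4, 1/4⟩, 0, 0; ⟨-1/4, -1/4⟩, ⟨0, 1/2⟩, ⟨-1/2, 0⟩, ⟨-1/4, -1/4⟩, 0, 0; 0, ⟨-3/4, -3/4⟩, ⟨-3/4, 3/4⟩, 0, ⟨-1/4, 1/4⟩, ⟨-1/4, -1/4⟩; ⟨3/4, 3/4⟩, 0, 0, ⟨-1/4, -1/4⟩, ⟨-1/2, 0⟩, ⟨0, 1/2⟩; ⟨3/4, -3/4⟩, 0, 0, ⟨-1/4, 1/4⟩, ⟨0, -1/2⟩, ⟨-1/2, 0⟩]
def mE : M6 := !![⟨-1/2, 1/2⟩, ⟨1/2, -1/2⟩, 0, 0, 0, 0; ⟨-1/2, -1/2⟩, ⟨-1/2, -1/2⟩, 0, 0, 0, 0; 0, 0, ⟨-1/2, 0⟩, 0, 0, ⟨1/2, 0⟩; 0, 0, 0, ⟨-1/2, -1/2⟩, ⟨1/2, 1/2⟩, 0; 0, 0, 0, ⟨-1/2, 1/2⟩, ⟨-1/2, 1/2⟩, 0; 0, 0, ⟨-3/2, 0⟩, 0, 0, ⟨-1/2, 0⟩]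
def mZ : M6 := !![0, 0, 0, 1, 0, 0; 0, 0, 0, 0, ⟨-1, 0⟩, 0; 0, 0, 0, 0, 0, 0; ⟨-1, 0⟩, 0, 0, 0, 0, 0; 0, 1, 0, 0, 0, 0; 0, 0, 0, 0, 0, 0]

def un (A B : M6) (h : A * B = 1 ∧ B * A = 1) : M6ˣ := ⟨A, B, h.1, h.2⟩
def uX : M6ˣ := un mX mXi (by decide +kernel)
def uY : M6ˣ := un mY mYi (by decide +kernel)
def uG : M6ˣ := un mG mGi (by decide +kernel)
def uH : M6ˣ := un mH mHi (by decide +kernel)
def uT : M6ˣ := un mT mT (by decide +kernel)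

theorem u33 : H93.U33 uX uY uG uH uT := by
  constructor <;> (try simp only [pow_succ, pow_zero, one_mul, mul_inv_eq_iff_eq_mul]) <;>
    exact Units.ext (by decide +kernel)

theorem rel : H93.u33w uG uH uT * (uX * uX * uH * uX⁻¹ * uX⁻¹) =
    uX * uX * uH * uX⁻¹ * uX⁻¹ * H93.u33w uG uH uT := by
  have h0 : (uG * uH * uG⁻¹).1 = mW1 := by decide +kernel
  have h1 : (H93.u33w uG uH uT).1 = mW := by
    rw [H93.u33w, Units.val_mul, Units.val_mul, Units.val_mul, h0]; decide +kernel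
  have h2 : (uX * uX * uH * uX⁻¹ * uX⁻¹).1 = mE := by decide +kernel
  apply Units.ext
  rw [Units.val_mul, h1, h2, Units.val_mul, h1, h2]
  decide +kernel

abbrev Γ : Type := H67.g2K (ZMod 2)

def gn (k : ℕ) : M6 := [mX, mY, mG, mH, mT].getD k 1

theorem exists_A : ∃ A : Γ →* C6, ∀ k, ∃ γ, A γ = f.mapMatrix (gn k) := by
  obtain ⟨φ, -, hφ⟩ := H71.model_hom (H93.u33_bd ((u33.sat1 rel).pair (H67.g2_sat (F := ZMod 2))))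
    (H67.g2K_card (ZMod.card 2)).ge
  refine ⟨f.mapMatrix.toMonoidHom.comp ((Units.coeHom _).comp ((Subgroup.subtype _).comp φ)), fun k => ?_⟩
  have e := fun l hl => congrArg (fun a => f.mapMatrix (Units.val (Subtype.val a))) (hφ l hl)
  rcases k with _ | _ | _ | _ | _ | k
  exacts [⟨_, e 0 (by decide)⟩, ⟨_, e 2 (by decide)⟩, ⟨_, e 4 (by decide)⟩, ⟨_, e 6 (by decide)⟩,
    ⟨_, e 8 (by decide)⟩, ⟨1, by simp [gn]⟩]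

/-- the action on matrices -/
def act {R : Type} [CommRing R] (b : Bool) (a M : Matrix (Fin 6) (Fin 6) R) : Matrix (Fin 6) (Fin 6) R :=
  a * M * if b then aᵀ else 1

noncomputable def rho (b : Bool) (A : Γ →* C6) : Representation ℂ Γ C6 where
  toFun g := { toFun := act b (A g), map_add' := fun _ _ => by simp only [act, mul_add, add_mul],
               map_smul' := fun _ _ => by simp [act] }
  map_one' := by ext1 M; simp [act]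
  map_mul' g h := by
    ext1 M
    change act b (A (g * h)) M = act b (A g) (act b (A h) M)
    cases b <;> simp [act, mul_assoc]

noncomputable def had (c : M6) : C6 →ₗ[ℂ] C6 where
  toFun M := Matrix.of fun i j => f (c i j) * M i j
  map_add' _ _ := by ext; simp [mul_add]
  map_smul' _ _ := by ext; simp [mul_left_comm]

theorem had_apply (c : M6) (M : C6) (i j : Fin 6) : had c M i j = f (c i j) * M i j := rfl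

def dg (b : Bool) (k : ℕ) : M6 := fun i j => gn k i i * if b then gn k j j else 1
def pq (b : Bool) (k : ℕ) (u : K) : M6 := fun i j =>
  1 + u * dg b k i j + (u * dg b k i j) ^ 2 + (u * dg b k i j) ^ 3
def pr (b : Bool) (u1 u2 k : K) : M6 := fun i j => k * (pq b 1 u2 i j * pq b 0 u1 i j)

variable {b : Bool} {A : Γ →* C6} (hA : ∀ k, ∃ γ, A γ = f.mapMatrix (gn k))
include hA

theorem pq_mem (W : Subrepresentation (rho b A)) {k : ℕ} (hk : gn k = diagonal fun i => gn k i i) (u : K)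
    {M : C6} (hM : M ∈ W.toSubmodule) : had (pq b k u) M ∈ W.toSubmodule := by
  obtain ⟨γ, hγ⟩ := hA k
  have h : ∀ M ∈ W.toSubmodule, f u • had (dg b k) M ∈ W.toSubmodule := fun M hM => by
    refine Submodule.smul_mem _ _ ?_
    convert W.apply_mem_toSubmodule γ hM using 1
    ext i j
    change _ = act b (A γ) M i j
    rw [hγ, hk, RingHom.mapMatrix_apply, diagonal_map (map_zero f), act]
    cases b <;> simp [had_apply, dg, mul_right_comm]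
  convert add_mem (add_mem (add_mem hM (h _ hM)) (h _ (h _ hM))) (h _ (h _ (h _ hM))) using 1
  ext i j
  simp [had_apply, pq]
  ring

theorem pr_mem (W : Subrepresentation (rho b A)) (u1 u2 k : K) {M : C6} (hM : M ∈ W.toSubmodule) :
    had (pr b u1 u2 k) M ∈ W.toSubmodule := by
  convert W.toSubmodule.smul_mem (f k) (pq_mem hA W (k := 1) (by decide +kernel) u2
    (pq_mem hA W (k := 0) (by decide +kernel) u1 hM)) using 1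
  ext i j
  simp [had_apply, pr, mul_assoc]

omit hA in
structure Step where
  p : Fin 6 × Fin 6
  q : Fin 6 × Fin 6
  g : ℕ
  u1 : K
  u2 : K
  k : K

omit hA in
def chk (b : Bool) (bas : Fin 6 × Fin 6 → M6) : List Step → List (Fin 6 × Fin 6) → Option (List (Fin 6 × Fin 6))
  | [], acc => some acc
  | s :: t, acc => if decide (s.p ∈ acc) &&
      decide (bas s.q = pr b s.u1 s.u2 s.k ⊙ act b (gn s.g) (bas s.p)) then chk b bas t (s.q :: acc) else none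

theorem chk_mem (W : Subrepresentation (rho b A)) (bas : Fin 6 × Fin 6 → M6) (t : List Step)
    (acc L : List (Fin 6 × Fin 6)) (h : chk b bas t acc = some L)
    (h0 : ∀ p ∈ acc, f.mapMatrix (bas p) ∈ W.toSubmodule) : ∀ p ∈ L, f.mapMatrix (bas p) ∈ W.toSubmodule := by
  induction t generalizing acc with
  | nil => exact Option.some.inj h ▸ h0
  | cons s t ih =>
    rw [chk] at h
    split_ifs at h with e
    rw [Bool.and_eq_true, decide_eq_true_eq, decide_eq_true_eq] at e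
    refine ih _ h (List.forall_mem_cons.2 ⟨?_, h0⟩)
    obtain ⟨γ, hγ⟩ := hA s.g
    convert pr_mem hA W s.u1 s.u2 s.k (W.apply_mem_toSubmodule γ (h0 _ e.1)) using 1
    ext i j
    change f (bas s.q i j) = f _ * act b (A γ) _ i j
    rw [e.2, hadamard_apply, map_mul, hγ]
    congr 1
    change f.mapMatrix (act b _ _) i j = _
    cases b <;> simp [act, -RingHom.mapMatrix_apply]
    rfl

omit hA in
/-- coordinates -/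
def co {n : ℕ} (L : Fin n → Fin 6 × Fin 6) : C6 →ₗ[ℂ] (Fin n → ℂ) where
  toFun M k := M (L k).1 (L k).2
  map_add' _ _ := rfl
  map_smul' _ _ := rfl

omit hA in
theorem co_zero {n : ℕ} {L : Fin n → Fin 6 × Fin 6} {u : C6} (e : co L u = 0) {k : Fin n} {i j : Fin 6}
    (h : L k = (i, j)) : u i j = 0 := by
  have : u (L k).1 (L k).2 = 0 := congrFun e k
  rwa [h] at this

theorem exists_deg (S : Subrepresentation (rho b A)) (bas : Fin 6 × Fin 6 → M6) (t : List Step)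
    (p : Fin 6 × Fin 6) (u1 u2 : K) (L : List (Fin 6 × Fin 6)) (h : chk b bas t [p] = some L)
    (hv : f.mapMatrix (bas p) ∈ S.toSubmodule) (h0 : bas p p.1 p.2 = 1)
    (h1 : pr b u1 u2 ⟨1 / 16, 0⟩ ⊙ bas p = bas p)
    (hS : ∀ u ∈ S.toSubmodule, ∀ i j, f (pr b u1 u2 ⟨1 / 16, 0⟩ i j) * u i j = u p.1 p.2 * f (bas p i j))
    {m n : ℕ} (N N' : Fin m → Fin 6 × Fin 6) (hN : ∀ k, N k ∈ L)
    (hN' : ∀ k l, bas (N k) (N' l).1 (N' l).2 = if k = l then 1 else 0) (U : Fin n → Fin 6 × Fin 6)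
    (hU : ∀ u ∈ S.toSubmodule, co U u = 0 → u = 0) : ∃ d ∈ charDegrees Γ, m ≤ d ∧ d ≤ n := by
  obtain ⟨W, w1, w2, w3⟩ := exists_irr (rho b A) S hv (fun e => by
      have := congrFun (congrFun e p.1) p.2
      simp [h0] at this) (had (pr b u1 u2 ⟨1 / 16, 0⟩)) (fun U u hu => pr_mem hA U _ _ _ hu)
    (by ext i j; exact (map_mul f _ _).symm.trans (congrArg f (congrFun (congrFun h1 i) j)))
    fun u hu => ⟨u p.1 p.2, by ext i j; exact hS u hu i j⟩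
  have hm := chk_mem hA W bas t _ L h (by simpa using w1)
  refine ⟨_, w3, ?_, ?_⟩
  · have : LinearIndependent ℂ fun k => (⟨_, hm _ (hN k)⟩ : W.toSubmodule) := by
      refine LinearIndependent.of_comp ((co N').comp W.toSubmodule.subtype) ?_
      convert (Pi.basisFun ℂ (Fin m)).linearIndependent using 1
      ext k l
      change f (bas (N k) (N' l).1 (N' l).2) = _
      rw [hN', Pi.basisFun_apply, Pi.single_apply]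
      simp [eq_comm, apply_ite f]
    simpa using this.fintype_card_le_finrank
  · simpa using LinearMap.finrank_le_finrank_of_injective (f := (co U).comp W.toSubmodule.subtype)
      ((injective_iff_map_eq_zero _).2 fun u e => Subtype.ext (hU u (w2 u.2) e))

omit hA

def basS (p : Fin 6 × Fin 6) : M6 := fun i j => if (i, j) = p ∨ (j, i) = p then 1 else 0
def basA (p : Fin 6 × Fin 6) : M6 :=
  if p = (0, 0) then mZ else fun i j => if (i, j) = p then 1 else if (j, i) = p then -1 else 0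
def basC (p : Fin 6 × Fin 6) : M6 := fun i j => if (i, j) = p then 1 else 0

def stS : List Step := [⟨(0, 1), (1, 2), 2, ⟨0, 1⟩, 1, ⟨1/16, 0⟩⟩,
  ⟨(0, 1), (1, 1), 3, 1, ⟨-1, 0⟩, ⟨0, 1/16⟩⟩,
  ⟨(0, 1), (0, 0), 3, ⟨-1, 0⟩, 1, ⟨0, 1/16⟩⟩,
  ⟨(1, 2), (0, 2), 2, 1, ⟨0, 1⟩, ⟨1/16, 0⟩⟩,
  ⟨(1, 2), (0, 5), 3, ⟨-1, 0⟩, ⟨0, -1⟩, ⟨1/24, 1/24⟩⟩,
  ⟨(1, 2), (1, 5), 3, ⟨0, -1⟩, ⟨-1, 0⟩, ⟨1/24, -1/24⟩⟩,
  ⟨(1, 1), (2, 2), 2, ⟨-1, 0⟩, ⟨-1, 0⟩, ⟨1/16, 0⟩⟩,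
  ⟨(0, 5), (1, 3), 2, ⟨0, 1⟩, ⟨0, -1⟩, ⟨1/16, 0⟩⟩,
  ⟨(1, 5), (2, 3), 2, ⟨-1, 0⟩, ⟨0, 1⟩, ⟨1/16, 0⟩⟩,
  ⟨(2, 2), (2, 5), 3, 1, 1, ⟨1/12, 0⟩⟩,
  ⟨(1, 3), (2, 4), 2, ⟨0, 1⟩, ⟨-1, 0⟩, ⟨1/16, 0⟩⟩,
  ⟨(1, 3), (0, 4), 4, ⟨0, -1⟩, ⟨0, 1⟩, ⟨1/16, 0⟩⟩,
  ⟨(2, 3), (3, 5), 3, 1, ⟨0, -1⟩, ⟨1/24, -1/24⟩⟩,
  ⟨(2, 3), (4, 5), 3, ⟨0, -1⟩, 1, ⟨-1/24, -1/24⟩⟩,
  ⟨(2, 5), (0, 3), 2, 1, 1, ⟨1/16, 0⟩⟩,
  ⟨(3, 5), (3, 4), 2, ⟨0, 1⟩, ⟨0, 1⟩, ⟨1/16, 0⟩⟩,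
  ⟨(0, 3), (1, 4), 2, 1, 1, ⟨1/16, 0⟩⟩,
  ⟨(3, 4), (4, 4), 3, 1, ⟨-1, 0⟩, ⟨0, -1/16⟩⟩,
  ⟨(3, 4), (3, 3), 3, ⟨-1, 0⟩, 1, ⟨0, -1/16⟩⟩,
  ⟨(4, 4), (5, 5), 2, ⟨-1, 0⟩, ⟨-1, 0⟩, ⟨1/16, 0⟩⟩]
def stA : List Step := [⟨(0, 1), (1, 2), 2, ⟨0, 1⟩, 1, ⟨1/16, 0⟩⟩,
  ⟨(1, 2), (0, 2), 2, 1, ⟨0, 1⟩, ⟨-1/16, 0⟩⟩,
  ⟨(1, 2), (0, 5), 3, ⟨-1, 0⟩, ⟨0, -1⟩, ⟨1/24, 1/24⟩⟩,
  ⟨(1, 2), (1, 5), 3, ⟨0, -1⟩, ⟨-1, 0⟩, ⟨1/24, -1/24⟩⟩,
  ⟨(0, 5), (1, 3), 2, ⟨0, 1⟩, ⟨0, -1⟩, ⟨1/16, 0⟩⟩,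
  ⟨(1, 5), (2, 3), 2, ⟨-1, 0⟩, ⟨0, 1⟩, ⟨1/16, 0⟩⟩,
  ⟨(1, 3), (2, 4), 2, ⟨0, 1⟩, ⟨-1, 0⟩, ⟨1/16, 0⟩⟩,
  ⟨(1, 3), (0, 4), 4, ⟨0, -1⟩, ⟨0, 1⟩, ⟨1/16, 0⟩⟩,
  ⟨(1, 3), (0, 0), 3, 1, 1, ⟨1/8, 0⟩⟩,
  ⟨(2, 3), (3, 5), 3, 1, ⟨0, -1⟩, ⟨-1/24, 1/24⟩⟩,
  ⟨(2, 3), (4, 5), 3, ⟨0, -1⟩, 1, ⟨1/24, 1/24⟩⟩,
  ⟨(3, 5), (3, 4), 2, ⟨0, 1⟩, ⟨0, 1⟩, ⟨-1/16, 0⟩⟩]
def stC : List Step := [⟨(0, 0), (1, 0), 2, 1, ⟨0, -1⟩, ⟨1/16, 0⟩⟩,
  ⟨(1, 0), (2, 0), 2, ⟨0, 1⟩, ⟨0, 1⟩, ⟨1/16, 0⟩⟩,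
  ⟨(2, 0), (5, 0), 3, ⟨0, -1⟩, ⟨0, -1⟩, ⟨-1/24, 0⟩⟩,
  ⟨(5, 0), (3, 0), 2, ⟨0, 1⟩, 1, ⟨1/16, 0⟩⟩,
  ⟨(3, 0), (4, 0), 2, 1, ⟨0, 1⟩, ⟨1/16, 0⟩⟩]

/-- symmetric or alternating matrices -/
noncomputable def sym (A : Γ →* C6) (ε : ℂ) : Subrepresentation (rho true A) where
  toSubmodule :=
    { carrier := {M | Mᵀ = ε • M}
      add_mem' := fun {a b} ha hb => by simp only [Set.mem_setOf_eq] at *; rw [transpose_add, ha, hb, smul_add]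
      zero_mem' := by simp
      smul_mem' := fun c a ha => by simp only [Set.mem_setOf_eq] at *; rw [transpose_smul, ha, smul_comm] }
  apply_mem_toSubmodule g M hM := by
    change (act true (A g) M)ᵀ = ε • act true (A g) M
    simp [act, transpose_mul, show Mᵀ = ε • M from hM, mul_assoc]

/-- matrices with only one column -/
noncomputable def col (A : Γ →* C6) : Subrepresentation (rho false A) where
  toSubmodule :=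
    { carrier := {M | ∀ i j, j ≠ 0 → M i j = 0}
      add_mem' := fun {a b} ha hb i j h => by simp [ha i j h, hb i j h]
      zero_mem' := fun _ _ _ => rfl
      smul_mem' := fun c a ha i j h => by simp [ha i j h] }
  apply_mem_toSubmodule g M hM i j h := by
    change act false (A g) M i j = 0
    rw [act, if_neg (by decide), mul_one]
    simp [mul_apply, fun i => hM i j h]

def LS : List (Fin 6 × Fin 6) := (0, 1) :: stS.map (·.q)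
def LA : List (Fin 6 × Fin 6) := (0, 1) :: stA.map (·.q)
def LC : List (Fin 6 × Fin 6) := (0, 0) :: stC.map (·.q)

theorem deg21 : 21 ∈ charDegrees Γ := by
  obtain ⟨A, hA⟩ := exists_A
  have c : pr true ⟨0, -1⟩ ⟨0, -1⟩ ⟨1 / 16, 0⟩ = basS (0, 1) := by decide +kernel
  obtain ⟨d, h1, h2, h3⟩ := exists_deg hA (sym A 1) basS stS (0, 1) ⟨0, -1⟩ ⟨0, -1⟩ LS.reverse
    (by decide +kernel) (by ext i j; simp [basS, or_comm]) (by decide +kernel) (by decide +kernel)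
    (fun u hu i j => by
      have := congrFun (congrFun (show uᵀ = (1 : ℂ) • u from hu) 0) 1
      rw [c, basS]
      split_ifs with e
      · rcases e with e | e <;> cases e <;> simp_all
      · simp)
    (m := 21) (n := 21) (fun k => LS.getD k (0, 0)) (fun k => LS.getD k (0, 0)) (by decide +kernel)
    (by decide +kernel) (fun k => LS.getD k (0, 0)) fun u hu e => by
      ext i j
      obtain ⟨k, hk | hk⟩ : ∃ k : Fin 21, LS.getD k (0, 0) = (i, j) ∨ LS.getD k (0, 0) = (j, i) := by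
        revert i j; decide +kernel
      · exact co_zero e hk
      · simpa [co_zero e hk] using congrFun (congrFun (show uᵀ = (1 : ℂ) • u from hu) j) i
  rwa [← h2.antisymm h3] at h1

theorem deg14 : 14 ∈ charDegrees Γ := by
  obtain ⟨A, hA⟩ := exists_A
  have c : pr true ⟨0, -1⟩ ⟨0, -1⟩ ⟨1 / 16, 0⟩ = basS (0, 1) := by decide +kernel
  have c' : (basA (0, 1))ᵀ = -basA (0, 1) := by decide +kernel
  let U : List (Fin 6 × Fin 6) := (0, 3) :: (1, 4) :: (2, 5) :: LA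
  obtain ⟨d, h1, h2, h3⟩ := exists_deg hA (sym A (-1)) basA stA (0, 1) ⟨0, -1⟩ ⟨0, -1⟩ LA.reverse
    (by decide +kernel) (by ext i j; simpa using congrArg f (congrFun (congrFun c' i) j)) (by decide +kernel) (by decide +kernel)
    (fun u hu i j => by
      have := congrFun (congrFun (show uᵀ = (-1 : ℂ) • u from hu) 0) 1
      rw [c, basS, show basA (0, 1) i j = if (i, j) = (0, 1) then 1 else if (j, i) = (0, 1) then -1 else 0 from rfl]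
      by_cases e1 : (i, j) = (0, 1)
      · cases e1; simp
      by_cases e2 : (j, i) = (0, 1)
      · cases e2; simpa using this
      simp [e1, e2])
    (m := 13) (n := 15) (fun k => LA.getD k (0, 0))
    (fun k => if LA.getD k (0, 0) = (0, 0) then (0, 3) else LA.getD k (0, 0)) (by decide +kernel)
    (by decide +kernel) (fun k => (U.erase (0, 0)).getD k (0, 0)) fun u hu e => by
      ext i j
      have a := congrFun (congrFun (show uᵀ = (-1 : ℂ) • u from hu) j) i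
      obtain rfl | ⟨k, hk | hk⟩ : i = j ∨ ∃ k : Fin 15, (U.erase (0, 0)).getD k (0, 0) = (i, j) ∨
          (U.erase (0, 0)).getD k (0, 0) = (j, i) := by
        clear a; revert i j; decide +kernel
      · simpa [← two_mul, eq_neg_iff_add_eq_zero] using a
      · exact co_zero e hk
      · simpa [co_zero e hk] using a
  have := H44.dvd_card_of_mem_cd h1
  rw [H67.g2K_card (ZMod.card 2)] at this
  rwa [show d = 14 by interval_cases d <;> omega] at h1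

theorem deg6 : 6 ∈ charDegrees Γ := by
  obtain ⟨A, hA⟩ := exists_A
  have c : pr false ⟨0, -1⟩ 1 ⟨1 / 16, 0⟩ = of fun i _ => if i = 0 then 1 else 0 := by decide +kernel
  obtain ⟨d, h1, h2, h3⟩ := exists_deg hA (col A) basC stC (0, 0) ⟨0, -1⟩ 1 LC.reverse
    (by decide +kernel) (fun i j h => by simp [basC, h]) (by decide +kernel) (by decide +kernel)
    (fun u hu i j => by
      rw [c, basC, of_apply]
      by_cases e : j = 0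
      · subst e; by_cases e' : i = 0 <;> simp [e']
      · simp [hu i j e, e])
    (m := 6) (n := 6) (fun k => (k, 0)) (fun k => (k, 0)) (by decide +kernel)
    (by decide +kernel) (fun k => (k, 0)) fun u hu e => by
      ext i j
      by_cases e' : j = 0
      · exact e' ▸ congrFun e i
      · exact hu i j e'
  rwa [← h2.antisymm h3] at h1

end H30.U33
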